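import Mathlib
import Cfsg.Agent.F22L.XD

/-! Coordinates for `3^{1+8}` and for the tensor cube of the natural `SL₂(3)`-module. -/

set_option autoImplicit false

namespace Cfsg.Agent.B8L

open Subgroup
open Cfsg.Agent.F22L (F3 W2 o2 SL qi qj Wr map_f3)

/-- The tensor cube; `v.1.2.1` is the coordinate `010`. -/
abbrev V8 := (W2 × W2) × (W2 × W2)

/-- The alternating form. -/
def om (v w : V8) : F3 := o2 v.1.2 w.2.1 + o2 v.2.1 w.1.2 - o2 v.1.1 w.2.2 - o2 v.2.2 w.1.1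

theorem om_add_left (a b c : V8) : om (a + b) c = om a c + om b c := by simp [om, o2]; ring
theorem om_add_right (a b c : V8) : om a (b + c) = om a b + om a c := by simp [om, o2]; ring
theorem om_smul_left (k : F3) (a c : V8) : om (k • a) c = k * om a c := by simp [om, o2]; ring
theorem om_smul_right (k : F3) (a c : V8) : om a (k • c) = k * om a c := by simp [om, o2]; ring
@[simp] theorem om_self (a : V8) : om a a = 0 := by simp [om, o2]; ring
theorem om_swap (a b : V8) : om a b = -om b a := by simp [om, o2]; ring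
@[simp] theorem om_zero_left (a : V8) : om 0 a = 0 := by simp [om]
@[simp] theorem om_zero_right (a : V8) : om a 0 = 0 := by simp [om]
theorem om_neg_left (a b : V8) : om (-a) b = -om a b := by simp [om, o2]; ring
theorem om_neg_right (a b : V8) : om a (-b) = -om a b := by simp [om, o2]; ring
theorem om_sub_left (a b c : V8) : om (a - b) c = om a c - om b c := by simp [om, o2]; ring
theorem om_sub_right (a b c : V8) : om a (b - c) = om a b - om a c := by simp [om, o2]; ring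

/-- The standard basis, `bv (4α + 2β + γ) = e_{αβγ}`. -/
def bv : Fin 8 → V8 := ![(((1, 0), 0), 0), (((0, 1), 0), 0), ((0, (1, 0)), 0), ((0, (0, 1)), 0),
  (0, ((1, 0), 0)), (0, ((0, 1), 0)), (0, (0, (1, 0))), (0, (0, (0, 1)))]

theorem eq_sum (v : V8) : v = v.1.1.1 • bv 0 + v.1.1.2 • bv 1 + v.1.2.1 • bv 2 + v.1.2.2 • bv 3 +
    v.2.1.1 • bv 4 + v.2.1.2 • bv 5 + v.2.2.1 • bv 6 + v.2.2.2 • bv 7 := by
  ext <;> simp [bv]

theorem exists_dual (l : V8 →+ F3) : ∃ u, ∀ w, l w = om u w := by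
  refine ⟨(((-l (bv 7), l (bv 6)), (l (bv 5), -l (bv 4))), ((l (bv 3), -l (bv 2)),
    (-l (bv 1), l (bv 0)))), fun w => ?_⟩
  conv_lhs => rw [eq_sum w]
  simp only [map_add, map_f3, smul_eq_mul, om, o2]
  ring

theorem om_nondeg {v : V8} (h : ∀ w, om v w = 0) : v = 0 := by
  have := fun i => h (bv i)
  have h0 := this 0; have h1 := this 1; have h2 := this 2; have h3 := this 3
  have h4 := this 4; have h5 := this 5; have h6 := this 6; have h7 := this 7
  simp [om, o2, bv] at h0 h1 h2 h3 h4 h5 h6 h7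
  ext <;> assumption

theorem exists_om {v : V8} (h : v ≠ 0) : ∃ w, om v w = 1 := by
  obtain ⟨w, hw⟩ : ∃ w, om v w ≠ 0 := by
    by_contra! c; exact h (om_nondeg c)
  exact ⟨(om v w)⁻¹ • w, by rw [om_smul_right, inv_mul_cancel₀ hw]⟩

theorem card_V8 : Nat.card V8 = 3 ^ 8 := by simp [V8, W2]

/-- The general linear group. -/
abbrev A8 := V8 ≃ₗ[F3] V8

instance : Finite A8 := DFunLike.finite _

theorem mul_ap (x y : A8) (v : V8) : (x * y) v = x (y v) := rfl

theorem one_ap (v : V8) : (1 : A8) v = v := rfl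

theorem lin_ext {x y : V8 →ₗ[F3] V8} (h : ∀ i, x (bv i) = y (bv i)) : x = y :=
  LinearMap.ext fun v => by rw [eq_sum v]; simp only [map_add, map_smul, h]

theorem ext_bv {x y : A8} (h : ∀ i, x (bv i) = y (bv i)) : x = y :=
  LinearEquiv.toLinearMap_injective (lin_ext h)

instance : DecidableEq A8 := fun x y =>
  decidable_of_iff (∀ i, x (bv i) = y (bv i)) ⟨ext_bv, fun h _ => h ▸ rfl⟩

instance (x y : A8) : Decidable (Commute x y) := inferInstanceAs (Decidable (x * y = y * x))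

/-- An automorphism from two maps. -/
def mkA (f g : V8 → V8) (h : ∀ v w, f (v + w) = f v + f w) (h1 : ∀ v, g (f v) = v)
    (h2 : ∀ v, f (g v) = v) : A8 where
  toFun := f
  invFun := g
  map_add' := h
  map_smul' := fun c v => map_f3 (AddMonoidHom.mk' f h) c v
  left_inv := h1
  right_inv := h2

/-- A homomorphism from an action. -/
def mkH (g : SL → V8 → V8) (h : ∀ a v w, g a (v + w) = g a v + g a w)
    (h1 : ∀ v, g 1 v = v) (h2 : ∀ a b v, g (a * b) v = g a (g b v)) : SL →* A8 :=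
  MonoidHom.mk' (fun a => mkA (g a) (g a⁻¹) (h a) (fun v => by rw [← h2, inv_mul_cancel, h1])
    fun v => by rw [← h2, mul_inv_cancel, h1]) fun a b => LinearEquiv.ext fun v => h2 a b v

/-- The action on two copies of a module. -/
def tw {M : Type} [AddCommGroup M] [Module F3 M] (a : SL) (p : M × M) : M × M :=
  (a.1.a • p.1 + a.1.b • p.2, a.1.c • p.1 + a.1.d • p.2)

section
variable {M : Type} [AddCommGroup M] [Module F3 M]

theorem tw_add (a : SL) (p q : M × M) : tw a (p + q) = tw a p + tw a q := by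
  ext <;> simp [tw] <;> abel

theorem tw_one (p : M × M) : tw 1 p = p := by
  change ((1 : F3) • p.1 + (0 : F3) • p.2, (0 : F3) • p.1 + (1 : F3) • p.2) = p
  simp

theorem tw_mul (a b : SL) (p : M × M) : tw (a * b) p = tw a (tw b p) := by
  change ((a.1.a * b.1.a + a.1.b * b.1.c) • p.1 + (a.1.a * b.1.b + a.1.b * b.1.d) • p.2,
    (a.1.c * b.1.a + a.1.d * b.1.c) • p.1 + (a.1.c * b.1.b + a.1.d * b.1.d) • p.2) = _
  ext <;> simp only [tw] <;> module

end

/-- The first tensor factor. -/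
def f0 : SL →* A8 := mkH tw tw_add tw_one tw_mul

/-- The second tensor factor. -/
def f1 : SL →* A8 := mkH (fun a v => (tw a v.1, tw a v.2)) (fun a v w => by simp [tw_add])
  (fun v => by simp [tw_one]) fun a b v => by simp [tw_mul]

/-- The third tensor factor. -/
def f2 : SL →* A8 := mkH (fun a v => ((a • v.1.1, a • v.1.2), (a • v.2.1, a • v.2.2)))
  (fun a v w => by simp) (fun v => by simp) fun a b v => by simp [mul_smul]

theorem f0_ap (a : SL) (v : V8) : f0 a v = tw a v := rfl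
theorem f1_ap (a : SL) (v : V8) : f1 a v = (tw a v.1, tw a v.2) := rfl
theorem f2_ap (a : SL) (v : V8) : f2 a v = ((a • v.1.1, a • v.1.2), (a • v.2.1, a • v.2.2)) := rfl
theorem sl_smul (a : SL) (u : W2) :
    a • u = (a.1.a * u.1 + a.1.b * u.2, a.1.c * u.1 + a.1.d * u.2) := rfl

/-- The cyclic permutation of the tensor factors. -/
def cy : A8 := mkA (fun v => (((v.1.1.1, v.1.2.1), (v.2.1.1, v.2.2.1)),
    ((v.1.1.2, v.1.2.2), (v.2.1.2, v.2.2.2))))
  (fun v => (((v.1.1.1, v.2.1.1), (v.1.1.2, v.2.1.2)), ((v.1.2.1, v.2.2.1), (v.1.2.2, v.2.2.2))))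
  (fun _ _ => rfl) (fun _ => rfl) fun _ => rfl

/-- The interchange of the first two tensor factors. -/
def r0 : A8 := mkA (fun v => ((v.1.1, v.2.1), (v.1.2, v.2.2))) (fun v => ((v.1.1, v.2.1), (v.1.2, v.2.2)))
  (fun _ _ => rfl) (fun _ => rfl) fun _ => rfl

/-- A map negating the form. -/
def d0 : A8 := mkA (fun v => (v.1, -v.2)) (fun v => (v.1, -v.2))
  (fun _ _ => by simp [add_comm]) (fun _ => by simp) fun _ => by simp

/-- The scalar `-1`. -/
def ng : A8 := f0 SL.ng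

theorem cy_ap (v : V8) : cy v = (((v.1.1.1, v.1.2.1), (v.2.1.1, v.2.2.1)),
    ((v.1.1.2, v.1.2.2), (v.2.1.2, v.2.2.2))) := rfl
theorem r0_ap (v : V8) : r0 v = ((v.1.1, v.2.1), (v.1.2, v.2.2)) := rfl
theorem d0_ap (v : V8) : d0 v = (v.1, -v.2) := rfl
theorem ng_ap (v : V8) : ng v = -v := by
  change (((-1 : F3) • v.1 + (0 : F3) • v.2, (0 : F3) • v.1 + (-1 : F3) • v.2) : V8) = _
  ext <;> simp

theorem f1_ng : f1 SL.ng = ng := by decide +kernel
theorem f2_ng : f2 SL.ng = ng := by decide +kernel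
theorem ng_comm (x : A8) : Commute ng x := LinearEquiv.ext fun v => by simp [ng_ap]
theorem ng_sq : ng * ng = 1 := by decide +kernel
theorem ng_ne : ng ≠ 1 := by decide +kernel
theorem cy3 : cy ^ 3 = 1 := by decide +kernel
theorem r0_sq : r0 * r0 = 1 := rfl
theorem r0_inv : r0⁻¹ = r0 := rfl
theorem d0_sq : d0 * d0 = 1 := by decide +kernel
theorem r0_cy : r0 * cy * r0⁻¹ = cy⁻¹ := rfl

theorem c01 (a b : SL) : Commute (f0 a) (f1 b) := LinearEquiv.ext fun v => by
  ext <;> simp [f0_ap, f1_ap, tw] <;> ring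
theorem c02 (a b : SL) : Commute (f0 a) (f2 b) := LinearEquiv.ext fun v => by
  ext <;> simp [f0_ap, f2_ap, tw, sl_smul] <;> ring
theorem c12 (a b : SL) : Commute (f1 a) (f2 b) := LinearEquiv.ext fun v => by
  ext <;> simp [f1_ap, f2_ap, tw, sl_smul] <;> ring

theorem cy_f0 (a : SL) : cy * f0 a * cy⁻¹ = f1 a := rfl
theorem cy_f1 (a : SL) : cy * f1 a * cy⁻¹ = f2 a := rfl
theorem cy_f2 (a : SL) : cy * f2 a * cy⁻¹ = f0 a := rfl
theorem r0_f0 (a : SL) : r0 * f0 a * r0⁻¹ = f1 a := rfl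
theorem r0_f1 (a : SL) : r0 * f1 a * r0⁻¹ = f0 a := rfl
theorem r0_f2 (a : SL) : r0 * f2 a * r0⁻¹ = f2 a := rfl

/-- Preserving the form. -/
def Sp (x : A8) : Prop := ∀ v w, om (x v) (x w) = om v w

theorem Sp.mul {x y : A8} (hx : Sp x) (hy : Sp y) : Sp (x * y) := fun v w => by
  rw [mul_ap, mul_ap, hx, hy]

theorem Sp.inv {x : A8} (hx : Sp x) : Sp x⁻¹ := fun v w => by
  rw [← hx, ← mul_ap, ← mul_ap, mul_inv_cancel]; rfl

theorem sp_f2 (a : SL) : Sp (f2 a) := fun v w => by simp [om, f2_ap, SL.o2_smul]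
theorem sp_cy : Sp cy := fun v w => by simp [om, o2, cy_ap]; ring
theorem sp_r0 : Sp r0 := fun v w => by simp [om, r0_ap]; ring
theorem sp_f0 (a : SL) : Sp (f0 a) := cy_f2 a ▸ (sp_cy.mul (sp_f2 a)).mul sp_cy.inv
theorem sp_f1 (a : SL) : Sp (f1 a) := cy_f0 a ▸ (sp_cy.mul (sp_f0 a)).mul sp_cy.inv
theorem om_d0 (v w : V8) : om (d0 v) (d0 w) = -om v w := by simp [om, o2, d0_ap]; ring

/-- The central product of the three factors. -/
def ff : SL × SL × SL →* A8 := MonoidHom.mk' (fun x => f0 x.1 * (f1 x.2.1 * f2 x.2.2)) fun x y => by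
  simp only [Prod.fst_mul, Prod.snd_mul, map_mul]
  rw [(c12 y.2.1 x.2.2).mul_mul_mul_comm, ((c01 _ _).mul_right (c02 _ _)).mul_mul_mul_comm]

theorem ff_ap (a b c : SL) : ff (a, b, c) = f0 a * (f1 b * f2 c) := rfl
theorem ff0 (a : SL) : ff (a, 1, 1) = f0 a := by simp [ff_ap]
theorem ff1 (a : SL) : ff (1, a, 1) = f1 a := by simp [ff_ap]
theorem ff2 (a : SL) : ff (1, 1, a) = f2 a := by simp [ff_ap]

theorem sp_ff (x : SL × SL × SL) : Sp (ff x) := (sp_f0 _).mul ((sp_f1 _).mul (sp_f2 _))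

theorem cy_ff (a b c : SL) : cy * ff (a, b, c) * cy⁻¹ = ff (c, a, b) := by
  rw [ff_ap, ← conj_mul, ← conj_mul, cy_f0, cy_f1, cy_f2, ff_ap, ← mul_assoc,
    ((c01 c a).mul_right (c02 c b)).eq]

theorem r0_ff (a b c : SL) : r0 * ff (a, b, c) * r0⁻¹ = ff (b, a, c) := by
  rw [ff_ap, ← conj_mul, ← conj_mul, r0_f0, r0_f1, r0_f2, ff_ap, ← mul_assoc, ← mul_assoc,
    (c01 b a).eq]

/-- The extraspecial group of order `2⁷`. -/
def R0 : Subgroup A8 := (SL.Q8.prod (SL.Q8.prod SL.Q8)).map ff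

theorem mem_R0 {x : A8} :
    x ∈ R0 ↔ ∃ a ∈ SL.Q8, ∃ b ∈ SL.Q8, ∃ c ∈ SL.Q8, ff (a, b, c) = x :=
  ⟨fun ⟨(a, b, c), h, e⟩ => ⟨a, h.1, b, h.2.1, c, h.2.2, e⟩,
    fun ⟨a, ha, b, hb, c, hc, e⟩ => ⟨(a, b, c), ⟨ha, hb, hc⟩, e⟩⟩

theorem ff_mem {a b c : SL} (ha : a ∈ SL.Q8) (hb : b ∈ SL.Q8) (hc : c ∈ SL.Q8) :
    ff (a, b, c) ∈ R0 := mem_R0.2 ⟨a, ha, b, hb, c, hc, rfl⟩

theorem f0_mem {a : SL} (ha : a ∈ SL.Q8) : f0 a ∈ R0 := ff0 a ▸ ff_mem ha (one_mem _) (one_mem _)
theorem f1_mem {a : SL} (ha : a ∈ SL.Q8) : f1 a ∈ R0 := ff1 a ▸ ff_mem (one_mem _) ha (one_mem _)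
theorem f2_mem {a : SL} (ha : a ∈ SL.Q8) : f2 a ∈ R0 := ff2 a ▸ ff_mem (one_mem _) (one_mem _) ha
theorem ng_mem : ng ∈ R0 := f0_mem SL.ng_mem
theorem qi_mem : qi ∈ SL.Q8 := by decide +kernel
theorem qj_mem : qj ∈ SL.Q8 := by decide +kernel

/-- The elements of the quaternion group. -/
def q8 : List SL := [1, SL.ng, qi, qi⁻¹, qj, qj⁻¹, qi * qj, qj * qi]

theorem mem_q8 : ∀ a : SL, a ∈ SL.Q8 ↔ a ∈ q8 := by decide +kernel

/-- The upper unitriangular matrices. -/
def uw (c : F3) : SL := ⟨⟨1, c, 0, 1⟩, by simp⟩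

theorem uw_add : ∀ a b : F3, uw (a + b) = uw a * uw b := by decide +kernel
theorem uw_zero : uw 0 = 1 := rfl
theorem uw_qi : uw 1 * qi * (uw 1)⁻¹ = qj := by decide +kernel
theorem uw_qj : uw 1 * qj * (uw 1)⁻¹ = qi * qj := by decide +kernel

abbrev C3 := F3 × F3 × F3

/-- The elements of the elementary abelian group of order `27`. -/
def jv (c : C3) : A8 := ff (uw c.1, uw c.2.1, uw c.2.2)

theorem jv_add (a b : C3) : jv (a + b) = jv a * jv b := by
  simp only [jv, ← map_mul, Prod.mk_mul_mk, ← uw_add]; rfl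

theorem jv_zero : jv 0 = 1 := map_one ff

theorem jv_neg (a : C3) : jv (-a) = (jv a)⁻¹ :=
  eq_inv_of_mul_eq_one_left (by rw [← jv_add, neg_add_cancel, jv_zero])

theorem jv_comm (a b : C3) : Commute (jv a) (jv b) := by
  rw [Commute, SemiconjBy, ← jv_add, ← jv_add, add_comm]

theorem jv_cube : ∀ a, jv a ^ 3 = 1 := by decide +kernel

theorem jv_one : ∀ a, jv a = 1 → a = 0 := by decide +kernel

theorem jv_inj : Function.Injective jv := fun a b e =>
  sub_eq_zero.1 (jv_one _ (by rw [sub_eq_add_neg, jv_add, jv_neg, e, mul_inv_cancel]))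

theorem sp_jv (a : C3) : Sp (jv a) := sp_ff _

theorem cy_jv (c : C3) : cy * jv c * cy⁻¹ = jv (c.2.2, c.1, c.2.1) := cy_ff _ _ _

theorem r0_jv (c : C3) : r0 * jv c * r0⁻¹ = jv (c.2.1, c.1, c.2.2) := r0_ff _ _ _

theorem jv_top : ∀ c, jv c (bv 0) = bv 0 := by decide +kernel

/-- The Thompson subgroup of a Sylow `3`-subgroup. -/
def J : Subgroup A8 where
  carrier := Set.range jv
  one_mem' := ⟨0, jv_zero⟩
  mul_mem' := by rintro _ _ ⟨a, rfl⟩ ⟨b, rfl⟩; exact ⟨_, jv_add a b⟩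
  inv_mem' := by rintro _ ⟨a, rfl⟩; exact ⟨_, jv_neg a⟩

theorem mem_J {x : A8} : x ∈ J ↔ ∃ c, jv c = x := Iff.rfl

theorem card_J : Nat.card J = 27 :=
  (Nat.card_congr (Equiv.ofInjective _ jv_inj).symm).trans (by simp [C3])

/-- The embedding of the fixed space of `r0`. -/
def io (v : F22L.V) : V8 := ((v 0 + v 1 + v 2, v 2 - v 1), (v 2 - v 1, v 0 - v 1 - v 2))

/-- The projection to the fixed space of `r0`. -/
def po (v : V8) : F22L.V := ![-v.1.1 - v.2.2, v.1.1 - v.1.2 - v.2.1 - v.2.2,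
  v.1.1 + v.1.2 + v.2.1 - v.2.2]

theorem three (c : F3) : c + c + c = 0 := by revert c; decide

theorem io_add (v w : F22L.V) : io (v + w) = io v + io w := by ext <;> simp [io] <;> ring

theorem po_add (v w : V8) : po (v + w) = po v + po w := by
  funext i; fin_cases i <;> simp [po] <;> abel

theorem w3 (a : W2) : a + a + a = 0 := by revert a; decide +kernel

theorem po_io (v : F22L.V) : po (io v) = v := by
  funext i; fin_cases i <;> simp [po, io]
  · linear_combination (exp := 1) -w3 (v 0)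
  · linear_combination (exp := 1) w3 (v 1)
  · linear_combination (exp := 1) w3 (v 2)

theorem r0_io (v : F22L.V) : r0 (io v) = io v := rfl

theorem io_po {v : V8} (h : r0 v = v) : io (po v) = v := by
  have e : v.2.1 = v.1.2 := congrArg (·.1.2) h
  refine Prod.ext (Prod.ext ?_ ?_) (Prod.ext ?_ ?_) <;> simp [po, io, e]
  · linear_combination (exp := 1) -w3 v.2.2
  · linear_combination (exp := 1) w3 v.1.2
  · linear_combination (exp := 1) w3 v.1.2
  · linear_combination (exp := 1) -w3 v.1.1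

theorem om_io (v w : F22L.V) : om (io v) (io w) = F22L.om v w := by
  have h : (3 : F3) = 0 := rfl
  simp [om, io, F22L.om, Fin.sum_univ_three, o2]
  linear_combination (-(v 0).1 * (w 0).2 + (v 0).2 * (w 0).1 + (v 1).1 * (w 1).2 -
    (v 1).2 * (w 1).1 + (v 2).1 * (w 2).2 - (v 2).2 * (w 2).1) * h

/-- The Heisenberg group. -/
@[ext] structure Hs where
  v : V8
  c : F3

namespace Hs

instance : One Hs := ⟨⟨0, 0⟩⟩
instance : Mul Hs := ⟨fun x y => ⟨x.v + y.v, x.c + y.c + om x.v y.v⟩⟩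
instance : Inv Hs := ⟨fun x => ⟨-x.v, -x.c⟩⟩

@[simp] theorem one_v : (1 : Hs).v = 0 := rfl
@[simp] theorem one_c : (1 : Hs).c = 0 := rfl
@[simp] theorem mul_v (x y : Hs) : (x * y).v = x.v + y.v := rfl
@[simp] theorem mul_c (x y : Hs) : (x * y).c = x.c + y.c + om x.v y.v := rfl
@[simp] theorem inv_v (x : Hs) : x⁻¹.v = -x.v := rfl
@[simp] theorem inv_c (x : Hs) : x⁻¹.c = -x.c := rfl

instance : Group Hs := Group.ofLeftAxioms
  (fun x y z => by
    ext1
    · simp [add_assoc]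
    · simp [om_add_left, om_add_right]; ring)
  (fun x => by ext1 <;> simp)
  (fun x => by ext1 <;> simp [om_neg_left])

theorem mk_mul (v w : V8) (c e : F3) : (⟨v, c⟩ * ⟨w, e⟩ : Hs) = ⟨v + w, c + e + om v w⟩ := rfl

theorem mk_inv (v : V8) (c : F3) : (⟨v, c⟩ : Hs)⁻¹ = ⟨-v, -c⟩ := rfl

theorem mk_one : (⟨0, 0⟩ : Hs) = 1 := rfl

theorem cube (x : Hs) : x ^ 3 = 1 := by
  rw [pow_succ, pow_two]
  ext1
  · ext <;> simp [three]
  · simp [om_add_left, three]

theorem commute_iff {x y : Hs} : Commute x y ↔ om x.v y.v = 0 := by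
  refine ⟨fun h => ?_, fun h => ?_⟩
  · have := congrArg Hs.c h.eq
    simp only [mul_c, om_swap y.v x.v] at this
    have e : ∀ a b c : F3, a + b + c = b + a + -c → c = 0 := by decide
    exact e _ _ _ this
  · ext1
    · simp [add_comm]
    · simp [om_swap y.v x.v, h, add_comm]

theorem comm (x y : Hs) : x * y * x⁻¹ * y⁻¹ = ⟨0, -om x.v y.v⟩ := by
  ext1
  · simp
  · simp only [mul_c, mul_v, inv_c, inv_v, om_add_left, om_neg_right, om_neg_left, om_self,
      om_swap y.v x.v]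
    linear_combination three (om x.v y.v)

theorem card : Nat.card Hs = 3 ^ 9 := by
  rw [Nat.card_congr (⟨fun x => (x.v, x.c), fun p => ⟨p.1, p.2⟩, fun _ => rfl, fun _ => rfl⟩ :
    Hs ≃ V8 × F3)]
  simp

instance : Finite Hs := Nat.finite_of_card_ne_zero (by rw [card]; norm_num)

theorem isPGroup : IsPGroup 3 Hs := fun x => ⟨1, by simpa using cube x⟩

theorem pow_val (x : Hs) (k : F3) : x ^ k.val = ⟨k • x.v, k * x.c⟩ := by
  have e : ∀ k : F3, k = 0 ∨ k = 1 ∨ k = 2 := by decide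
  rcases e k with rfl | rfl | rfl
  · simp [mk_one]
  · simp [ZMod.val_one]
  · rw [show (2 : F3).val = 2 from rfl, pow_two]
    ext1 <;> simp [two_smul, two_mul]

end Hs

end Cfsg.Agent.B8L
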