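import Mathlib
import Cfsg.Agent.B8L.Mod

/-! A group element of order three whose centralizer is given in coordinates. -/

set_option autoImplicit false

namespace Cfsg.Agent.B8L

open Subgroup
open Cfsg.Agent.F22L (F3 W2 o2 SL qi qj Wr map_f3)

/-- The form as a bilinear map. -/
def omB : LinearMap.BilinForm F3 V8 :=
  LinearMap.mk₂ F3 om om_add_left om_smul_left om_add_right om_smul_right

theorem iso_le (W : AddSubgroup V8) (h : ∀ v ∈ W, ∀ w ∈ W, om v w = 0) : Nat.card W ≤ 81 := by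
  let S : Submodule F3 V8 := AddSubgroup.toZModSubmodule 3 W
  have h1 : omB.Nondegenerate :=
    ⟨fun v hv => om_nondeg hv, fun v hv => om_nondeg fun w => by
      rw [om_swap, neg_eq_zero]; exact hv w⟩
  have h2 := LinearMap.BilinForm.finrank_orthogonal h1 S
  have h3 := Submodule.finrank_mono (show S ≤ omB.orthogonal S from fun v hv w hw => h w hw v hv)
  have h4 : Module.finrank F3 V8 = 8 := by simp [V8, W2]
  have h5 : Nat.card S = 3 ^ Module.finrank F3 S := by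
    rw [Module.natCard_eq_pow_finrank (K := F3)]; simp
  calc Nat.card W = 3 ^ Module.finrank F3 S := h5
    _ ≤ 3 ^ 4 := Nat.pow_le_pow_right (by norm_num) (by omega)

/-- The preimage of a subspace. -/
def pre (W : AddSubgroup V8) : Subgroup Hs where
  carrier := {x | x.v ∈ W}
  one_mem' := W.zero_mem
  mul_mem' := fun ha hb => W.add_mem ha hb
  inv_mem' := fun ha => W.neg_mem ha

theorem mem_pre {W : AddSubgroup V8} {x : Hs} : x ∈ pre W ↔ x.v ∈ W := Iff.rfl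

instance (W : AddSubgroup V8) : (pre W).Normal := ⟨fun n hn g => by
  simpa [mem_pre] using hn⟩

theorem card_pre (W : AddSubgroup V8) : Nat.card (pre W) = 3 * Nat.card W := by
  rw [Nat.card_congr (⟨fun x => (x.1.c, ⟨x.1.v, x.2⟩), fun p => ⟨⟨p.2, p.1⟩, p.2.2⟩, fun _ => rfl,
    fun _ => rfl⟩ : pre W ≃ F3 × W)]
  simp

/-- The image in the Frattini quotient. -/
def im (A : Subgroup Hs) : AddSubgroup V8 where
  carrier := {v | ∃ a ∈ A, a.v = v}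
  zero_mem' := ⟨1, A.one_mem, rfl⟩
  add_mem' := by rintro _ _ ⟨a, ha, rfl⟩ ⟨b, hb, rfl⟩; exact ⟨_, A.mul_mem ha hb, rfl⟩
  neg_mem' := by rintro _ ⟨a, ha, rfl⟩; exact ⟨_, A.inv_mem ha, rfl⟩

theorem card_le_im (A : Subgroup Hs) : Nat.card A ≤ 3 * Nat.card (im A) :=
  card_pre _ ▸ card_le_of_le (show A ≤ pre (im A) from fun a ha => ⟨a, ha, rfl⟩)

theorem Hs.card_comm (A : Subgroup Hs) (h : ∀ a ∈ A, ∀ b ∈ A, Commute a b) : Nat.card A ≤ 243 := by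
  have h1 := iso_le (im A) (by
    rintro _ ⟨a, ha, rfl⟩ _ ⟨b, hb, rfl⟩; exact Hs.commute_iff.1 (h a ha b hb))
  have h2 := card_le_im A
  omega

/-- The fixed vectors. -/
def Fx (g : A8) : AddSubgroup V8 where
  carrier := {v | g v = v}
  zero_mem' := map_zero g
  add_mem' := fun {a b} ha hb => by
    change g _ = _ at ha hb ⊢; rw [map_add, ha, hb]
  neg_mem' := fun {a} ha => by
    change g _ = _ at ha ⊢; rw [map_neg, ha]

theorem mem_Fx {g : A8} {v : V8} : v ∈ Fx g ↔ g v = v := Iff.rfl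

theorem Sp.om_fix {g : A8} (s : Sp g) {f : V8} (h : g f = f) (v : V8) : om (v - g v) f = 0 := by
  rw [om_sub_left, sub_eq_zero, ← s v f, h]

variable {G : Type*} [Group G]

/-- The centralizer of `z` in coordinates. -/
structure HS (z : G) (ψ : Hs →* G) (ρ : G → A8) (l : G → V8 →+ F3) (X : Subgroup A8) : Prop where
  inj : Function.Injective ψ
  zz : ψ ⟨0, 1⟩ = z
  act : ∀ h, Commute h z → ∀ x, h * ψ x * h⁻¹ = ψ ⟨ρ h x.v, x.c + l h x.v⟩
  ker : ∀ h, Commute h z → ρ h = 1 → h ∈ ψ.range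
  memX : ∀ x, x ∈ X ↔ ∃ h, Commute h z ∧ ρ h = x

namespace HS

variable {z : G} {ψ : Hs →* G} {ρ : G → A8} {l : G → V8 →+ F3} {X : Subgroup A8}
  (h : HS z ψ ρ l X)
include h

theorem cψ (x : Hs) : Commute (ψ x) z := by
  rw [← h.zz]
  exact ((Hs.commute_iff (x := x) (y := ⟨0, 1⟩)).2 (om_zero_right x.v)).map ψ

theorem zmem : z ∈ ψ.range := ⟨_, h.zz⟩

theorem z3 : z ^ 3 = 1 := by rw [← h.zz, ← map_pow, Hs.cube, map_one]

theorem z1 : z ≠ 1 := fun c => by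
  have := h.inj (h.zz.trans (c.trans (map_one ψ).symm))
  exact absurd (congrArg Hs.c this) (by decide)

theorem ord : orderOf z = 3 := have := Fact.mk Nat.prime_three; orderOf_eq_prime h.z3 h.z1

theorem cen (c : F3) : ψ ⟨0, c⟩ = z ^ c.val := by
  rw [← h.zz, ← map_pow, Hs.pow_val]; simp

theorem mem_zp {x : Hs} : ψ x ∈ zpowers z ↔ x.v = 0 := by
  constructor
  · intro c
    rw [← h.zz, ← MonoidHom.map_zpowers, mem_map_iff_mem h.inj] at c
    exact zpowers_le_of_mem (H := pre ⊥) (mem_pre.2 (zero_mem _)) c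
  · intro c
    rw [show x = ⟨0, x.c⟩ from Hs.ext c rfl, h.cen]
    exact pow_mem (mem_zpowers z) _

theorem of_zp {a : G} (c : a ∈ zpowers z) : ∃ k, a = ψ ⟨0, k⟩ := by
  obtain ⟨x, rfl⟩ := zpowers_le_of_mem h.zmem c
  exact ⟨x.c, congrArg ψ (Hs.ext (h.mem_zp.1 c) rfl)⟩

theorem eq_of {a : G} (ha : Commute a z) {x : A8} {f : V8 → F3}
    (e : ∀ v, a * ψ ⟨v, 0⟩ * a⁻¹ = ψ ⟨x v, f v⟩) : ρ a = x ∧ ∀ v, l a v = f v := by
  have := fun v => h.inj ((h.act a ha ⟨v, 0⟩).symm.trans (e v))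
  exact ⟨LinearEquiv.ext fun v => congrArg Hs.v (this v), fun v => by simpa using congrArg Hs.c (this v)⟩

theorem ρl_ψ (x : Hs) : ρ (ψ x) = 1 ∧ ∀ v, l (ψ x) v = -om x.v v := h.eq_of (h.cψ x) fun v => by
  rw [← map_inv, ← map_mul, ← map_mul, ← inv_mul_cancel_right (x * _ * x⁻¹) ⟨v, 0⟩, Hs.comm]
  simp [Hs.mk_mul]

theorem ρ_ψ (x : Hs) : ρ (ψ x) = 1 := (h.ρl_ψ x).1

theorem l_ψ (x : Hs) (v : V8) : l (ψ x) v = -om x.v v := (h.ρl_ψ x).2 v

theorem ρl_mul {a b : G} (ha : Commute a z) (hb : Commute b z) :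
    ρ (a * b) = ρ a * ρ b ∧ ∀ v, l (a * b) v = l b v + l a (ρ b v) :=
  h.eq_of (ha.mul_left hb) fun v => by
    rw [show a * b * ψ ⟨v, 0⟩ * (a * b)⁻¹ = a * (b * ψ ⟨v, 0⟩ * b⁻¹) * a⁻¹ by group, h.act b hb,
      h.act a ha]
    simp

theorem ρ_mul {a b : G} (ha : Commute a z) (hb : Commute b z) : ρ (a * b) = ρ a * ρ b :=
  (h.ρl_mul ha hb).1

theorem l_mul {a b : G} (ha : Commute a z) (hb : Commute b z) (v : V8) :
    l (a * b) v = l b v + l a (ρ b v) := (h.ρl_mul ha hb).2 v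

/-- The action as a homomorphism. -/
def ρh : centralizer ({z} : Set G) →* A8 :=
  MonoidHom.mk' (fun a => ρ a) fun a b =>
    h.ρ_mul (mem_centralizer_singleton_iff.1 a.2) (mem_centralizer_singleton_iff.1 b.2)

/-- The action of a subgroup. -/
def ρs (A : Subgroup G) (hA : ∀ a ∈ A, Commute a z) : A →* A8 :=
  MonoidHom.mk' (fun a => ρ a) fun a b => h.ρ_mul (hA _ a.2) (hA _ b.2)

theorem ρ_one : ρ 1 = 1 := map_one h.ρh

theorem ρ_z : ρ z = 1 := h.zz ▸ h.ρ_ψ _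

theorem l_cen (c : F3) : l (ψ ⟨0, c⟩) = 0 := AddMonoidHom.ext fun v => by simp [h.l_ψ]

theorem l_one : l 1 = 0 := by simpa [Hs.mk_one] using h.l_cen 0

theorem ρ_inv {a : G} (ha : Commute a z) : ρ a⁻¹ = (ρ a)⁻¹ :=
  map_inv h.ρh ⟨a, mem_centralizer_singleton_iff.2 ha⟩

theorem ρ_pow {a : G} (ha : Commute a z) (n : ℕ) : ρ (a ^ n) = ρ a ^ n :=
  map_pow h.ρh ⟨a, mem_centralizer_singleton_iff.2 ha⟩ n

theorem ρ_mem {a : G} (ha : Commute a z) : ρ a ∈ X := (h.memX _).2 ⟨a, ha, rfl⟩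

theorem ρ_eq_one {a : G} (ha : Commute a z) : ρ a = 1 ↔ a ∈ ψ.range :=
  ⟨h.ker a ha, by rintro ⟨x, rfl⟩; exact h.ρ_ψ x⟩

theorem ρ_comm {a b : G} (ha : Commute a z) (hb : Commute b z) (c : Commute a b) :
    Commute (ρ a) (ρ b) := by
  rw [Commute, SemiconjBy, ← h.ρ_mul ha hb, ← h.ρ_mul hb ha, c.eq]

theorem conj_mem {a b : G} (ha : Commute a z) (hb : b ∈ ψ.range) : a * b * a⁻¹ ∈ ψ.range := by
  obtain ⟨x, rfl⟩ := hb
  exact ⟨_, (h.act a ha x).symm⟩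

theorem l0_mul {a b : G} (ha : Commute a z) (hb : Commute b z) (la : l a = 0) (lb : l b = 0) :
    l (a * b) = 0 := AddMonoidHom.ext fun v => by simp [h.l_mul ha hb, la, lb]

theorem l0_inv {a : G} (ha : Commute a z) (la : l a = 0) : l a⁻¹ = 0 :=
  AddMonoidHom.ext fun v => by
    simpa [h.l_one, la] using (h.l_mul ha ha.inv_left v).symm

/-- The complement of `Q/Z` in `H/Z`. -/
def H0 : Subgroup G where
  carrier := {a | Commute a z ∧ l a = 0}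
  one_mem' := ⟨Commute.one_left z, h.l_one⟩
  mul_mem' := fun ha hb => ⟨ha.1.mul_left hb.1, h.l0_mul ha.1 hb.1 ha.2 hb.2⟩
  inv_mem' := fun ha => ⟨ha.1.inv_left, h.l0_inv ha.1 ha.2⟩

theorem zp_of {a : G} (ha : a ∈ h.H0) (e : ρ a = 1) : a ∈ zpowers z := by
  obtain ⟨x, rfl⟩ := h.ker a ha.1 e
  exact h.mem_zp.2 (om_nondeg fun w => by simpa [ha.2] using (h.l_ψ x w).symm)

theorem zp_le : zpowers z ≤ h.H0 := zpowers_le_of_mem ⟨Commute.refl z, h.zz ▸ h.l_cen 1⟩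

omit h in
theorem zp_comm {a b : G} (ha : Commute a z) (hb : b ∈ zpowers z) : Commute a b := by
  obtain ⟨k, rfl⟩ := hb
  exact ha.zpow_right k

theorem exists_lift {x : A8} (hx : x ∈ X) : ∃ a ∈ h.H0, ρ a = x := by
  obtain ⟨a, ha, rfl⟩ := (h.memX x).1 hx
  obtain ⟨u, hu⟩ := exists_dual (l a)
  refine ⟨a * ψ ⟨u, 0⟩, ⟨ha.mul_left (h.cψ _), AddMonoidHom.ext fun v => ?_⟩, ?_⟩
  · simp [h.l_mul ha (h.cψ _), h.l_ψ, h.ρ_ψ, hu]
  · rw [h.ρ_mul ha (h.cψ _), h.ρ_ψ, mul_one]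

theorem act0 {a : G} (ha : a ∈ h.H0) (x : Hs) : a * ψ x * a⁻¹ = ψ ⟨ρ a x.v, x.c⟩ := by
  simp [h.act a ha.1, ha.2]

theorem commute_iff {a : G} (ha : Commute a z) {x : Hs} :
    Commute a (ψ x) ↔ ρ a x.v = x.v ∧ l a x.v = 0 := by
  rw [Commute, SemiconjBy, ← mul_inv_eq_iff_eq_mul, h.act a ha, h.inj.eq_iff, Hs.ext_iff]
  simp

theorem conj_eq {y : G} (hy : Commute y z) (x : Hs) : ψ x * y * (ψ x)⁻¹ =
    ψ ⟨x.v - ρ y x.v, -l y x.v - om x.v (ρ y x.v)⟩ * y := by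
  rw [show ψ x * y * (ψ x)⁻¹ = ψ x * (y * ψ x * y⁻¹)⁻¹ * y by group, h.act y hy, ← map_inv,
    ← map_mul]
  congr 2
  ext1
  · simp [sub_eq_add_neg]
  · simp [om_neg_right]; ring

theorem cj (g : G) : HS (g * z * g⁻¹) ((MulAut.conj g).toMonoidHom.comp ψ)
    (fun a => ρ (g⁻¹ * a * g)) (fun a => l (g⁻¹ * a * g)) X := by
  have e : ∀ a, Commute a (g * z * g⁻¹) ↔ Commute (g⁻¹ * a * g) z := fun a => by
    constructor <;> intro c
    · simpa [mul_assoc] using c.map (MulAut.conj g⁻¹)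
    · simpa [mul_assoc] using c.map (MulAut.conj g)
  refine ⟨(MulAut.conj g).injective.comp h.inj, by simp [h.zz], fun a ha x => ?_,
    fun a ha c => ?_, fun x => ?_⟩
  · have := h.act _ ((e a).1 ha) x
    simp only [MulEquiv.toMonoidHom_eq_coe, MonoidHom.comp_apply, MonoidHom.coe_coe,
      MulAut.conj_apply, ← this]
    group
  · obtain ⟨x, hx⟩ := h.ker _ ((e a).1 ha) c
    exact ⟨x, by simp [hx, mul_assoc]⟩
  · rw [h.memX]
    exact ⟨fun ⟨a, ha, c⟩ => ⟨g * a * g⁻¹, (e _).2 (by simpa [mul_assoc] using ha),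
      by simpa [mul_assoc] using c⟩, fun ⟨a, ha, c⟩ => ⟨_, (e a).1 ha, c⟩⟩

omit h in
theorem pg_range : IsPGroup 3 ψ.range := Hs.isPGroup.of_surjective _ ψ.rangeRestrict_surjective

theorem card_map (A : Subgroup Hs) : Nat.card (A.map ψ) = Nat.card A :=
  card_map_of_injective h.inj

theorem card_comm (A : Subgroup G) (hA : A ≤ ψ.range) (c : ∀ a ∈ A, ∀ b ∈ A, Commute a b) :
    Nat.card A ≤ 243 := by
  rw [← map_comap_eq_self hA, h.card_map]
  exact Hs.card_comm _ fun a ha b hb => h.inj (by rw [map_mul, map_mul]; exact (c _ ha _ hb).eq)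

theorem ker_ρs (A : Subgroup G) (hA : ∀ a ∈ A, Commute a z) :
    Nat.card (h.ρs A hA).ker = Nat.card ↥(A ⊓ ψ.range) := by
  rw [show (h.ρs A hA).ker = (A ⊓ ψ.range).subgroupOf A from Subgroup.ext fun a => by
    rw [mem_subgroupOf, mem_inf, and_iff_right a.2]; exact h.ρ_eq_one (hA _ a.2)]
  exact Nat.card_congr (subgroupOfEquivOfLe inf_le_left).toEquiv

theorem pow_nine {a : G} (ha : Commute a z) (e : ρ a ^ 3 = 1) : a ^ 9 = 1 := by
  obtain ⟨x, hx⟩ := h.ker _ (ha.pow_left 3) ((h.ρ_pow ha 3).trans e)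
  rw [show 9 = 3 * 3 from rfl, pow_mul, ← hx, ← map_pow, Hs.cube, map_one]

theorem sp {x : A8} (hx : x ∈ X) : Sp x := fun v w => by
  obtain ⟨a, ha, rfl⟩ := h.exists_lift hx
  have e := h.act0 ha (⟨v, 0⟩ * ⟨w, 0⟩)
  rw [map_mul, ← conj_mul, h.act0 ha, h.act0 ha, ← map_mul] at e
  simpa using congrArg Hs.c (h.inj e)

omit h in
theorem ψ3 {a : G} (ha : a ∈ ψ.range) : a ^ 3 = 1 := by
  obtain ⟨x, rfl⟩ := ha
  rw [← map_pow, Hs.cube, map_one]

theorem card_eq (A : Subgroup G) (hA : ∀ a ∈ A, Commute a z) :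
    Nat.card A = Nat.card ↥(A ⊓ ψ.range) * Nat.card (h.ρs A hA).range := by
  rw [← h.ker_ρs A hA, ← index_ker, card_mul_index]

theorem range_le (A : Subgroup G) (hA : ∀ a ∈ A, Commute a z) : (h.ρs A hA).range ≤ X := by
  rintro _ ⟨a, rfl⟩; exact h.ρ_mem (hA _ a.2)

theorem mem_range {A : Subgroup G} {hA : ∀ a ∈ A, Commute a z} {x : A8} :
    x ∈ (h.ρs A hA).range ↔ ∃ a ∈ A, ρ a = x :=
  ⟨fun ⟨a, e⟩ => ⟨a, a.2, e⟩, fun ⟨a, ha, e⟩ => ⟨⟨a, ha⟩, e⟩⟩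

/-- An involution of `X` lifts to an involution. -/
theorem exists_inv {x : A8} (hx : x ∈ X) (x2 : x * x = 1) : ∃ a ∈ h.H0, ρ a = x ∧ a * a = 1 := by
  obtain ⟨a, ha, e⟩ := h.exists_lift hx
  have m := h.zp_of (mul_mem ha ha) (by rw [h.ρ_mul ha.1 ha.1, e, x2])
  refine ⟨a ^ 3, pow_mem ha 3, by rw [h.ρ_pow ha.1, e, pow_three, x2, mul_one], ?_⟩
  rw [← (Commute.refl a).mul_pow, ψ3 (zpowers_le_of_mem h.zmem m)]

/-- Lifts in `H0` of elements commuting with an involution commute with its lift. -/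
theorem comm_inv {a s : G} (ha : a ∈ h.H0) (hs : s ∈ h.H0) (s2 : s * s = 1)
    (c : Commute (ρ a) (ρ s)) : Commute a s := by
  have m := mul_mem (mul_mem (mul_mem ha hs) (inv_mem ha)) (inv_mem hs)
  have k := h.zp_of m (by
    rw [h.ρ_mul (mul_mem (mul_mem ha hs) (inv_mem ha)).1 hs.1.inv_left,
      h.ρ_mul (mul_mem ha hs).1 ha.1.inv_left, h.ρ_mul ha.1 hs.1, h.ρ_inv ha.1, h.ρ_inv hs.1, c.eq]
    group)
  have k3 := ψ3 (zpowers_le_of_mem h.zmem k)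
  have k2 : (a * s * a⁻¹ * s⁻¹) ^ 2 = 1 := by
    have := (zp_comm hs.1 k).eq
    calc _ = a * s * a⁻¹ * (s⁻¹ * (a * s * a⁻¹ * s⁻¹ * s) * s⁻¹) := by rw [pow_two]; group
      _ = a * (s * s) * a⁻¹ * (s * s)⁻¹ := by
        rw [← this, inv_mul_cancel_left]; group
      _ = 1 := by simp [s2]
  rw [pow_succ, k2, one_mul, mul_inv_eq_one, mul_inv_eq_iff_eq_mul] at k3
  exact k3

end HS

end Cfsg.Agent.B8L
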