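import Mathlib
import Cfsg.Agent.B8L.HS

/-! Subgroups of `Sp₈(3)` normalizing `2^{1+6}` and containing `3 ≀ S₃`. -/

set_option autoImplicit false
set_option synthInstance.maxSize 4096

namespace Cfsg.Agent.B8L

open Subgroup
open Cfsg.Agent.F22L (F3 W2 o2 SL qi qj Wr map_f3)

structure XD (X : Subgroup A8) : Prop where
  sp : ∀ x ∈ X, Sp x
  R : R0 ≤ X
  nR : ∀ x ∈ X, ∀ r ∈ R0, x * r * x⁻¹ ∈ R0
  jv : ∀ c, jv c ∈ X
  cy : cy ∈ X
  r0 : r0 ∈ X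
  syl : ¬ 243 ∣ Nat.card X

/-- The subgroup generated by the elements of order three of `X` centralizing `r0`. -/
def T3 (X : Subgroup A8) : Subgroup A8 := closure {x | x ∈ X ∧ x ^ 3 = 1 ∧ Commute x r0}

/-- The case of the Fischer group. -/
structure XFi (X : Subgroup A8) : Prop extends XD X where
  gen : ∀ x ∈ X, Commute x B8L.r0 → x ∈ T3 X
  card : Nat.card ↥(X ⊓ centralizer {B8L.r0}) = 2304

/-- The case of the Baby Monster. -/
structure XB (X : Subgroup A8) : Prop extends XD X where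
  gen : B8L.r0 ∈ T3 X
  card : 2048 ∣ Nat.card ↥(X ⊓ centralizer {B8L.r0})
  ncl : ∀ N : Subgroup A8, (∀ x ∈ X, ∀ n ∈ N, x * n * x⁻¹ ∈ N) → B8L.r0 ∈ N → X ≤ N

/-- Data in the quotient `K = X / R0`. -/
structure KD {K : Type*} [Group K] (j : C3 → K) (p s : K) : Prop where
  add : ∀ a b, j (a + b) = j a * j b
  inj : ∀ a, j a = 1 → a = 0
  pj : ∀ c, p * j c * p⁻¹ = j (c.2.2, c.1, c.2.1)
  sj : ∀ c, s * j c * s⁻¹ = j (c.2.1, c.1, c.2.2)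
  p3 : p ^ 3 = 1
  s2 : s * s = 1
  sp : s * p * s⁻¹ = p⁻¹
  syl : ¬ 243 ∣ Nat.card K

/-- The subgroup generated by the elements of order three centralizing `s`. -/
def K3 {K : Type*} [Group K] (s : K) : Subgroup K := closure {x | x ^ 3 = 1 ∧ Commute x s}

/-- Generators of `Q₈ ∘ Q₈ ∘ Q₈`, permuted by `p`, with an automorphism `w` of the first factor. -/
structure Gn {Y : Type*} [Group Y] (t a b w p : Y) : Prop where
  t1 : t ≠ 1
  t2 : t * t = 1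
  a2 : a * a = t
  b2 : b * b = t
  ba : b * a = t * (a * b)
  aa : Commute a (p * a * p⁻¹)
  ab : Commute a (p * b * p⁻¹)
  ba' : Commute b (p * a * p⁻¹)
  bb : Commute b (p * b * p⁻¹)
  p3 : p ^ 3 = 1
  w3 : w ^ 3 = 1
  wa : w * a * w⁻¹ = b
  wb : w * b * w⁻¹ = a * b
  wa1 : Commute w (p * a * p⁻¹)
  wb1 : Commute w (p * b * p⁻¹)
  wa2 : Commute w (p⁻¹ * a * p)
  wb2 : Commute w (p⁻¹ * b * p)

/-- The quotient by `R0`. -/
structure XK (X : Subgroup A8) {K : Type*} [Group K] (π : X →* K) (s : K) : Prop extends XD X where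
  surj : Function.Surjective π
  ker : ∀ x, π x = 1 ↔ x.1 ∈ R0
  conj : IsConj s (π ⟨B8L.r0, r0⟩)
  cR : Nat.card R0 = 128

/-- The action of the centralizer of `r0` on its fixed space. -/
structure DL (X : Subgroup A8) (δ : ↥(X ⊓ centralizer {r0}) →* Wr) : Prop where
  act : ∀ d v, io (δ d • v) = d.1 (io v)
  ker : ∀ d, δ d = 1 ↔ d.1 = 1 ∨ d.1 = r0

abbrev S4 := C3 × F3

/-- The elements of a Sylow `3`-subgroup. -/
def sv (a : S4) : A8 := jv a.1 * cy ^ a.2.val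

def rot (k : F3) (c : C3) : C3 :=
  if k = 0 then c else if k = 1 then (c.2.2, c.1, c.2.1) else (c.2.1, c.2.2, c.1)

def mu (a b : S4) : S4 := (a.1 + rot a.2 b.1, a.2 + b.2)

theorem f3_cases : ∀ k : F3, k = 0 ∨ k = 1 ∨ k = 2 := by decide

theorem cy_rot (k : F3) (c : C3) : cy ^ k.val * jv c = jv (rot k c) * cy ^ k.val := by
  rcases f3_cases k with rfl | rfl | rfl
  · simp [rot]
  · change cy ^ 1 * _ = jv (c.2.2, c.1, c.2.1) * cy ^ 1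
    rw [← cy_jv]; group
  · change cy ^ 2 * _ = jv (c.2.1, c.2.2, c.1) * cy ^ 2
    rw [← cy_jv (c.2.2, c.1, c.2.1), ← cy_jv c]; simp [pow_two, mul_assoc]

theorem sv_mul (a b : S4) : sv a * sv b = sv (mu a b) := by
  have e : ∀ k l : F3, cy ^ (k + l).val = cy ^ k.val * cy ^ l.val := by decide +kernel
  simp only [sv, mu, jv_add, e]
  rw [mul_assoc, ← mul_assoc (cy ^ _), cy_rot]; simp only [mul_assoc]

theorem sv_zero : sv 0 = 1 := by simp [sv, jv_zero]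

theorem sv_one : ∀ a, sv a = 1 → a = 0 := by decide +kernel

def iv (a : S4) : S4 := (-rot (-a.2) a.1, -a.2)

theorem mu_iv : ∀ a, mu a (iv a) = 0 := by decide +kernel

theorem sv_iv (a : S4) : sv (iv a) = (sv a)⁻¹ :=
  eq_inv_of_mul_eq_one_right (by rw [sv_mul, mu_iv, sv_zero])

theorem sv_inj : Function.Injective sv := fun a b e =>
  (by decide +kernel : ∀ a b, mu a (iv b) = 0 → a = b) a b
    (sv_one _ (by rw [← sv_mul, sv_iv, e, mul_inv_cancel]))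

theorem sv_jv (c : C3) : sv (c, 0) = jv c := by simp [sv]

theorem sv_cy : sv (0, 1) = cy := by decide +kernel

theorem sv_cube {a : S4} : sv a ^ 3 = 1 ↔ mu a (mu a a) = 0 := by
  rw [pow_three, sv_mul, sv_mul, ← sv_zero, sv_inj.eq_iff]

theorem sv_conj {a b c : S4} (h : mu b a = mu c b) : sv b * sv a * (sv b)⁻¹ = sv c := by
  rw [sv_mul, h, ← sv_mul, mul_inv_cancel_right]

/-- A Sylow `3`-subgroup. -/
def S0 : Subgroup A8 where
  carrier := Set.range sv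
  one_mem' := ⟨0, sv_zero⟩
  mul_mem' := by rintro _ _ ⟨a, rfl⟩ ⟨b, rfl⟩; exact ⟨_, (sv_mul a b).symm⟩
  inv_mem' := by rintro _ ⟨a, rfl⟩; exact ⟨_, sv_iv a⟩

theorem card_S0 : Nat.card S0 = 81 :=
  (Nat.card_congr (Equiv.ofInjective _ sv_inj).symm).trans (by simp [C3])

theorem w0_ap (c : F3) (v : V8) : f0 (uw c) v = (v.1 + c • v.2, v.2) := by
  rw [f0_ap]; simp [tw, uw]

theorem w1_ap (c : F3) (v : V8) :
    f1 (uw c) v = ((v.1.1 + c • v.1.2, v.1.2), (v.2.1 + c • v.2.2, v.2.2)) := by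
  rw [f1_ap]; simp [tw, uw]

theorem w2_ap (c : F3) (v : V8) : f2 (uw c) v =
    (((v.1.1.1 + c * v.1.1.2, v.1.1.2), (v.1.2.1 + c * v.1.2.2, v.1.2.2)),
      ((v.2.1.1 + c * v.2.1.2, v.2.1.2), (v.2.2.1 + c * v.2.2.2, v.2.2.2))) := by
  simp only [f2_ap, sl_smul]; simp [uw]

theorem jv_ap (c : C3) (v : V8) : jv c v = f0 (uw c.1) (f1 (uw c.2.1) (f2 (uw c.2.2) v)) := rfl

theorem fix_J {v : V8} (h : ∀ c, jv c v = v) : v = v.1.1.1 • bv 0 := by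
  have h1 := h (1, 0, 0)
  have h2 := h (0, 1, 0)
  have h3 := h (0, 0, 1)
  simp [jv_ap, w0_ap, w1_ap, w2_ap, Prod.ext_iff] at h1 h2 h3
  ext <;> simp [bv, h1, h2, h3]

/-- Linear maps commuting with the generators of `R0` are scalars. -/
theorem scalar (s : V8 →ₗ[F3] V8) (h : ∀ r ∈ R0, ∀ v, s (r v) = r (s v)) : ∃ c : F3, ∀ v, s v = c • v := by
  have e : ∀ f : SL →* A8, (∀ a ∈ SL.Q8, f a ∈ R0) → f qj (bv 0) = bv 0 + f qi (bv 0) →
      f qj (s (bv 0)) = s (bv 0) + f qi (s (bv 0)) := fun f hf e => by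
    rw [← h _ (hf _ qi_mem), ← h _ (hf _ qj_mem), e, map_add]
  have h0 := e f0 (fun _ => f0_mem) (by decide +kernel)
  have h1 := e f1 (fun _ => f1_mem) (by decide +kernel)
  have h2 := e f2 (fun _ => f2_mem) (by decide +kernel)
  have h3 : s (bv 0) = (s (bv 0)).1.1.1 • bv 0 := by
    generalize s (bv 0) = u at h0 h1 h2 ⊢
    obtain ⟨⟨⟨a0, a1⟩, ⟨a2, a3⟩⟩, ⟨⟨a4, a5⟩, ⟨a6, a7⟩⟩⟩ := u
    simp only [f0_ap, f1_ap, f2_ap, sl_smul] at h0 h1 h2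
    simp [tw, qi, qj, Prod.ext_iff] at h0 h1 h2
    have k : ∀ x : F3, x = -x → x = 0 := by decide
    ext <;> simp [bv] <;> apply k <;> tauto
  refine ⟨(s (bv 0)).1.1.1, fun v => ?_⟩
  refine LinearMap.congr_fun (lin_ext (x := s) (y := (s (bv 0)).1.1.1 • LinearMap.id) fun i => ?_) v
  obtain ⟨a, ha, b, hb, c, hc, k⟩ := (by decide +kernel : ∀ i, ∃ a ∈ q8, ∃ b ∈ q8, ∃ c ∈ q8,
    ff (a, b, c) (bv 0) = bv i) i
  rw [← k, h _ (ff_mem ((mem_q8 _).2 ha) ((mem_q8 _).2 hb) ((mem_q8 _).2 hc))]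
  conv_lhs => rw [h3]
  simp

theorem cent_R0 {g : A8} (h : ∀ r ∈ R0, Commute g r) : g = 1 ∨ g = ng := by
  obtain ⟨c, hc⟩ := scalar g.toLinearMap fun r hr v => LinearEquiv.congr_fun (h r hr).eq v
  rcases f3_cases c with rfl | rfl | rfl
  · exact absurd (g.injective ((hc (bv 0)).trans (by simp) : g (bv 0) = g 0)) (by decide)
  · exact .inl (LinearEquiv.ext fun v => (hc v).trans (one_smul _ _))
  · exact .inr (LinearEquiv.ext fun v => (hc v).trans ((neg_one_smul F3 v).trans (ng_ap v).symm))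

theorem R0_ind {P : Subgroup A8} (a0 : f0 qi ∈ P) (b0 : f0 qj ∈ P) (a1 : f1 qi ∈ P) (b1 : f1 qj ∈ P)
    (a2 : f2 qi ∈ P) (b2 : f2 qj ∈ P) : R0 ≤ P := fun x hx => by
  have e : ∀ f : SL →* A8, f qi ∈ P → f qj ∈ P → ∀ a ∈ SL.Q8, f a ∈ P := fun f i j a ha => by
    obtain ⟨m, n, rfl⟩ := (by decide +kernel : ∀ a ∈ SL.Q8, ∃ m n : Fin 4,
      a = qi ^ m.val * qj ^ n.val) a ha
    rw [map_mul, map_pow, map_pow]
    exact mul_mem (pow_mem i _) (pow_mem j _)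
  obtain ⟨a, ha, b, hb, c, hc, rfl⟩ := mem_R0.1 hx
  exact mul_mem (e f0 a0 b0 a ha) (mul_mem (e f1 a1 b1 b hb) (e f2 a2 b2 c hc))

theorem R0_four {x : A8} (h : x ∈ R0) : x ^ 4 = 1 := by
  obtain ⟨a, ha, b, hb, c, hc, rfl⟩ := mem_R0.1 h
  rw [← map_pow, Prod.pow_mk, Prod.pow_mk, ha, hb, hc]; exact map_one ff

theorem cy_R0 {x : A8} (h : x ∈ R0) : cy * x * cy⁻¹ ∈ R0 := by
  obtain ⟨a, ha, b, hb, c, hc, rfl⟩ := mem_R0.1 h
  exact cy_ff a b c ▸ ff_mem hc ha hb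

theorem r0_R0 {x : A8} (h : x ∈ R0) : r0 * x * r0⁻¹ ∈ R0 := by
  obtain ⟨a, ha, b, hb, c, hc, rfl⟩ := mem_R0.1 h
  exact r0_ff a b c ▸ ff_mem hb ha hc

theorem ff_R0 (y : SL × SL × SL) {x : A8} (h : x ∈ R0) : ff y * x * (ff y)⁻¹ ∈ R0 := by
  obtain ⟨a, ha, b, hb, c, hc, rfl⟩ := mem_R0.1 h
  rw [← map_inv, ← map_mul, ← map_mul]
  have n : SL.Q8.Normal := inferInstance
  exact ff_mem (n.conj_mem _ ha y.1) (n.conj_mem _ hb y.2.1) (n.conj_mem _ hc y.2.2)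

theorem d0_R0 {x : A8} (h : x ∈ R0) : d0 * x * d0⁻¹ ∈ R0 := by
  have e : ∀ {x y}, y ∈ R0 → d0 * x * d0⁻¹ = y → x ∈ R0.comap (MulAut.conj d0).toMonoidHom :=
    fun hy e => (congrArg (· ∈ R0) e).mpr hy
  exact R0_ind (e (f0_mem (inv_mem qi_mem)) (by decide +kernel))
    (e (f0_mem (mul_mem qj_mem qi_mem)) (by decide +kernel)) (e (f1_mem qi_mem) (by decide +kernel))
    (e (f1_mem qj_mem) (by decide +kernel)) (e (f2_mem qi_mem) (by decide +kernel))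
    (e (f2_mem qj_mem) (by decide +kernel)) h

theorem d0_jv : ∀ c : C3, d0 * jv c * d0⁻¹ = jv (-c.1, c.2.1, c.2.2) := by decide +kernel

theorem fac0 {g : A8} (n : ∀ r ∈ R0, g * r * g⁻¹ ∈ R0) (h : ∀ c, Commute g (jv c)) :
    ∃ k, g * f0 qi * g⁻¹ = jv (k, 0, 0) * f0 qi * (jv (k, 0, 0))⁻¹ := by
  obtain ⟨a, ha, b, hb, c, hc, e⟩ := mem_R0.1 (n _ (f0_mem qi_mem))
  have k : ∀ c x, jv c * (g * x * g⁻¹) * (jv c)⁻¹ = g * (jv c * x * (jv c)⁻¹) * g⁻¹ := fun c x => by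
    rw [← mul_assoc, ← mul_assoc, ← (h c).eq, mul_assoc _ g⁻¹, (h c).inv_inv.eq]; group
  rw [← e]
  refine (by decide +kernel : ∀ a ∈ q8, ∀ b ∈ q8, ∀ c ∈ q8,
    jv (0, 1, 1) * ff (a, b, c) * (jv (0, 1, 1))⁻¹ = ff (a, b, c) → ff (a, b, c) ≠ 1 →
    jv (1, 0, 0) * (jv (1, 0, 0) * ff (a, b, c) * (jv (1, 0, 0))⁻¹) * (jv (1, 0, 0))⁻¹ =
      ff (a, b, c) * (jv (1, 0, 0) * ff (a, b, c) * (jv (1, 0, 0))⁻¹) →
    ∃ k, ff (a, b, c) = jv (k, 0, 0) * f0 qi * (jv (k, 0, 0))⁻¹) a ((mem_q8 _).1 ha)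
      b ((mem_q8 _).1 hb) c ((mem_q8 _).1 hc) ?_ ?_ ?_ <;> rw [e]
  · rw [k]; exact congrArg (g * · * g⁻¹) (by decide +kernel)
  · rw [Ne, conj_eq_one_iff]; decide +kernel
  · rw [k, k, conj_mul]; exact congrArg (g * · * g⁻¹) (by decide +kernel)

/-- The centralizer of `J` in the normalizer of `R0`. -/
theorem cent_J {g : A8} (n : ∀ r ∈ R0, g * r * g⁻¹ ∈ R0) (h : ∀ c, Commute g (jv c)) :
    ∃ c, g = jv c ∨ g = ng * jv c := by
  have ci : cy⁻¹ = cy * cy := by decide +kernel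
  have s : ∀ {g : A8}, (∀ r ∈ R0, g * r * g⁻¹ ∈ R0) ∧ (∀ c, Commute g (jv c)) →
      (∀ r ∈ R0, cy⁻¹ * g * cy * r * (cy⁻¹ * g * cy)⁻¹ ∈ R0) ∧
        ∀ c, Commute (cy⁻¹ * g * cy) (jv c) := fun {g} h => ⟨fun r hr => by
      convert cy_R0 (cy_R0 (h.1 _ (cy_R0 hr))) using 1
      rw [← mul_assoc, ← mul_assoc, ← ci, mul_assoc _ cy⁻¹, ← mul_inv_rev, ← ci]; group,
    fun c => by
      have := (h.2 (c.2.2, c.1, c.2.1)).map (MulAut.conj cy⁻¹)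
      simpa [← cy_jv, mul_assoc] using this⟩
  obtain ⟨a, ha⟩ := fac0 n h
  obtain ⟨b, hb⟩ := fac0 (s ⟨n, h⟩).1 (s ⟨n, h⟩).2
  obtain ⟨c, hc⟩ := fac0 (s (s ⟨n, h⟩)).1 (s (s ⟨n, h⟩)).2
  have e := (by decide +kernel : ∀ a b c : F3,
    jv (a, 0, 0) * f0 qi * (jv (a, 0, 0))⁻¹ = jv (a, b, c) * f0 qi * (jv (a, b, c))⁻¹ ∧
    cy * (jv (b, 0, 0) * f0 qi * (jv (b, 0, 0))⁻¹) * cy⁻¹ = jv (a, b, c) * f1 qi * (jv (a, b, c))⁻¹ ∧
    cy * (cy * (jv (c, 0, 0) * f0 qi * (jv (c, 0, 0))⁻¹) * cy⁻¹) * cy⁻¹ =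
      jv (a, b, c) * f2 qi * (jv (a, b, c))⁻¹) a b c
  rw [← ha, ← hb, ← hc] at e
  have k : ∀ x, g * x * g⁻¹ = jv (a, b, c) * x * (jv (a, b, c))⁻¹ →
      Commute x ((jv (a, b, c))⁻¹ * g) := fun x e => by
    rw [Commute, SemiconjBy, ← mul_left_cancel_iff (a := jv (a, b, c)), ← mul_assoc, ← mul_assoc, ← e]
    group
  have j : ∀ x y d, jv d * x * (jv d)⁻¹ = y → Commute x ((jv (a, b, c))⁻¹ * g) →
      Commute y ((jv (a, b, c))⁻¹ * g) := fun x y d e c' => by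
    have := (jv_comm d (a, b, c)).inv_right.mul_right (h d).symm
    exact e ▸ (this.mul_left c').mul_left this.inv_left
  have k0 := k _ e.1
  have k1 := k (f1 qi) (by rw [← e.2.1, ← cy_f0]; group)
  have k2 := k (f2 qi) (by rw [← e.2.2, ← cy_f1, ← cy_f0]; group)
  have m := fun {x} => (mem_centralizer_singleton_iff (g := (jv (a, b, c))⁻¹ * g) (k := x)).2
  refine ⟨(a, b, c), (cent_R0 fun r hr => Commute.symm (mem_centralizer_singleton_iff.1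
    (R0_ind (m k0) (m (j _ _ (1, 0, 0) (by decide +kernel) k0)) (m k1)
      (m (j _ _ (0, 1, 0) (by decide +kernel) k1)) (m k2)
      (m (j _ _ (0, 0, 1) (by decide +kernel) k2)) hr))).imp (fun e => ?_) fun e => ?_⟩
  · exact (inv_mul_eq_one.1 e).symm
  · rw [(ng_comm _).eq, ← e, mul_inv_cancel_left]

namespace XD

variable {X : Subgroup A8} (h : XD X)
include h

theorem sv (a : S4) : sv a ∈ X := mul_mem (h.jv _) (pow_mem h.cy _)

theorem ng : ng ∈ X := h.R ng_mem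

theorem conj_S {A : Subgroup A8} (hA : A ≤ X) (p : IsPGroup 3 A) :
    ∃ x ∈ X, ∀ a ∈ A, x * a * x⁻¹ ∈ S0 := by
  have := Fact.mk Nat.prime_three
  have le : S0 ≤ X := by rintro _ ⟨a, rfl⟩; exact h.sv a
  have c : Nat.card (S0.subgroupOf X) = 3 ^ 4 :=
    (Nat.card_congr (subgroupOfEquivOfLe le).toEquiv).trans card_S0
  have h1 : IsPGroup 3 (S0.subgroupOf X) := .of_card c
  have hi : ¬ 3 ∣ (S0.subgroupOf X).index := fun ⟨k, e⟩ => h.syl ⟨k, by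
    rw [← card_mul_index (S0.subgroupOf X), c, e]; ring⟩
  obtain ⟨Q, hQ⟩ := (show IsPGroup 3 (A.subgroupOf X) from p.comap_subtype).exists_le_sylow
  obtain ⟨c, hc⟩ := MulAction.exists_smul_eq X Q (h1.toSylow hi)
  refine ⟨c, c.2, fun x hx => ?_⟩
  have h4 : c * ⟨x, hA hx⟩ * c⁻¹ ∈ (c • Q : Sylow 3 X) :=
    smul_mem_pointwise_smul _ (MulAut.conj c) _ (hQ (show ⟨x, hA hx⟩ ∈ A.subgroupOf X from hx))
  rw [hc] at h4
  exact h4

variable {A : Subgroup A8} (hA : A ≤ X) (h3 : ∀ a ∈ A, a ^ 3 = 1)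
include hA h3

theorem conj_S' : ∃ x ∈ X, ∃ B ≤ S0, Nat.card B = Nat.card A ∧ (∀ a ∈ B, a ^ 3 = 1) ∧
    ∀ a, a ∈ A ↔ x * a * x⁻¹ ∈ B := by
  obtain ⟨x, hx, e⟩ := h.conj_S hA fun g => ⟨1, Subtype.ext (h3 g g.2)⟩
  refine ⟨x, hx, A.map (MulAut.conj x).toMonoidHom, ?_,
    card_map_of_injective (MulAut.conj x).injective, ?_,
    fun a => (mem_map_iff_mem (f := (MulAut.conj x).toMonoidHom) (MulAut.conj x).injective).symm⟩
  · rintro _ ⟨a, ha, rfl⟩; exact e a ha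
  · rintro _ ⟨a, ha, rfl⟩; rw [← map_pow, h3 a ha, map_one]

theorem le27 : Nat.card A ≤ 27 := by
  obtain ⟨-, -, B, le, c, b3, -⟩ := h.conj_S' hA h3
  have d := card_dvd_of_le le
  have n : Nat.card B ≠ 81 := fun e => absurd (sv_cube.1 (b3 _ ((eq_of_le_of_card_ge le
    (e ▸ card_S0.le)).ge ⟨((1, 0, 0), 1), rfl⟩))) (by decide)
  rw [card_S0, show 81 = 3 ^ 4 from rfl, Nat.dvd_prime_pow Nat.prime_three] at d
  obtain ⟨k, hk, e⟩ := d
  rw [← c]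
  interval_cases k <;> omega

theorem eq_J (c : ∀ a ∈ A, ∀ b ∈ A, Commute a b) (n : 27 ≤ Nat.card A) :
    ∃ x ∈ X, ∀ a, a ∈ A ↔ x * a * x⁻¹ ∈ J := by
  obtain ⟨x, hx, B, le, e, -, m⟩ := h.conj_S' hA h3
  have cB : ∀ a ∈ B, ∀ b ∈ B, Commute a b := fun a ha b hb => by
    simpa [mul_assoc] using (c (x⁻¹ * a * x) ((m _).2 (by simpa [mul_assoc] using ha)) (x⁻¹ * b * x)
      ((m _).2 (by simpa [mul_assoc] using hb))).map (MulAut.conj x)
  have l : B ≤ J := fun a ha => by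
    obtain ⟨a, rfl⟩ := le ha
    by_contra k
    have k1 : a.2 ≠ 0 := fun e => k ⟨a.1, by rw [← sv_jv, ← e]⟩
    have k2 := (by decide +kernel : ∀ a : S4, a.2 ≠ 0 →
      Fintype.card {b // mu a b = mu b a} = 9) a k1
    choose f hf using fun b : B => le b.2
    have := Nat.card_le_card_of_injective (fun b : B => (⟨f b, sv_inj (by
      rw [← sv_mul, ← sv_mul, hf, (cB _ ha _ b.2).eq])⟩ : {b // mu a b = mu b a}))
      fun b b' e => Subtype.ext (by rw [← hf, ← hf, Subtype.mk.inj e])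
    rw [Nat.card_eq_fintype_card (α := {b // mu a b = mu b a}), k2] at this
    omega
  exact ⟨x, hx, eq_of_le_of_card_ge l (by rw [card_J]; omega) ▸ m⟩

/-- A subgroup of order at least `9` has an element of weight at most two. -/
theorem nine (n : 9 ≤ Nat.card A) : ∃ a ∈ A, ∃ x ∈ X,
    x * a * x⁻¹ ∈ [B8L.jv (1, 0, 0), B8L.jv (1, 1, 0), B8L.jv (1, -1, 0), B8L.cy] := by
  obtain ⟨x, hx, B, le, e, b3, m⟩ := h.conj_S' hA h3
  obtain ⟨a, ha, a0, k⟩ : ∃ a, B8L.sv a ∈ B ∧ a ≠ 0 ∧ (a.2 = 0 → a.1.2.2 = 0) := by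
    by_contra! k
    choose f hf using fun b : B => le b.2
    have z : ∀ b, (f b).2 = 0 := fun b => by
      by_cases e : f b = 0
      · rw [e]; rfl
      · exact (k _ (hf b ▸ b.2) e).1
    have := Nat.card_le_card_of_injective (fun b : B => (f b).1.2.2) fun b b' e => by
      by_contra ne
      refine (k (mu (f b) (iv (f b'))) (by
        rw [← sv_mul, sv_iv, hf, hf]; exact mul_mem b.2 (inv_mem b'.2)) fun c => ne ?_).2 ?_
      · exact Subtype.ext (by rw [← mul_inv_eq_one, ← hf, ← hf, ← sv_iv, sv_mul, c, sv_zero])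
      · simp only at e
        simp [mu, iv, rot, z, e]
    rw [Nat.card_zmod] at this
    omega
  obtain ⟨b, c, hc, k⟩ := (by decide +kernel : ∀ a : S4, mu a (mu a a) = 0 → a ≠ 0 →
    (a.2 = 0 → a.1.2.2 = 0) → ∃ b, ∃ c ∈ [((1, 0, 0), 0), ((1, 1, 0), 0), ((1, -1, 0), 0), (0, 1)],
      mu b a = mu c b ∨ mu b (iv a) = mu c b) a (sv_cube.1 (b3 _ ha)) a0 k
  have f : ∀ a, B8L.sv a ∈ B → mu b a = mu c b → ∃ a ∈ A, ∃ x ∈ X, x * a * x⁻¹ = B8L.sv c :=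
    fun a ha k => ⟨x⁻¹ * B8L.sv a * x, (m _).2 (by simpa [mul_assoc] using ha), _,
      mul_mem (h.sv b) hx, by rw [← sv_conj k]; group⟩
  obtain ⟨a, ha, x, hx, e⟩ := k.elim (f a ha) (f _ (sv_iv a ▸ inv_mem ha))
  refine ⟨a, ha, x, hx, ?_⟩
  rw [e, ← sv_cy, ← sv_jv, ← sv_jv, ← sv_jv]
  exact List.mem_map_of_mem (f := B8L.sv) hc

omit hA h3 in
/-- Representatives of the subgroups of order three. -/
theorem reps {g : A8} (hg : g ∈ X) (g3 : g ^ 3 = 1) (g1 : g ≠ 1) : ∃ x ∈ X, ∃ a, (a = g ∨ a = g⁻¹) ∧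
    x * a * x⁻¹ ∈ [B8L.jv (1, 0, 0), B8L.jv (1, 1, 0), B8L.jv (1, -1, 0), B8L.cy, B8L.jv (1, 1, 1),
      B8L.jv (1, 1, -1)] := by
  obtain ⟨x, hx, B, le, -, b3, m⟩ := h.conj_S' (zpowers_le_of_mem hg) (by
    rintro _ ⟨k, rfl⟩; rw [← zpow_natCast, ← zpow_mul, mul_comm, zpow_mul, zpow_natCast, g3, one_zpow])
  have hm := (m g).1 (mem_zpowers g)
  obtain ⟨a, ha⟩ := le hm
  obtain ⟨b, c, hc, k⟩ := (by decide +kernel : ∀ a : S4, mu a (mu a a) = 0 → a ≠ 0 →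
    ∃ b, ∃ c ∈ [((1, 0, 0), 0), ((1, 1, 0), 0), ((1, -1, 0), 0), (0, 1), ((1, 1, 1), 0),
      ((1, 1, -1), 0)], mu b a = mu c b ∨ mu b (iv a) = mu c b) a (sv_cube.1 (ha ▸ b3 _ hm))
      fun c => g1 (by rw [c, sv_zero] at ha; simpa using ha.symm)
  have l := List.mem_map_of_mem (f := B8L.sv) hc
  simp only [List.map, sv_cy, sv_jv] at l
  rcases k with k | k
  · exact ⟨_, mul_mem (h.sv b) hx, g, .inl rfl, by rw [← sv_conj k, ha] at l; convert l using 1; group⟩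
  · exact ⟨_, mul_mem (h.sv b) hx, g⁻¹, .inr rfl, by
      rw [← sv_conj k, sv_iv, ha] at l; convert l using 1; group⟩

end XD

end Cfsg.Agent.B8L
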