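import Mathlib
import Cfsg.Agent.F22L.HS
import Cfsg.Agent.B8L.XD

/-! Coordinates in the centralizer of an involution. -/

set_option autoImplicit false

namespace Cfsg.Agent.B8L

open Subgroup
open Cfsg.Agent.F22L (F3 W2 o2 SL qi qj Wr map_f3)

variable {G : Type*} [Group G] [Finite G] {z : G} {ψ : Hs →* G} {ρ : G → A8} {l : G → V8 →+ F3}
  {X : Subgroup A8}

/-- Coordinates for the centralizer of `z` in `C(r)/⟨r⟩`. -/
theorem HS.quot (h : HS z ψ ρ l X) {r : G} (hr : r ∈ h.H0) (ρr : ρ r = r0) (r2 : r * r = 1)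
    {δ : ↥(X ⊓ centralizer {r0}) →* Wr} (d : DL X δ) {B : Type*} [Group B]
    (π : centralizer ({r} : Set G) →* B) (hs : Function.Surjective π)
    (hk : ∀ c, π c = 1 ↔ c.1 = 1 ∨ c.1 = r) (zc : z ∈ centralizer ({r} : Set G)) :
    ∃ (ψ' : F22L.Hs →* B) (ρ' : B → Wr) (l' : B → F22L.V →+ F3),
      F22L.HS (π ⟨z, zc⟩) ψ' ρ' l' δ.range ∧ ∀ x, ∃ m, ψ' x = π ⟨ψ ⟨io x.v, x.c⟩, m⟩ := by
  classical
  let ι : F22L.Hs →* Hs := MonoidHom.mk' (fun x => ⟨io x.v, x.c⟩) fun x y => by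
    ext1
    · exact io_add _ _
    · simp [om_io]
  let ioA : F22L.V →+ V8 := AddMonoidHom.mk' io io_add
  have io0 : io 0 = 0 := map_zero ioA
  have mc : ∀ {a : G}, a ∈ centralizer ({r} : Set G) ↔ Commute a r := mem_centralizer_singleton_iff
  have m : ∀ x, (ψ.comp ι) x ∈ centralizer ({r} : Set G) := fun x =>
    mc.2 ((h.commute_iff hr.1 (x := ι x)).2 ⟨by rw [ρr]; rfl, by rw [hr.2]; rfl⟩).symm
  let κ : F22L.Hs →* centralizer ({r} : Set G) := (ψ.comp ι).codRestrict _ m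
  have kk : ∀ x, (κ x : G) = ψ ⟨io x.v, x.c⟩ := fun _ => rfl
  have rg : ∀ c : centralizer ({r} : Set G), (c : G) ∈ ψ.range → ∃ x, κ x = c := by
    rintro c ⟨y, hy⟩
    have := ((h.commute_iff hr.1 (x := y)).1 (hy ▸ (mc.1 c.2).symm)).1
    rw [ρr] at this
    exact ⟨⟨po y.v, y.c⟩, Subtype.ext (by rw [kk, ← hy, io_po this])⟩
  have r1 : r ≠ 1 := fun e => by
    rw [e, h.ρ_one] at ρr
    exact absurd ρr (by decide +kernel)
  have nr : r ^ 3 ≠ 1 := by rwa [pow_three, r2, mul_one]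
  have rc : r ∈ centralizer ({r} : Set G) := mc.2 (.refl r)
  have πr : π ⟨r, rc⟩ = 1 := (hk _).2 (.inr rfl)
  have cz : ∀ c : centralizer ({r} : Set G), Commute (π c) (π ⟨z, zc⟩) ↔ Commute c.1 z := fun c => by
    refine ⟨fun e => ?_, fun e => (show Commute c ⟨z, zc⟩ from Subtype.ext e).map π⟩
    rcases (hk (c * ⟨z, zc⟩ * c⁻¹ * (⟨z, zc⟩ : centralizer ({r} : Set G))⁻¹)).1 (by
      simp only [map_mul, map_inv]; rw [e.eq]; group) with k | k
    · change c.1 * z * c.1⁻¹ * z⁻¹ = 1 at k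
      rwa [mul_inv_eq_one, mul_inv_eq_iff_eq_mul] at k
    · change c.1 * z * c.1⁻¹ * z⁻¹ = r at k
      rw [mul_inv_eq_iff_eq_mul] at k
      have := congrArg (· ^ 3) k
      simp only [conj_pow, hr.1.mul_pow, h.z3, mul_one, mul_inv_cancel] at this
      exact absurd this.symm nr
  choose σ hσ using hs
  have mX : ∀ c : centralizer ({r} : Set G), Commute c.1 z → ρ c ∈ X ⊓ centralizer {r0} :=
    fun c hc => ⟨h.ρ_mem hc, mem_centralizer_singleton_iff.2 (ρr ▸ h.ρ_comm hc hr.1 (mc.1 c.2))⟩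
  have cσ : ∀ a, Commute a (π ⟨z, zc⟩) → Commute (σ a).1 z := fun a ha => (cz _).1 ((hσ a).symm ▸ ha)
  let ρ' : B → Wr := fun a => if ha : Commute (σ a).1 z then δ ⟨_, mX _ ha⟩ else 1
  have hρ : ∀ a (ha : Commute a (π ⟨z, zc⟩)), ρ' a = δ ⟨_, mX _ (cσ a ha)⟩ := fun a ha =>
    dif_pos (cσ a ha)
  refine ⟨π.comp κ, ρ', fun a => (l (σ a)).comp ioA, ⟨(injective_iff_map_eq_one _).2 fun x hx => ?_,
    congrArg π (Subtype.ext ?_), fun a ha x => ?_, fun a ha e => ?_, fun x => ⟨?_, ?_⟩⟩,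
    fun x => ⟨m x, rfl⟩⟩
  · rcases (hk _).1 hx with k | k
    · have := h.inj (k.trans (map_one ψ).symm)
      ext1
      · rw [← po_io x.v, show io x.v = io 0 from (congrArg Hs.v this).trans io0.symm, po_io]; rfl
      · exact congrArg Hs.c this
    · exact absurd (k ▸ HS.ψ3 ⟨_, rfl⟩) nr
  · rw [kk, io0, h.zz]
  · conv_lhs => rw [← hσ a]
    rw [MonoidHom.comp_apply, MonoidHom.comp_apply, ← map_inv, ← map_mul, ← map_mul]
    refine congrArg π (Subtype.ext ?_)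
    rw [kk, hρ a ha, d.act]
    exact h.act _ (cσ a ha) _
  · rw [hρ a ha, d.ker] at e
    rcases e with e | e
    · obtain ⟨x, hx⟩ := rg _ (h.ker _ (cσ a ha) e)
      exact ⟨x, by rw [MonoidHom.comp_apply, hx, hσ]⟩
    · obtain ⟨x, hx⟩ := rg (σ a * ⟨r, rc⟩) (h.ker _ ((cσ a ha).mul_left hr.1) (by
        rw [coe_mul, h.ρ_mul (cσ a ha) hr.1, show ρ (σ a) = r0 from e, ρr, r0_sq]))
      exact ⟨x, by rw [MonoidHom.comp_apply, hx, map_mul, hσ, πr, mul_one]⟩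
  · rintro ⟨y, rfl⟩
    obtain ⟨a, ha, e⟩ := h.exists_lift y.2.1
    have ca : Commute a r := h.comm_inv ha hr r2 (by
      rw [e, ρr]; exact mem_centralizer_singleton_iff.1 y.2.2)
    have c1 := (cz ⟨a, mc.2 ca⟩).2 ha.1
    refine ⟨_, c1, ?_⟩
    rw [hρ _ c1]
    rcases (hk (σ (π ⟨a, mc.2 ca⟩) * (⟨a, mc.2 ca⟩ : centralizer ({r} : Set G))⁻¹)).1 (by
      rw [map_mul, map_inv, hσ, mul_inv_cancel]) with k | k
    · exact congrArg δ (Subtype.ext ((congrArg ρ (mul_inv_eq_one.1 k)).trans e))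
    · rw [← one_mul (δ y), ← (d.ker ⟨_, mX ⟨r, rc⟩ hr.1⟩).2 (.inr ρr), ← map_mul]
      exact congrArg δ (Subtype.ext ((congrArg ρ (mul_inv_eq_iff_eq_mul.1 k)).trans
        ((h.ρ_mul hr.1 ha.1).trans (by rw [e]; rfl))))
  · rintro ⟨a, ha, rfl⟩
    exact ⟨_, (hρ a ha).symm⟩

end Cfsg.Agent.B8L
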