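import Mathlib
import Cfsg.Agent.B8L.XD

/-! The centralizer of `r0` and its image modulo `R0`. -/

set_option autoImplicit false
set_option synthInstance.maxSize 4096

namespace Cfsg.Agent.B8L

open Subgroup
open Cfsg.Agent.F22L (F3 W2 o2 SL qi qj Wr map_f3)

variable {X : Subgroup A8} {K : Type*} [Group K] {π : X →* K} {s : K}

theorem dk_not_conj (z : A8) : z * r0 * z⁻¹ ≠ ng * r0 := fun e => by
  have e' : z * r0 = ng * r0 * z := by rw [← e]; group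
  have k : ∀ v, r0 (z (io v)) = -z (io v) := fun v => by
    have := LinearEquiv.congr_fun e' (io v)
    rw [mul_ap, r0_io, mul_ap, mul_ap, ng_ap] at this
    rw [← neg_eq_iff_eq_neg, ← this]
  have n : ∀ a : W2, a = -a → a = 0 := by decide +kernel
  have f : ∀ w : V8, r0 w = -w → w = ((0, w.1.2), (-w.1.2, 0)) := fun w h => by
    have h1 : w.1.1 = -w.1.1 := congrArg (·.1.1) h
    have h2 : w.2.1 = -w.1.2 := congrArg (·.1.2) h
    have h3 : w.2.2 = -w.2.2 := congrArg (·.2.2) h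
    exact Prod.ext (Prod.ext (n _ h1) rfl) (Prod.ext h2 (n _ h3))
  have := Nat.card_le_card_of_injective (fun v : F22L.V => (z (io v)).1.2) fun v w h => by
    have h' : z (io v) = z (io w) := by
      rw [f _ (k v), f _ (k w)]; simp only at h; rw [h]
    rw [← po_io v, z.injective h', po_io]
  simp [F22L.V, W2] at this

theorem dk_inv : ∀ a ∈ q8, ∀ b ∈ q8, ∀ c ∈ q8,
    ff (a, b, c) * r0 * (ff (a, b, c) * r0) = 1 → ∃ y ∈ q8,
      ff (a, b, c) * r0 = f0 y * r0 * (f0 y)⁻¹ ∨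
      ff (a, b, c) * r0 = f0 y * (ng * r0) * (f0 y)⁻¹ := by decide +kernel

theorem dk_adj {x : A8} (m : x * r0 * x⁻¹ * r0⁻¹ ∈ R0) : ∃ y ∈ R0, Commute (y⁻¹ * x) r0 := by
  obtain ⟨a, ha, b, hb, c, hc, e⟩ := mem_R0.1 m
  have e' : ff (a, b, c) * r0 = x * r0 * x⁻¹ := by rw [e, inv_mul_cancel_right]
  obtain ⟨y, hy, k⟩ := dk_inv a ((mem_q8 _).1 ha) b ((mem_q8 _).1 hb) c ((mem_q8 _).1 hc)
    (by rw [e', conj_mul, r0_sq, mul_one, mul_inv_cancel])
  rw [e'] at k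
  have g : ∀ {G : Type} [Group G] (x y r t : G), x * r * x⁻¹ = y * t * y⁻¹ →
      y⁻¹ * x * r * (y⁻¹ * x)⁻¹ = t := fun x y r t k => by
    rw [show y⁻¹ * x * r * (y⁻¹ * x)⁻¹ = y⁻¹ * (x * r * x⁻¹) * y by group, k]; group
  rcases k with k | k
  · exact ⟨f0 y, f0_mem ((mem_q8 _).2 hy), mul_inv_eq_iff_eq_mul.1 (g _ _ _ _ k)⟩
  · exact absurd (g _ _ _ _ k) (dk_not_conj _)

/-- Proof. `x r0 x⁻¹ = u r0` with `u ∈ R0` (`ker`), an involution; it is conjugate under `R0` to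
`r0` or to `ng * r0`, and the latter is not conjugate to `r0`. -/
theorem XK.lift (h : XK X π s) {k : K} (hk : Commute k (π ⟨B8L.r0, h.r0⟩)) :
    ∃ x : X, π x = k ∧ Commute x.1 B8L.r0 := by
  obtain ⟨x, rfl⟩ := h.surj k
  have m := (h.ker (x * ⟨B8L.r0, h.r0⟩ * x⁻¹ * ⟨B8L.r0, h.r0⟩⁻¹)).1 (by
    rw [map_mul, map_mul, map_mul, map_inv, map_inv, hk.eq]; group)
  simp only [coe_mul, coe_inv] at m
  obtain ⟨y, hy, e⟩ := dk_adj m
  refine ⟨(⟨y, h.R hy⟩ : X)⁻¹ * x, ?_, e⟩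
  rw [map_mul, map_inv, (h.ker _).2 hy, inv_one, one_mul]

theorem XD.dk_ff (h : XD X) (a b c : SL) : ff (a, b, c) ∈ X := by
  have e := (by decide +kernel : ∀ a : SL, ∃ k : F3, a * (uw k)⁻¹ ∈ SL.Q8)
  obtain ⟨k, hk⟩ := e a
  obtain ⟨l, hl⟩ := e b
  obtain ⟨m, hm⟩ := e c
  have := mul_mem (h.R (ff_mem hk hl hm)) (h.jv (k, l, m))
  rwa [B8L.jv, ← map_mul, Prod.mk_mul_mk, Prod.mk_mul_mk, inv_mul_cancel_right,
    inv_mul_cancel_right, inv_mul_cancel_right] at this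

theorem dk_comm (a c : SL) : Commute (ff (a, a, c)) r0 :=
  (mul_inv_eq_iff_eq_mul.1 (r0_ff a a c)).symm

theorem XD.dk_T3 (h : XD X) (a c : SL) : ff (a, a, c) ∈ T3 X := by
  have e := (by decide +kernel : ∀ a : SL, ∃ b : SL, b ^ 3 = 1 ∧ ∃ c : SL, c ^ 3 = 1 ∧
    (c⁻¹ * b⁻¹ * a) ^ 3 = 1)
  have g : ∀ a c : SL, a ^ 3 = 1 → c ^ 3 = 1 → ff (a, a, c) ∈ T3 X := fun a c ha hc =>
    subset_closure ⟨h.dk_ff _ _ _, by
      rw [← map_pow, Prod.pow_mk, Prod.pow_mk, ha, hc]; exact map_one ff, dk_comm a c⟩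
  obtain ⟨a1, h1, a2, h2, h3⟩ := e a
  obtain ⟨c1, k1, c2, k2, k3⟩ := e c
  have := mul_mem (mul_mem (g _ _ h1 k1) (g _ _ h2 k2)) (g _ _ h3 k3)
  simp only [← map_mul, Prod.mk_mul_mk] at this
  rwa [show a1 * a2 * (a2⁻¹ * a1⁻¹ * a) = a by group,
    show c1 * c2 * (c2⁻¹ * c1⁻¹ * c) = c by group] at this

theorem dk_form {x : A8} (hx : x ∈ R0) (c : Commute x r0) :
    ∃ a ∈ [1, qi, qj, qi * qj], ∃ c ∈ q8, ff (a, a, c) = x := by
  obtain ⟨a, ha, b, hb, d, hd, rfl⟩ := mem_R0.1 hx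
  exact (by decide +kernel : ∀ a ∈ q8, ∀ b ∈ q8, ∀ d ∈ q8, Commute (ff (a, b, d)) r0 →
    ∃ a' ∈ [1, qi, qj, qi * qj], ∃ c ∈ q8, ff (a', a', c) = ff (a, b, d)) a ((mem_q8 _).1 ha)
      b ((mem_q8 _).1 hb) d ((mem_q8 _).1 hd) c

/-- The centralizer of `r0` in `R0` lies in `T3 X`. -/
theorem XD.cent_le (h : XD X) {x : A8} (hx : x ∈ R0) (c : Commute x B8L.r0) : x ∈ T3 X := by
  obtain ⟨a, -, d, -, rfl⟩ := dk_form hx c
  exact h.dk_T3 a d

/-- The centralizer of `r0` in `R0` has order `32`. -/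
theorem card_cent : Nat.card ↥(R0 ⊓ centralizer {r0}) = 32 := by
  let A : Fin 4 → SL := ![1, qi, qj, qi * qj]
  let C : Fin 8 → SL := ![1, SL.ng, qi, qi⁻¹, qj, qj⁻¹, qi * qj, qj * qi]
  have hA : ∀ i, A i ∈ SL.Q8 := by decide +kernel
  have hC : ∀ i, C i ∈ SL.Q8 := by decide +kernel
  let f : Fin 4 × Fin 8 → ↥(R0 ⊓ centralizer {r0}) := fun p =>
    ⟨ff (A p.1, A p.1, C p.2), ff_mem (hA _) (hA _) (hC _),
      mem_centralizer_singleton_iff.2 (dk_comm _ _).eq⟩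
  have b : Function.Bijective f := by
    refine ⟨fun p q e => (by decide +kernel : ∀ p q : Fin 4 × Fin 8,
      ff (A p.1, A p.1, C p.2) = ff (A q.1, A q.1, C q.2) → p = q) p q (congrArg Subtype.val e),
      fun x => ?_⟩
    obtain ⟨a, ha, c, hc, e⟩ := dk_form x.2.1 (mem_centralizer_singleton_iff.1 x.2.2)
    obtain ⟨i, rfl⟩ := (by decide +kernel : ∀ a ∈ [1, qi, qj, qi * qj], ∃ i, A i = a) a ha
    obtain ⟨j, rfl⟩ := (by decide +kernel : ∀ c ∈ q8, ∃ j, C j = c) c hc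
    exact ⟨(i, j), Subtype.ext e⟩
  rw [← Nat.card_eq_of_bijective f b]; simp

theorem dk_K3 (c : K) {s x : K} (hx : x ∈ K3 s) : c * x * c⁻¹ ∈ K3 (c * s * c⁻¹) := by
  induction hx using closure_induction with
  | mem x hx => exact subset_closure ⟨by rw [conj_pow, hx.1]; group, hx.2.map (MulAut.conj c)⟩
  | one => simp
  | mul x y _ _ hx hy => rw [← conj_mul]; exact mul_mem hx hy
  | inv x _ hx => rw [← conj_inv]; exact inv_mem hx

theorem dk_card (c s : K) :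
    Nat.card (centralizer {c * s * c⁻¹}) = Nat.card (centralizer {s}) := by
  rw [← card_map_of_injective (K := centralizer {s}) (f := (MulAut.conj c).toMonoidHom)
    (MulAut.conj c).injective]
  congr 2
  ext x
  rw [mem_map_equiv, mem_centralizer_singleton_iff, mem_centralizer_singleton_iff]
  simp only [MulAut.conj_symm_apply]
  constructor
  · intro h
    rw [show c⁻¹ * x * c * s = c⁻¹ * (x * (c * s * c⁻¹)) * c by group, h]; group
  · intro h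
    rw [show x * (c * s * c⁻¹) = c * (c⁻¹ * x * c * s) * c⁻¹ by group, h]; group

theorem XK.dk_card (h : XK X π s) :
    Nat.card ↥(X ⊓ centralizer {B8L.r0}) = 32 * Nat.card (centralizer {s}) := by
  obtain ⟨c, hc⟩ := isConj_iff.1 h.conj
  let φ : ↥(X ⊓ centralizer {B8L.r0}) →* K := π.comp (inclusion inf_le_left)
  have r : φ.range = centralizer {π ⟨B8L.r0, h.r0⟩} := by
    ext k
    rw [mem_centralizer_singleton_iff]
    constructor
    · rintro ⟨d, rfl⟩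
      have : Commute (inclusion inf_le_left d) ⟨B8L.r0, h.r0⟩ :=
        Subtype.ext (mem_centralizer_singleton_iff.1 d.2.2)
      exact (this.map π).eq
    · intro hk
      obtain ⟨x, rfl, e⟩ := h.lift hk
      exact ⟨⟨x.1, x.2, mem_centralizer_singleton_iff.2 e.eq⟩, rfl⟩
  have k : φ.ker = (R0 ⊓ centralizer {B8L.r0}).subgroupOf _ := by
    ext d
    rw [MonoidHom.mem_ker, mem_subgroupOf]
    exact (h.ker _).trans ⟨fun e => ⟨e, d.2.2⟩, fun e => e.1⟩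
  rw [← card_mul_index φ.ker, index_ker, r, ← hc, B8L.dk_card, k,
    Nat.card_congr (subgroupOfEquivOfLe (inf_le_inf_right _ h.R)).toEquiv, card_cent]

theorem dk_T3_le {x : A8} (hx : x ∈ T3 X) : x ∈ X ∧ Commute x r0 := by
  have : T3 X ≤ X ⊓ centralizer {r0} := (closure_le _).2 fun x hx =>
    ⟨hx.1, mem_centralizer_singleton_iff.2 hx.2.2.eq⟩
  exact ⟨(this hx).1, mem_centralizer_singleton_iff.1 (this hx).2⟩

theorem XK.dk_lift (h : XK X π s) {k : K} (hk : k ∈ K3 (π ⟨B8L.r0, h.r0⟩)) :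
    ∃ x : X, π x = k ∧ x.1 ∈ T3 X := by
  induction hk using closure_induction with
  | mem k hk =>
    obtain ⟨x, rfl, e⟩ := h.lift hk.2
    have := R0_four ((h.ker (x ^ 3)).1 (by rw [map_pow, hk.1]))
    refine ⟨x ^ 4, by rw [map_pow, pow_succ, hk.1, one_mul],
      subset_closure ⟨(x ^ 4).2, ?_, e.pow_left 4⟩⟩
    rw [← this, coe_pow, coe_pow, ← pow_mul, ← pow_mul]
  | one => exact ⟨1, map_one _, one_mem _⟩
  | mul x y _ _ hx hy =>
    obtain ⟨x, rfl, hx⟩ := hx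
    obtain ⟨y, rfl, hy⟩ := hy
    exact ⟨x * y, map_mul _ _ _, mul_mem hx hy⟩
  | inv x _ hx =>
    obtain ⟨x, rfl, hx⟩ := hx
    exact ⟨x⁻¹, map_inv _ _, inv_mem hx⟩

theorem XK.dk_gen (h : XK X π s) {x : X} (c : Commute x.1 B8L.r0)
    (hk : π x ∈ K3 (π ⟨B8L.r0, h.r0⟩)) : x.1 ∈ T3 X := by
  obtain ⟨y, e, hy⟩ := h.dk_lift hk
  have := h.toXD.cent_le ((h.ker (y⁻¹ * x)).1 (by rw [map_mul, map_inv, e, inv_mul_cancel]))
    ((dk_T3_le hy).2.inv_left.mul_left c)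
  simpa using mul_mem hy this

/-- The case of the Fischer group. -/
theorem XK.fi (h : XK X π s) (c : Nat.card (centralizer {s}) = 72)
    (g : ∀ x, Commute x s → x ∈ K3 s) : XFi X := by
  refine ⟨h.toXD, fun x hx e => h.dk_gen (x := ⟨x, hx⟩) e ?_, by rw [h.dk_card, c]⟩
  obtain ⟨c, hc⟩ := isConj_iff.1 h.conj
  have e' : Commute (π ⟨x, hx⟩) (π ⟨B8L.r0, h.r0⟩) := Commute.map (Subtype.ext e.eq) π
  rw [← hc] at e' ⊢
  have := dk_K3 c (g (c⁻¹ * π ⟨x, hx⟩ * c) (by simpa [mul_assoc] using e'.map (MulAut.conj c⁻¹)))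
  simpa [mul_assoc] using this

theorem XD.dk_R0 (h : XD X) {N : Subgroup A8} (n : ∀ x ∈ X, ∀ n ∈ N, x * n * x⁻¹ ∈ N)
    (r : B8L.r0 ∈ N) : R0 ≤ N := by
  have u := mul_mem (n _ (h.R (f0_mem qi_mem)) _ r) (inv_mem r)
  have v := mul_mem (n _ (h.jv (1, 0, 0)) _ u) (inv_mem u)
  have a : f0 qi ∈ N := by
    convert n _ (h.jv (1, 0, 0)) _ v using 1; decide +kernel
  have b : f0 qj ∈ N := by
    convert n _ (h.jv (1, 0, 0)) _ a using 1; decide +kernel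
  have a1 : f1 qi ∈ N := n _ h.cy _ a
  have b1 : f1 qj ∈ N := n _ h.cy _ b
  exact R0_ind a b a1 b1 (n _ h.cy _ a1) (n _ h.cy _ b1)

/-- The case of the Baby Monster. -/
theorem XK.b [IsSimpleGroup K] (h : XK X π s) (c : 64 ∣ Nat.card (centralizer {s}))
    (g : s ∈ K3 s) (s1 : s ≠ 1) : XB X := by
  obtain ⟨d, hd⟩ := isConj_iff.1 h.conj
  refine ⟨h.toXD, h.dk_gen (x := ⟨B8L.r0, h.r0⟩) (Commute.refl _) (hd ▸ dk_K3 d g),
    h.dk_card ▸ Nat.mul_dvd_mul_left 32 c, fun N n r x hx => ?_⟩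
  have nm : (N.subgroupOf X).Normal := ⟨fun a ha b => n _ b.2 _ ha⟩
  have t : (N.subgroupOf X).map π = ⊤ := ((nm.map π h.surj).eq_bot_or_eq_top).resolve_left fun e => by
    have : π ⟨B8L.r0, h.r0⟩ ∈ (N.subgroupOf X).map π := mem_map_of_mem π r
    rw [e, mem_bot, ← hd, conj_eq_one_iff] at this
    exact s1 this
  obtain ⟨y, hy, e⟩ : π ⟨x, hx⟩ ∈ (N.subgroupOf X).map π := t ▸ mem_top _
  have := h.toXD.dk_R0 n r ((h.ker (y⁻¹ * ⟨x, hx⟩)).1 (by rw [map_mul, map_inv, e, inv_mul_cancel]))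
  simpa using mul_mem (show y.1 ∈ N from hy) this

end Cfsg.Agent.B8L
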