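import Mathlib
import Cfsg.Agent.B8L.XD

/-! The centralizer of `r0` acting on the fixed space of `r0`. -/

set_option autoImplicit false
set_option synthInstance.maxSize 4096

namespace Cfsg.Agent.B8L

open Subgroup
open Cfsg.Agent.F22L (F3 W2 o2 SL qi qj Wr map_f3)

variable {X : Subgroup A8}

namespace Dl

/-- The conjugating elements. -/
def yv : Fin 3 → SL := ![qi, qj, qi * qj]

/-- The three other reflections. -/
def rf (i : Fin 3) : A8 := f0 (yv i) * r0 * (f0 (yv i))⁻¹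

/-- The `-1`-eigenspace of `r0`. -/
def nv (u : W2) : V8 := ((0, u), (-u, 0))

theorem io_inj : Function.Injective io := fun v w e => by rw [← po_io v, e, po_io]

theorem io_neg (v : F22L.V) : io (-v) = -io v := by ext <;> simp [io] <;> ring

theorem yv_mem : ∀ i, yv i ∈ SL.Q8 := by decide +kernel

theorem rf_io (i : Fin 3) (v : F22L.V) : rf i (io v) = io (Wr.r i • v) := by
  have e := (by decide +kernel : ∀ i j : Fin 3, ∀ a : W2,
    rf i (io (Pi.single j a)) = io (Wr.r i • Pi.single j a)) i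
  rw [F22L.eq_sum v]
  simp only [io_add, map_add, smul_add, e]

theorem rf_comm : ∀ i, Commute (rf i) r0 := by decide +kernel

theorem rf_ne : ∀ i, rf i ≠ r0 := by decide +kernel

theorem rf_mem (h : XD X) (i : Fin 3) : rf i ∈ X :=
  mul_mem (mul_mem (h.R (f0_mem (yv_mem i))) h.r0) (inv_mem (h.R (f0_mem (yv_mem i))))

theorem q8_r0 : ∀ u ∈ q8, ff (u, u⁻¹, 1) * r0 = r0 ∨ ∃ j, ff (u, u⁻¹, 1) * r0 = rf j := by
  decide +kernel

theorem conj_r0 {y : A8} (hy : y ∈ R0) : y * r0 * y⁻¹ = r0 ∨ ∃ j, y * r0 * y⁻¹ = rf j := by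
  obtain ⟨a, ha, b, hb, c, hc, rfl⟩ := mem_R0.1 hy
  have e : ff (a, b, c) * r0 * (ff (a, b, c))⁻¹ = ff (a * b⁻¹, (a * b⁻¹)⁻¹, 1) * r0 := by
    rw [← mul_inv_eq_iff_eq_mul, mul_assoc, mul_assoc, ← mul_assoc r0, ← map_inv, Prod.inv_mk,
      Prod.inv_mk, r0_ff, ← map_mul]
    simp
  rw [e]
  exact q8_r0 _ ((mem_q8 _).1 (mul_mem ha (inv_mem hb)))

theorem conj_rf (h : XD X) {d : A8} (hd : d ∈ X) (c : Commute d r0) (i : Fin 3) :
    ∃ j, d * rf i * d⁻¹ = rf j := by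
  have e : d * rf i * d⁻¹ = d * f0 (yv i) * d⁻¹ * r0 * (d * f0 (yv i) * d⁻¹)⁻¹ := by
    conv_rhs => rw [← c.mul_inv_cancel]
    rw [rf]; group
  rcases conj_r0 (h.nR d hd _ (f0_mem (yv_mem i))) with k | k
  · refine absurd ?_ (rf_ne i)
    rw [← e, mul_inv_eq_iff_eq_mul, ← c.eq] at k
    exact mul_left_cancel k
  · exact e ▸ k

theorem fix_r0 {d : A8} (c : Commute d r0) (v : F22L.V) : io (po (d (io v))) = d (io v) :=
  io_po (by rw [← mul_ap, ← c.eq, mul_ap, r0_io])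

theorem exists_wr (h : XD X) {d : A8} (hd : d ∈ X) (c : Commute d r0) :
    ∃ x : Wr, ∀ v, io (x • v) = d (io v) := by
  obtain ⟨x, hx⟩ := Wr.exists_of_add (AddMonoidHom.mk' (fun v => po (d (io v))) fun v w => by
    rw [io_add, map_add, po_add]) (fun v w => by
      simp only [AddMonoidHom.mk'_apply]
      rw [← om_io, fix_r0 c, fix_r0 c, h.sp d hd, om_io]) fun i => by
    obtain ⟨j, hj⟩ := conj_rf h hd c i
    refine ⟨j, fun a k hk => ?_⟩
    simp only [AddMonoidHom.mk'_apply]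
    have e1 : Wr.r i • (Pi.single i a : F22L.V) = -Pi.single i a := by
      funext l
      rw [Wr.r_smul]
      split_ifs with e
      · rfl
      · simp [Pi.single_eq_of_ne e]
    have e2 : Wr.r j • po (d (io (Pi.single i a))) = -po (d (io (Pi.single i a))) := by
      apply io_inj
      rw [← rf_io, io_neg, fix_r0 c, ← mul_ap, ← mul_inv_eq_iff_eq_mul.1 hj, mul_ap, rf_io, e1,
        io_neg, map_neg]
    have e3 := congrFun e2 k
    rw [Wr.r_smul, if_neg hk, Pi.neg_apply] at e3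
    exact (by decide : ∀ u : W2, u = -u → u = 0) _ e3
  exact ⟨x, fun v => by rw [← hx]; exact fix_r0 c v⟩

theorem f2_io (c : SL) (v : F22L.V) : f2 c (io v) = io (Wr.bs (fun _ => c) • v) := by
  simp [f2_ap, io, Wr.smul_apply, smul_sub]

theorem R0_fix {y : A8} (hy : y ∈ R0) (h : ∀ v, y (io v) = io v) : y = 1 := by
  obtain ⟨a, ha, b, hb, c, hc, rfl⟩ := mem_R0.1 hy
  exact (by decide +kernel : ∀ a ∈ q8, ∀ b ∈ q8, ∀ c ∈ q8,
    (∀ i : Fin 3, ff (a, b, c) (io (Pi.single i (1, 0))) = io (Pi.single i (1, 0))) →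
      ff (a, b, c) = 1) a ((mem_q8 _).1 ha) b ((mem_q8 _).1 hb) c ((mem_q8 _).1 hc) fun i => h _

theorem nv_add (u w : W2) : nv (u + w) = nv u + nv w := by ext <;> simp [nv] <;> ring

theorem r0_nv (u : W2) : r0 (nv u) = -nv u := by simp [nv, r0_ap]

theorem eq_nv {v : V8} (h : r0 v = -v) : nv v.1.2 = v := by
  have k : ∀ u : W2, u = -u → u = 0 := by decide
  have e1 : v.1.1 = 0 := k _ (congrArg (·.1.1) h)
  have e2 : v.2.2 = 0 := k _ (congrArg (·.2.2) h)
  have e3 : v.2.1 = -v.1.2 := congrArg (·.1.2) h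
  exact Prod.ext (Prod.ext e1.symm rfl) (Prod.ext e3.symm e2.symm)

theorem om_nv (u w : W2) : om (nv u) (nv w) = o2 u w := by
  revert u w; decide +kernel

theorem f2_nv (c : SL) (u : W2) : f2 c (nv u) = nv (c • u) := by simp [f2_ap, nv]

theorem nv_inj : Function.Injective nv := fun _ _ e => congrArg (·.1.2) e

theorem bv_split : ∀ i, ∃ u, r0 (bv i - nv u) = bv i - nv u := by decide +kernel

theorem ker (h : XD X) {d : A8} (hd : d ∈ X) (c : Commute d r0) (k : ∀ v, d (io v) = io v) :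
    d = 1 ∨ d = r0 := by
  have k' : ∀ v, d⁻¹ (io v) = io v := fun v => by
    conv_lhs => rw [← k, ← mul_ap, inv_mul_cancel, one_ap]
  have c2 : ∀ a ∈ SL.Q8, Commute d (f2 a) := fun a ha => by
    have := R0_fix (mul_mem (h.nR d hd _ (f2_mem ha)) (inv_mem (f2_mem ha))) fun v => by
      rw [← map_inv, mul_ap, mul_ap, mul_ap, f2_io, k', f2_io, k, ← mul_smul, ← map_mul]
      rw [show ((fun _ => a) * fun _ => a⁻¹ : Fin 3 → SL) = 1 from funext fun _ => mul_inv_cancel a,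
        map_one, one_smul]
    rwa [mul_inv_eq_one, mul_inv_eq_iff_eq_mul] at this
  have n : ∀ u, nv (d (nv u)).1.2 = d (nv u) := fun u =>
    eq_nv (by rw [← mul_ap, ← c.eq, mul_ap, r0_nv, map_neg])
  obtain ⟨x, hx⟩ := SL.exists_of_add (AddMonoidHom.mk' (fun u => (d (nv u)).1.2) fun u w => by
    rw [nv_add, map_add]; rfl) fun u w => by
      simp only [AddMonoidHom.mk'_apply]
      rw [← om_nv, n, n, h.sp d hd, om_nv]
  have hx' : ∀ u, d (nv u) = nv (x • u) := fun u => by rw [← hx, ← n]; rfl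
  have cx : ∀ a ∈ SL.Q8, x * a = a * x := fun a ha => SL.ext_smul _ _ fun u => nv_inj (by
    rw [mul_smul, mul_smul, ← hx', ← f2_nv, ← f2_nv, ← hx', ← mul_ap, (c2 a ha).eq, mul_ap])
  have e : ∀ i, ∃ p u, bv i = io p + nv u := fun i => by
    obtain ⟨u, hu⟩ := bv_split i
    exact ⟨_, u, by rw [io_po hu]; simp⟩
  refine ((by decide +kernel : ∀ x : SL, x * qi = qi * x → x * qj = qj * x → x = 1 ∨ x = SL.ng) x
    (cx _ qi_mem) (cx _ qj_mem)).imp (fun e1 => ext_bv fun i => ?_) fun e1 => ext_bv fun i => ?_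
  · obtain ⟨p, u, e⟩ := e i
    rw [e, map_add, k, hx', e1, one_smul, one_ap]
  · obtain ⟨p, u, e⟩ := e i
    rw [e, map_add, k, hx', e1, map_add, r0_io, r0_nv, SL.ng_smul]
    congr 1
    ext <;> simp [nv]

variable {δ : ↥(X ⊓ centralizer {r0}) →* Wr}

theorem mem_D {x : A8} (hx : x ∈ X) (c : Commute x r0) : x ∈ X ⊓ centralizer {r0} :=
  ⟨hx, mem_centralizer_singleton_iff.2 c⟩

theorem eq_of (d : DL X δ) {x : ↥(X ⊓ centralizer {r0})} {y : Wr}
    (h : ∀ v, x.1 (io v) = io (y • v)) : δ x = y :=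
  Wr.ext_smul fun v => io_inj (by rw [d.act, h])

theorem card_D (h : XD X) (d : DL X δ) :
    Nat.card ↥(X ⊓ centralizer {r0}) = 2 * Nat.card δ.range := by
  rw [← δ.ker.card_mul_index, index_ker]
  congr 1
  have r1 : (r0 : A8) ≠ 1 := by decide +kernel
  refine Nat.card_eq_two_iff.2 ⟨1, ⟨⟨r0, mem_D h.r0 (.refl _)⟩, (d.ker _).2 (.inr rfl)⟩,
    fun e => r1 (congrArg (·.1.1) e).symm, Set.eq_univ_of_forall fun x => ?_⟩
  exact ((d.ker x.1).1 x.2).imp (fun e => Subtype.ext (Subtype.ext e))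
    fun e => Subtype.ext (Subtype.ext e)

theorem card_Wr : Nat.card Wr = 2 ^ 10 * 3 ^ 4 := by
  rw [Nat.card_congr (⟨fun x => (x.s, x.m), fun p => ⟨p.1, p.2⟩, fun _ => rfl, fun _ => rfl⟩ :
    Wr ≃ Equiv.Perm (Fin 3) × (Fin 3 → SL)), Nat.card_prod, Nat.card_perm, Nat.card_fun, SL.card]
  simp [Nat.factorial]

theorem B8_two : IsPGroup 2 Wr.B8 := fun x => ⟨2, Subtype.ext (Wr.pow_four x.2)⟩

end Dl

open Dl

theorem XD.exists_DL (h : XD X) : ∃ δ, DL X δ := by
  choose δ hδ using fun d : ↥(X ⊓ centralizer {B8L.r0}) =>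
    exists_wr h d.2.1 (mem_centralizer_singleton_iff.1 d.2.2)
  refine ⟨MonoidHom.mk' δ fun a b => Wr.ext_smul fun v => io_inj ?_, hδ, fun d => ⟨fun e => ?_,
    fun e => Wr.ext_smul fun v => io_inj ?_⟩⟩
  · rw [mul_smul, hδ, hδ, hδ]; rfl
  · refine ker h d.2.1 (mem_centralizer_singleton_iff.1 d.2.2) fun v => ?_
    rw [← hδ, show δ d = 1 from e, one_smul]
  · rw [MonoidHom.mk'_apply, hδ, one_smul]
    rcases e with e | e <;> rw [e] <;> rfl

variable {δ : ↥(X ⊓ centralizer {r0}) →* Wr}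

theorem XFi.xd (h : XFi X) (d : DL X δ) : F22L.XD δ.range := by
  refine ⟨fun i => ⟨⟨rf i, mem_D (rf_mem h.toXD i) (rf_comm i)⟩, eq_of d (rf_io i)⟩, ?_,
    fun e he es e3 c => ?_⟩
  · have := Fact.mk Nat.prime_three
    have c1 : Nat.card δ.range = 2 ^ 7 * 3 ^ 2 := by
      have := card_D h.toXD d
      rw [h.card] at this
      omega
    have s : ∀ x, (δ x).s ^ 3 = 1 := fun x => by
      have l : T3 X ≤ (((alternatingGroup (Fin 3)).comap Wr.sh).comap δ).map (Subgroup.subtype _) :=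
        (closure_le _).2 fun y hy => ⟨⟨y, mem_D hy.1 hy.2.2⟩,
          (by decide : ∀ s : Equiv.Perm (Fin 3), s ^ 3 = 1 → Equiv.Perm.sign s = 1) _ (by
            rw [Wr.sh_apply, ← Wr.pow_s, ← map_pow, show (⟨y, mem_D hy.1 hy.2.2⟩ :
              ↥(X ⊓ centralizer {B8L.r0})) ^ 3 = 1 from Subtype.ext hy.2.1, map_one]; rfl), rfl⟩
      obtain ⟨y, hy, e⟩ := l (h.gen x x.2.1 (mem_centralizer_singleton_iff.1 x.2.2))
      obtain rfl : y = x := Subtype.ext e
      exact (by decide : ∀ s : Equiv.Perm (Fin 3), Equiv.Perm.sign s = 1 → s ^ 3 = 1) _ hy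
    have p2 : IsPGroup 2 (Wr.B8.subgroupOf δ.range) := B8_two.comap_subtype
    have p3 : IsPGroup 3 (δ.range ⧸ Wr.B8.subgroupOf δ.range) := fun q => by
      obtain ⟨⟨_, x, rfl⟩, rfl⟩ := QuotientGroup.mk_surjective q
      refine ⟨2, ?_⟩
      rw [← QuotientGroup.mk_pow, QuotientGroup.eq_one_iff]
      have e : (δ x ^ 3).s = 1 := by rw [Wr.pow_s, s]
      change δ x ^ (3 * 3) ∈ Wr.B8
      rw [pow_mul]
      refine ⟨by rw [Wr.pow_s, e, one_pow], fun i => ?_⟩
      rw [Wr.pow_m e]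
      exact (by decide +kernel : ∀ a : SL, a ^ 3 ∈ SL.Q8) _
    obtain ⟨a, ha⟩ := IsPGroup.iff_card.1 p2
    obtain ⟨b, hb⟩ := IsPGroup.iff_card.1 p3
    have e := card_eq_card_quotient_mul_card_subgroup (Wr.B8.subgroupOf δ.range)
    rw [c1, ha, hb] at e
    have a7 : a = 7 := by
      have c : ∀ m n, Nat.Coprime (2 ^ m) (3 ^ n) := fun m n => Nat.Coprime.pow _ _ (by norm_num)
      exact le_antisymm ((Nat.pow_dvd_pow_iff_le_right one_lt_two).1
        ((c a 2).dvd_of_dvd_mul_right (e ▸ dvd_mul_left _ _)))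
          ((Nat.pow_dvd_pow_iff_le_right one_lt_two).1
            ((c 7 b).dvd_of_dvd_mul_left (e ▸ dvd_mul_right _ _)))
    rw [← Nat.card_congr (subgroupOfEquivOfLe (inf_le_left : δ.range ⊓ Wr.B8 ≤ δ.range)).toEquiv,
      inf_subgroupOf_left, ha, a7]
    rfl
  · have k : ∀ a ∈ SL.Q8, ∀ i, e.m i * a = a * e.m i := fun a ha i => by
      have := c (Wr.bs fun _ => a) ⟨⟨f2 a, mem_D (h.R (f2_mem ha))
        (mul_inv_eq_iff_eq_mul.1 (r0_f2 a)).symm⟩, eq_of d (f2_io a)⟩ ⟨rfl, fun _ => ha⟩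
      simpa using congrArg (fun x => x.m i) this.eq
    by_contra e1
    obtain ⟨i, hi⟩ := F22L.exists_m_ne es e1
    exact hi ((by decide +kernel : ∀ x : SL, x * qi = qi * x → x * qj = qj * x → x ^ 3 = 1 → x = 1) _
      (k _ qi_mem i) (k _ qj_mem i) (F22L.m_cube e3 es i))

theorem XB.b8 (h : XB X) (d : DL X δ) : Wr.B8 ≤ δ.range := by
  have c1 : 2 ^ 10 ∣ Nat.card δ.range := by
    have := h.card
    rw [card_D h.toXD d] at this
    exact Nat.dvd_of_mul_dvd_mul_left two_pos this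
  obtain ⟨P, hP⟩ := Sylow.exists_subgroup_card_pow_prime 2 c1
  have c2 : Nat.card (P.map δ.range.subtype) = 2 ^ (Nat.card Wr).factorization 2 := by
    rw [card_map_of_injective (subtype_injective _), hP, card_Wr]
    congr 1
    rw [Nat.factorization_mul (by norm_num) (by norm_num), Nat.prime_two.factorization_pow,
      Nat.prime_three.factorization_pow]
    simp
  exact (B8_two.le_sylow_of_normal (Sylow.ofCard _ c2)).trans (map_subtype_le P)

end Cfsg.Agent.B8L
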