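import Mathlib
import Cfsg.Agent.B8L.XD

/-! Involutions acting as reflections on `J`. -/

set_option autoImplicit false
set_option synthInstance.maxSize 4096
set_option synthInstance.maxHeartbeats 400000

namespace Cfsg.Agent.B8L

open Subgroup
open Cfsg.Agent.F22L (F3 W2 o2 SL qi qj Wr map_f3)

namespace NJ

/-- The action on `J`. -/
def Act (g : A8) (f : C3 → C3) : Prop := ∀ c, g * jv c * g⁻¹ = jv (f c)

variable {X : Subgroup A8} {g k s : A8} {f f' : C3 → C3}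

theorem Act.mul (a : Act g f) (b : Act k f') : Act (g * k) fun c => f (f' c) := fun c => by
  rw [← a, ← b]; group

theorem Act.inv (a : Act g f) (e : ∀ c, f (f' c) = c) : Act g⁻¹ f' := fun c => by
  conv_lhs => rw [← e c, ← a]
  group

theorem Act.cong (a : Act g f) (e : ∀ c, f c = f' c) : Act g f' := fun c => e c ▸ a c

theorem Act.comm (a : Act g fun c => c) (c : C3) : Commute g (jv c) :=
  mul_inv_eq_iff_eq_mul.1 (a c)

theorem inv_fix {v : V8} (h : g v = v) : g⁻¹ v = v := by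
  conv_lhs => rw [← h]
  rw [← mul_ap, inv_mul_cancel]; rfl

theorem act_r0 : Act r0 fun c => (c.2.1, c.1, c.2.2) := r0_jv

theorem act_cy : Act cy fun c => (c.2.2, c.1, c.2.1) := cy_jv

theorem act_rot (k : F3) : Act (cy ^ k.val) (rot k) := fun c => by
  rw [cy_rot, mul_inv_cancel_right]

theorem norm_mul (h : XD X) (hs : s ∈ X) (n : ∀ r ∈ R0, g * r * g⁻¹ ∈ R0) :
    ∀ r ∈ R0, s * g * r * (s * g)⁻¹ ∈ R0 := fun r hr => by
  convert h.nR s hs _ (n r hr) using 1; group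

theorem case1 (h : XD X) (hs : s ∈ X) (a : Act s fun c => (-c.1, c.2.1, c.2.2)) : False := by
  obtain ⟨c, e⟩ := cent_J (norm_mul h hs fun _ => d0_R0)
    (Act.comm ((a.mul (k := d0) d0_jv).cong fun c => by simp))
  have p : Sp (s * d0) := by
    rcases e with e | e <;> rw [e]
    exacts [sp_jv c, (sp_f0 _).mul (sp_jv c)]
  have q := ((h.sp s hs).inv.mul p) (bv 0) (bv 7)
  rw [inv_mul_cancel_left] at q
  exact absurd q (by decide +kernel)

theorem case2 (h : XD X) (hs : s ∈ X) (s2 : s * s = 1) (st : s (bv 0) = bv 0)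
    (a : Act s fun c => (c.2.1, c.1, c.2.2)) : ∃ x ∈ X, x * s * x⁻¹ = r0 := by
  obtain ⟨c, e⟩ := cent_J (norm_mul h hs fun _ => r0_R0) (Act.comm ((a.mul act_r0).cong fun _ => rfl))
  have t : (s * r0) (bv 0) = bv 0 := by rw [mul_ap, show r0 (bv 0) = bv 0 from rfl, st]
  rcases e with e | e
  · have e' : s = jv c * r0 := by rw [← e, mul_assoc, r0_sq, mul_one]
    have z : c + (c.2.1, c.1, c.2.2) = 0 := jv_one _ (by
      rw [jv_add, ← r0_jv, ← s2, e', r0_inv]; group)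
    obtain ⟨d, hd⟩ := (by decide +kernel : ∀ c : C3, c + (c.2.1, c.1, c.2.2) = 0 →
      ∃ d : C3, d + c + ((-d).2.1, (-d).1, (-d).2.2) = 0) c z
    refine ⟨jv d, h.jv d, ?_⟩
    have := congrArg jv hd
    rw [jv_add, jv_add, ← r0_jv, jv_neg, jv_zero, ← mul_assoc, ← mul_assoc, mul_inv_eq_one] at this
    rw [e', ← mul_assoc, this]
  · rw [e, mul_ap, jv_top] at t
    exact absurd t (by decide +kernel)

theorem of_conj {x : A8} (hx : x ∈ X) (e : ∃ y ∈ X, y * (x⁻¹ * s * x) * y⁻¹ = r0) :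
    ∃ y ∈ X, y * s * y⁻¹ = r0 := by
  obtain ⟨y, hy, e⟩ := e
  exact ⟨y * x⁻¹, mul_mem hy (inv_mem hx), by rw [← e]; group⟩

theorem sq_conj (s2 : s * s = 1) (x : A8) : x⁻¹ * s * x * (x⁻¹ * s * x) = 1 := by
  rw [show x⁻¹ * s * x * (x⁻¹ * s * x) = x⁻¹ * (s * s) * x by group, s2]; simp

theorem fix_conj {x : A8} {v : V8} (st : s v = v) (e : x v = v) : (x⁻¹ * s * x) v = v := by
  rw [mul_ap, mul_ap, e, st, inv_fix e]

theorem case3 (h : XD X) (hs : s ∈ X) (s2 : s * s = 1) (st : s (bv 0) = bv 0)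
    (a : Act s fun c => (-c.2.1, -c.1, c.2.2)) : ∃ x ∈ X, x * s * x⁻¹ = r0 := by
  have d : Act (cy * (s * r0) * cy⁻¹) fun c => (c.1, -c.2.1, -c.2.2) :=
    ((act_cy.mul (a.mul act_r0)).mul (act_cy.inv (f' := fun c => (c.2.1, c.2.2, c.1))
      fun _ => rfl)).cong fun _ => rfl
  have m : cy * (s * r0) * cy⁻¹ ∈ X := mul_mem (mul_mem h.cy (mul_mem hs h.r0)) (inv_mem h.cy)
  refine of_conj m (case2 h (mul_mem (mul_mem (inv_mem m) hs) m) (sq_conj s2 _) (fix_conj st ?_)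
    ((((d.inv (f' := fun c => (c.1, -c.2.1, -c.2.2)) fun c => by simp).mul a).mul d).cong
      fun c => by simp))
  rw [mul_ap, mul_ap, mul_ap, show cy⁻¹ (bv 0) = bv 0 from rfl, show r0 (bv 0) = bv 0 from rfl, st]
  rfl

/-- quadratic elements -/
def Qd (c : C3) : Prop := c ≠ 0 ∧ ∀ v, jv c (jv c v) + jv c v + v = 0

theorem Qd.act {c : C3} (q : Qd c) (a : Act g f) : Qd (f c) := by
  refine ⟨fun e => q.1 (jv_one _ ?_), fun v => ?_⟩
  · simpa [e, jv_zero] using a c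
  · have := congrArg g (q.2 (g⁻¹ v))
    rw [map_add, map_add, map_zero, ← mul_ap g g⁻¹, mul_inv_cancel, one_ap] at this
    rw [← a, ← this, ← mul_ap (g * jv c * g⁻¹), conj_mul]
    rfl

/-- the unit vectors and their negatives -/
def un : List C3 := [(1, 0, 0), (0, 1, 0), (0, 0, 1), (2, 0, 0), (0, 2, 0), (0, 0, 2)]

theorem qd_iff {c : C3} : Qd c ↔ c ∈ un := by
  refine ⟨fun q => (by decide +kernel : ∀ c : C3, c ≠ 0 →
    jv c (jv c (bv 7)) + jv c (bv 7) + bv 7 = 0 → c ∈ un) c q.1 (q.2 _), fun m => ?_⟩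
  obtain ⟨n, e⟩ := (by decide +kernel : ∀ c ∈ un, c ≠ 0 ∧
    ∀ i, jv c (jv c (bv i)) + jv c (bv i) + bv i = 0) c m
  refine ⟨n, fun v => ?_⟩
  exact LinearMap.congr_fun (lin_ext (x := (jv c * jv c).toLinearMap + (jv c).toLinearMap +
    LinearMap.id) (y := 0) e) v

def mu (a i x : C3) : C3 := x + (x.1 * i.1 + x.2.1 * i.2.1 + x.2.2 * i.2.2) • a

theorem key : ∀ a i : C3, a ≠ 0 → mu a i a = -a → mu a i (1, 0, 0) ∈ un → mu a i (0, 1, 0) ∈ un →
    mu a i (0, 0, 1) ∈ un → ∃ k : F3,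
      (∀ c, rot (-k) (mu a i (rot k c)) = (-c.1, c.2.1, c.2.2)) ∨
      (∀ c, rot (-k) (mu a i (rot k c)) = (c.2.1, c.1, c.2.2)) ∨
      ∀ c, rot (-k) (mu a i (rot k c)) = (-c.2.1, -c.1, c.2.2) := by decide +kernel

theorem jv_smul (k : F3) (c : C3) : jv (k • c) = jv c ^ k.val := by
  rcases f3_cases k with rfl | rfl | rfl
  · simp [jv_zero]
  · simp [ZMod.val_one]
  · rw [two_smul, jv_add, show (2 : F3).val = 2 from rfl, pow_two]

end NJ

open NJ in
/-- Proof. `s * jv c * s⁻¹ = jv (μ c)` with `μ` additive (`jv_inj`, `jv_add`), `μ ∘ μ = id`.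
`g = jv (μ e)`, `e` a unit vector of `C3`, is conjugate to `jv e`, so `g ≠ 1`,
`∀ v, g (g v - v) = g v - v`; by `decide +kernel` (on `bv i`) `μ e` is `±` a unit vector. With
`m₁ m₂ m₃` the three images, `μ c = c.1 • m₁ + c.2.1 • m₂ + c.2.2 • m₃`; `decide` over the
`6³` triples: from `μ a = -a`, `μ b = b`, `μ c = c` (`a, b, c` spanning; equivalently
`μ² = 1`, `μ ≠ 1` and `(μ - 1)(C3)` has order 3) there is `k` such that `s' = cy^k s cy^(-k)`
(`cy_rot`; `cy (bv 0) = bv 0`) acts as one of `c ↦ (-c₁, c₂, c₃)`, `(c₂, c₁, c₃)`,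
`(-c₂, -c₁, c₃)`.
First case: `s' * d0` normalizes `R0` (`d0_R0`, `nR`) and centralizes `J` (`d0_jv`), so is
`± jv c` (`cent_J`) and preserves `om`, as does `s'`; but `om_d0`, `om (bv 0) (bv 7) ≠ 0`.
Second case: `s' * r0 = ± jv c` (`cent_J`, `r0_jv`), sign `+` as `bv 0` is fixed (`jv_top`);
`s'² = 1` gives `c + (c₂,c₁,c₃) = 0`, so `c = (a,-a,0)` and `s' = jv (a,0,0) r0 jv (a,0,0)⁻¹`.
Third case: `d = s' * r0` acts as `(-c₁,-c₂,c₃)`, `d' = cy d cy⁻¹ ∈ X` as `(c₁,-c₂,-c₃)`, fixes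
`bv 0`, and `d'⁻¹ s' d'` is in the second case. -/
theorem XD.refl_conj {X : Subgroup A8} (h : XD X) {s : A8} (hs : s ∈ X) (s2 : s * s = 1)
    (st : s (bv 0) = bv 0) {a b c : C3} (sp : ∀ x : C3, ∃ i j k : F3, x = i • a + j • b + k • c)
    (ha : s * B8L.jv a * s⁻¹ = (B8L.jv a)⁻¹) (hb : Commute s (B8L.jv b))
    (hc : Commute s (B8L.jv c)) : ∃ x ∈ X, x * s * x⁻¹ = B8L.r0 := by
  have a0 : a ≠ 0 := fun e => by
    have := Fintype.card_le_of_surjective (fun p : F3 × F3 => p.1 • b + p.2 • c) fun x => by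
      obtain ⟨i, j, k, e'⟩ := sp x
      exact ⟨(j, k), by simp [e', e]⟩
    exact absurd this (by decide)
  have cs : ∀ (k : F3) {x y}, s * B8L.jv x * s⁻¹ = B8L.jv y →
      s * B8L.jv (k • x) * s⁻¹ = B8L.jv (k • y) := fun k x y e => by
    rw [jv_smul, jv_smul, ← conj_pow, e]
  have ca : ∀ {x y x' y'}, s * B8L.jv x * s⁻¹ = B8L.jv y → s * B8L.jv x' * s⁻¹ = B8L.jv y' →
      s * B8L.jv (x + x') * s⁻¹ = B8L.jv (y + y') := fun e e' => by
    rw [jv_add, jv_add, ← conj_mul, e, e']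
  have k1 : ∀ x, ∃ i : F3, s * B8L.jv x * s⁻¹ = B8L.jv (x + i • a) := fun x => by
    obtain ⟨i, j, k, rfl⟩ := sp x
    refine ⟨i, (ca (ca (cs i (ha.trans (jv_neg a).symm)) (cs j (mul_inv_eq_iff_eq_mul.2 hb.eq)))
      (cs k (mul_inv_eq_iff_eq_mul.2 hc.eq))).trans (congrArg _ ?_)⟩
    have : -a = a + a := (by decide +kernel : ∀ a : C3, -a = a + a) a
    rw [this]; module
  obtain ⟨i, hi⟩ := k1 (1, 0, 0)
  obtain ⟨j, hj⟩ := k1 (0, 1, 0)
  obtain ⟨k, hk⟩ := k1 (0, 0, 1)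
  have A : Act s (NJ.mu a (i, j, k)) := fun x => by
    have := ca (ca (cs x.1 hi) (cs x.2.1 hj)) (cs x.2.2 hk)
    have e : x.1 • ((1, 0, 0) : C3) + x.2.1 • ((0, 1, 0) : C3) + x.2.2 • ((0, 0, 1) : C3) = x := by
      simp
    rw [e] at this
    refine this.trans (congrArg _ ?_)
    ext <;> simp [NJ.mu] <;> ring
  have q : ∀ {c}, c ∈ un → NJ.mu a (i, j, k) c ∈ un := fun m => qd_iff.1 ((qd_iff.2 m).act A)
  obtain ⟨t, e⟩ := key a (i, j, k) a0 (jv_inj (by rw [← A, ha, jv_neg])) (q (by decide))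
    (q (by decide)) (q (by decide))
  have m : B8L.cy ^ t.val ∈ X := pow_mem h.cy _
  have B := (((act_rot t).inv (f' := rot (-t))
    ((by decide +kernel : ∀ t c, rot t (rot (-t) c) = c) t)).mul A).mul (act_rot t)
  have m' := mul_mem (mul_mem (inv_mem m) hs) m
  have f := fix_conj (x := B8L.cy ^ t.val) st
    ((by decide +kernel : ∀ t : F3, (B8L.cy ^ t.val) (bv 0) = bv 0) t)
  rcases e with e | e | e
  · exact (case1 h m' (B.cong e)).elim
  · exact of_conj m (case2 h m' (sq_conj s2 _) f (B.cong e))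
  · exact of_conj m (case3 h m' (sq_conj s2 _) f (B.cong e))

end Cfsg.Agent.B8L
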