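import Mathlib
import Cfsg.Agent.B8L.NJ

/-! Fusion of the centre of `Q` inside the centralizer of an involution. -/

set_option autoImplicit false
set_option linter.unusedSectionVars false

namespace Cfsg.Agent.B8L

open Subgroup
open Cfsg.Agent.F22L (F3 W2 o2 SL qi qj Wr map_f3)

variable {G : Type*} [Group G] [Finite G] {z : G} {ψ : Hs →* G} {ρ : G → A8} {l : G → V8 →+ F3}
  {X : Subgroup A8}

def fe (x : C3) : V8 := ((0, (0, x.1 + x.2.1)), ((0, x.2.1 - x.1), (x.2.2, 0)))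

theorem fe_add (x y : C3) : (⟨fe (x + y), 0⟩ : Hs) = ⟨fe x, 0⟩ * ⟨fe y, 0⟩ :=
  Hs.ext (by ext <;> simp [fe] <;> ring) (by simp [fe, om, o2])

theorem fe_r0 (x : C3) : r0 (fe x) = fe (-x.1, x.2) := by ext <;> simp [fe, r0_ap] <;> ring

theorem fe_ker (x : C3) (h : ∀ d, ∃ t : F3, jv d (fe x) + -fe x = t • bv 0) : x = 0 :=
  (by decide +kernel : ∀ x : C3, (∃ t : F3, jv (1, 0, 0) (fe x) + -fe x = t • bv 0) →
    (∃ t : F3, jv (0, 1, 0) (fe x) + -fe x = t • bv 0) → x = 0) x (h _) (h _)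

theorem comm_of {H : Type*} [Group H] {x y : H} (h : y * x * y⁻¹ = x) : Commute y x :=
  mul_inv_eq_iff_eq_mul.1 h

namespace HS

variable (h : HS z ψ ρ l X)
include h

theorem fus_zp {a : G} (a3 : a ∈ zpowers z) : a = 1 ∨ a = z ∨ a = z⁻¹ := by
  obtain ⟨k, rfl⟩ := h.of_zp a3
  rw [← h.zz, ← map_inv, ← map_one ψ]
  rcases f3_cases k with rfl | rfl | rfl
  exacts [.inl rfl, .inr (.inl rfl), .inr (.inr (congrArg ψ (Hs.ext (by simp) rfl)))]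

theorem fus_comm {a b : G} (ha : a ∈ ψ.range) (hb : b ∈ ψ.range) : a * b * a⁻¹ * b⁻¹ ∈ zpowers z := by
  obtain ⟨a, rfl⟩ := ha
  obtain ⟨b, rfl⟩ := hb
  rw [← map_inv, ← map_inv, ← map_mul, ← map_mul, ← map_mul, Hs.comm, h.mem_zp]

theorem fus_U (x : Hs) : 3 ^ 8 ≤ Nat.card ↥(ψ.range ⊓ centralizer {ψ x}) := by
  let f : V8 →+ F3 := AddMonoidHom.mk' (om · x.v) fun a b => om_add_left a b _
  have e := f.ker.card_mul_index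
  have i : f.ker.index ≤ 3 := by
    rw [AddSubgroup.index_ker]; exact (AddSubgroup.card_le_card_addGroup _).trans (Nat.card_zmod 3).le
  refine le_trans ?_ (card_le_of_le (show (pre f.ker).map ψ ≤ _ by
    rintro _ ⟨a, ha, rfl⟩
    exact ⟨⟨a, rfl⟩, mem_centralizer_singleton_iff.2 ((Hs.commute_iff.2 ha).map ψ)⟩))
  rw [h.card_map, card_pre, ← card_V8, ← e, mul_comm]
  exact Nat.mul_le_mul_right _ i

section
variable {y : G} {ψ' : Hs →* G} {ρ' : G → A8} {l' : G → V8 →+ F3} (h' : HS y ψ' ρ' l' X) (xd : XD X)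
  (m : y ∈ ψ.range) (n : y ∉ zpowers z)
include h' xd m

theorem fus_3 : ∀ a ∈ (h'.ρs (ψ.range ⊓ centralizer {y}) fun _ ha =>
    mem_centralizer_singleton_iff.1 ha.2).range, a ^ 3 = 1 := by
  rintro _ ⟨a, rfl⟩
  rw [← map_pow, show a ^ 3 = 1 from Subtype.ext (ψ3 a.2.1), map_one]

include n

theorem fus_z : z ∈ ψ'.range := by
  by_contra c
  have e := h'.card_eq (ψ.range ⊓ centralizer {y}) fun _ ha => mem_centralizer_singleton_iff.1 ha.2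
  have e1 := xd.le27 (h'.range_le _ _) (h.fus_3 h' xd m)
  obtain ⟨x, rfl⟩ := m
  have e2 := h.fus_U x
  obtain ⟨w, hw⟩ := exists_om (mt h.mem_zp.2 n)
  have e3 := card_le_of_le (show ψ.range ⊓ centralizer {ψ x} ⊓ ψ'.range ≤
      (pre (AddSubgroup.zmultiples x.v)).map ψ by
    rintro _ ⟨⟨⟨a, rfl⟩, -⟩, ha⟩
    refine mem_map_of_mem _ ⟨(om a.v w).val, (sub_eq_zero.1 (om_nondeg fun v => ?_)).symm⟩
    have k : om (v - om x.v v • w) x.v = 0 := by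
      rw [om_swap, om_sub_right, om_smul_right, hw, mul_one, sub_self, neg_zero]
    have k1 := h.fus_comm ⟨⟨v - om x.v v • w, 0⟩, rfl⟩ ⟨a, rfl⟩
    have k2 := mul_mem (h'.conj_mem ((Hs.commute_iff (x := ⟨_, 0⟩).2 k).map ψ) ha) (inv_mem ha)
    have k3 : Commute (⟨v - om x.v v • w, 0⟩ : Hs) a := .of_map h.inj (by
      rcases h.fus_zp k1 with k | k | k
      · exact mul_inv_eq_iff_eq_mul.1 (mul_inv_eq_one.1 k)
      · exact absurd (k ▸ k2) c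
      · exact absurd (inv_mem_iff.1 (k ▸ k2)) c)
    have k4 := Hs.commute_iff.1 k3.symm
    rw [om_sub_right, om_smul_right] at k4
    beta_reduce
    rw [natCast_zsmul, ← Nat.cast_smul_eq_nsmul F3, ZMod.natCast_zmod_val, om_sub_left, om_smul_left, mul_comm,
      k4])
  rw [h.card_map, card_pre, Nat.card_zmultiples] at e3
  have e4 : addOrderOf x.v ≤ 3 := addOrderOf_le_of_nsmul_eq_zero (by decide) (by
    rw [← Nat.cast_smul_eq_nsmul F3]; exact zero_smul F3 _)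
  have := Nat.mul_le_mul e3 e1
  omega

theorem fus_J : ∃ x ∈ X, ∀ a, (∃ w ∈ ψ.range ⊓ centralizer {y}, ρ' w = a) ↔ x * a * x⁻¹ ∈ J := by
  have cy : ∀ a ∈ ψ.range ⊓ centralizer {y}, Commute a y := fun _ ha => mem_centralizer_singleton_iff.1 ha.2
  have e := h'.card_eq _ cy
  have e1 := h.card_comm (ψ.range ⊓ centralizer {y} ⊓ ψ'.range) (inf_le_left.trans inf_le_left)
    fun a ha b hb => by
      have k := h.fus_comm ha.1.1 hb.1.1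
      rcases h'.fus_zp (h'.fus_comm ha.2 hb.2) with c | c | c
      · exact mul_inv_eq_iff_eq_mul.1 (mul_inv_eq_one.1 c)
      · exact absurd (c ▸ k) n
      · exact absurd (inv_mem_iff.1 (c ▸ k)) n
  obtain ⟨x, hx, k⟩ := xd.eq_J (h'.range_le _ _) (h.fus_3 h' xd m) (by
    rintro _ ⟨a, rfl⟩ _ ⟨b, rfl⟩
    refine mul_inv_eq_iff_eq_mul.1 (mul_inv_eq_one.1 ?_)
    rw [← map_inv, ← map_inv, ← map_mul, ← map_mul, ← map_mul]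
    exact (h'.ρ_eq_one (cy _ (Subtype.property _))).2
      (zpowers_le_of_mem (h.fus_z h' xd m n) (h.fus_comm a.2.1 b.2.1))) (by
    obtain ⟨x, rfl⟩ := m
    have e2 := h.fus_U x
    by_contra c
    have := Nat.mul_le_mul e1 (Nat.le_of_lt_succ (not_le.1 c))
    omega)
  exact ⟨x, hx, fun a => h'.mem_range.symm.trans (k a)⟩

end

omit [Finite G] h in
/-- the image of `C_Q(z^g)` in `C(z^g)/Q^g` is `J` -/
def FN (z : G) (ψ : Hs →* G) (ρ : G → A8) (g : G) : Prop :=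
  ∀ a, (∃ w ∈ ψ.range, Commute w (g * z * g⁻¹) ∧ ρ (g⁻¹ * w * g) = a) ↔ a ∈ J

theorem fus_l {g m : G} (c : Commute m z) (a : FN z ψ ρ g) : FN z ψ ρ (m * g) := fun x => by
  rw [← a]
  refine ⟨fun ⟨w, a, b, e⟩ => ⟨_, h.conj_mem c.inv_left a, ?_, by simpa [mul_assoc] using e⟩,
    fun ⟨w, a, b, e⟩ => ⟨_, h.conj_mem c a, ?_, by simpa [mul_assoc] using e⟩⟩
  · simpa [mul_assoc] using b.map (MulAut.conj m⁻¹)
  · simpa [mul_assoc] using b.map (MulAut.conj m)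

theorem fus_r (xd : XD X) {g : G} (m : g * z * g⁻¹ ∈ ψ.range) (n : g * z * g⁻¹ ∉ zpowers z) :
    ∃ k, Commute k z ∧ FN z ψ ρ (g * k) := by
  obtain ⟨x, hx, e⟩ := h.fus_J (h.cj g) xd m n
  obtain ⟨k, hk, rfl⟩ := (h.memX x).1 hx
  refine ⟨k⁻¹, hk.inv_left, fun a => ?_⟩
  rw [show a = ρ k * ((ρ k)⁻¹ * a * ρ k) * (ρ k)⁻¹ by group, ← e,
    show g * k⁻¹ * z * (g * k⁻¹)⁻¹ = g * z * g⁻¹ by rw [mul_assoc g, hk.inv_left.eq]; group]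
  refine exists_congr fun w => ⟨fun ⟨a, b, c⟩ => ⟨⟨a, mem_centralizer_singleton_iff.2 b⟩, ?_⟩,
    fun ⟨⟨a, b⟩, c⟩ => ⟨a, mem_centralizer_singleton_iff.1 b, ?_⟩⟩ <;>
  have d : Commute (g⁻¹ * w * g) z := by
    simpa [mul_assoc] using (show Commute w (g * z * g⁻¹) by
      first | exact b | exact mem_centralizer_singleton_iff.1 b).map (MulAut.conj g⁻¹)
  all_goals
    have f : ρ ((g * k⁻¹)⁻¹ * w * (g * k⁻¹)) = ρ k * ρ (g⁻¹ * w * g) * (ρ k)⁻¹ := by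
      rw [← h.ρ_inv hk, ← h.ρ_mul hk d, ← h.ρ_mul (hk.mul_left d) hk.inv_left]; simp [mul_assoc]
  · rwa [f, mul_left_inj, mul_right_inj] at c
  · rw [f, ← c]

theorem fus_w {g : G} (a : FN z ψ ρ g⁻¹) (d : C3) : ∃ w, g⁻¹ * w * g ∈ ψ.range ∧ Commute w z ∧
    Commute w (g * z * g⁻¹) ∧ ρ w = jv d := by
  obtain ⟨_, ⟨w, rfl⟩, b, c⟩ := (a _).2 ⟨d, rfl⟩
  exact ⟨g * ψ w * g⁻¹, ⟨w, by simp [mul_assoc]⟩, by simpa [mul_assoc] using b.map (MulAut.conj g),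
    (h.cψ w).map (MulAut.conj g), by simpa using c⟩

theorem fus_k {g : G} (m : g * z * g⁻¹ ∈ ψ.range) (n : g * z * g⁻¹ ∉ zpowers z) (a : FN z ψ ρ g⁻¹) :
    ∃ k c : F3, k ≠ 0 ∧ g * z * g⁻¹ = ψ ⟨k • bv 0, c⟩ := by
  obtain ⟨x, e⟩ := m
  have : x.v = x.v.1.1.1 • bv 0 := fix_J fun d => by
    obtain ⟨w, -, b, c, f⟩ := h.fus_w a d
    exact f ▸ ((h.commute_iff b).1 (e ▸ c)).1
  exact ⟨x.v.1.1.1, x.c, fun k => n (e ▸ h.mem_zp.2 (by rw [this, k, zero_smul])), by rw [← this, e]⟩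

end HS

/-- Proof. `y = g z g⁻¹ = ψ⟨u,c⟩`, `u ≠ 0`; `h' = h.cj g` (`Q'`, `ρ'`). `U := Q ⊓ C(y)` is
`pre {v | om v u = 0}` of order `3⁸`, with centre `⟨z,y⟩` of order 9 (`om v · = 0` on `u^⊥`
implies `v ∈ F3 • u`). `A := U ⊓ Q'`; `|U| = |A| |ρ'(U)|` (`h'.card_eq`), `|ρ'(U)| ≤ 27`
(`XD.le27`), so `|A| ≥ 243`.
1. `z ∈ Q'`: otherwise `[A,U] ≤ Q' ∩ ⟨z⟩ = 1` and `A ≤ Z(U)`. So the situation is symmetric.
2. `[A,A] ≤ ⟨z⟩ ∩ ⟨y⟩ = 1`, so `|A| ≤ 243` (`card_comm`), `|ρ'(U)| ≥ 27`; `ρ'(U)` is abelian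
(`[U,U] ≤ ⟨z⟩ ≤ Q'`), so `x ρ'(U) x⁻¹ = J` for some `x ∈ X` (`XD.eq_J`). Likewise for
`U' = Q' ⊓ C(z)` and `ρ`. State 1, 2 for two structures `h h'` with the same `X`.
3. Normalize: replacing `g` by `m g` with `m ∈ C(z)`, `ρ m = x`, we get `ρ(U') = J`; replacing
`g` by `g m'`, `m' ∈ C(z)` (this keeps `y`, `Q'`) we get `ρ'(U) = J`. `U'` centralizes `y`,
so `u = k • bv 0` (`fix_J`, `commute_iff`), `k ≠ 0`; likewise `z = ψ'⟨k' • bv 0, c'⟩`.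
4. For `ψ⟨v,e⟩ ∈ A` and `w ∈ U'`: `[w, ψ⟨v,e⟩] ∈ ⟨y⟩` (both in `Q'`), so
`jv d v - v ∈ F3 • bv 0` for all `d`; in coordinates (`jv_ap`, `w0_ap`, ...)
`v.1.2.2 = v.2.1.2 = v.2.2.1 = v.2.2.2 = 0`. So the kernel of `ρ'` on `U = {v.2.2.2 = 0}` lies in
that subspace (that is all one needs): the images `jv a, jv b, jv c` of `ψ⟨bv 3 - bv 5, 0⟩`,
`ψ⟨bv 3 + bv 5, 0⟩`, `ψ⟨bv 6, 0⟩` are independent, so `a b c` span `C3` (an injective additive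
map `C3 → C3` is onto).
5. `r` acts by `r ψ⟨v,e⟩ r⁻¹ = ψ⟨r0 v, e⟩` (`act0`), so `r` centralizes `y`, `s := ρ' r ∈ X`,
`s² = 1`, `s` fixes `bv 0` (`r` centralizes `z`), inverts `jv a`, centralizes `jv b`, `jv c`.
`XD.refl_conj`: `x s x⁻¹ = r0`; lift `x` to `m ∈ C(y)`. Then `r₁ = m r m⁻¹` and
`r' = g r g⁻¹` are involutions with `ρ' r₁ = r0 = ρ' r'`, so `τ = r₁ r' ∈ Q'` has `τ³ = 1`, and
`τ r₁ τ⁻¹ = r'` or `τ⁻¹ r₁ τ = r'`. With `m₁ = τ^{±1} m ∈ C(y)`: `m₁⁻¹ g` centralizes `r` and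
conjugates `z` to `y`. -/
theorem HS.fus' (h : HS z ψ ρ l X) (xd : XD X) {g : G} (m : g * z * g⁻¹ ∈ ψ.range)
    (n : g * z * g⁻¹ ∉ zpowers z) {r : G} (hr : r ∈ h.H0) (ρr : ρ r = r0) (r2 : r * r = 1) :
    ∃ g : G, Commute g r ∧ (∃ k c : F3, k ≠ 0 ∧ g * z * g⁻¹ = ψ ⟨k • bv 0, c⟩) ∧
      ∃ x, g⁻¹ * z * g = ψ x := by
  have inv : ∀ {g}, g * z * g⁻¹ ∈ ψ.range → g * z * g⁻¹ ∉ zpowers z →
      g⁻¹ * z * g⁻¹⁻¹ ∈ ψ.range ∧ g⁻¹ * z * g⁻¹⁻¹ ∉ zpowers z := fun {g} m n => by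
    obtain ⟨x, e⟩ := h.fus_z (h.cj g) xd m n
    refine ⟨⟨x, by simp [← e, mul_assoc]⟩, fun c => ?_⟩
    rcases h.fus_zp c with c | c | c
    · exact h.z1 (conj_eq_one_iff.1 c)
    · exact n (by rw [← (by simpa [mul_assoc] using congrArg (g * · * g⁻¹) c : z = g * z * g⁻¹)]; simp)
    · exact n (inv_mem_iff.1 (by
        rw [← (by simpa [mul_assoc] using congrArg (g * · * g⁻¹) c : z = (g * z * g⁻¹)⁻¹)]; simp))
  obtain ⟨g, m, n, a, a'⟩ : ∃ g, g * z * g⁻¹ ∈ ψ.range ∧ g * z * g⁻¹ ∉ zpowers z ∧ HS.FN z ψ ρ g ∧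
      HS.FN z ψ ρ g⁻¹ := by
    have k : ∀ {g k}, Commute k z → g * k * z * (g * k)⁻¹ = g * z * g⁻¹ := fun c => by
      rw [mul_assoc _ _ z, c.eq]; group
    obtain ⟨k₁, c₁, a₁⟩ := h.fus_r xd (inv m n).1 (inv m n).2
    obtain ⟨m₁, n₁⟩ := inv (g := g⁻¹ * k₁) (by rw [k c₁]; exact (inv m n).1) (by rw [k c₁]; exact (inv m n).2)
    obtain ⟨k₂, c₂, a₂⟩ := h.fus_r xd m₁ n₁
    exact ⟨_, by rwa [k c₂], by rwa [k c₂], a₂, by simpa using h.fus_l c₂.inv_left a₁⟩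
  obtain ⟨k, c, k0, e⟩ := h.fus_k m n a'
  obtain ⟨k', c', k0', e'⟩ := h.fus_k (inv m n).1 (inv m n).2 (by rwa [inv_inv])
  have cj : ∀ {w}, Commute w (g * z * g⁻¹) → Commute (g⁻¹ * w * g) z := fun b => by
    simpa [mul_assoc] using b.map (MulAut.conj g⁻¹)
  have τy : ∀ x, Commute (g⁻¹ * ψ ⟨fe x, 0⟩ * g) z := fun x =>
    cj (e ▸ (Hs.commute_iff.2 (by simp [fe, om, o2, bv])).map ψ)
  choose θ hθ using fun x => (a _).1 ⟨_, ⟨⟨fe x, 0⟩, rfl⟩, by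
    simpa [mul_assoc] using (τy x).map (MulAut.conj g), rfl⟩
  let Θ : C3 →+ C3 := AddMonoidHom.mk' θ fun x y => jv_inj (by
    rw [jv_add, hθ, hθ, hθ, ← h.ρ_mul (τy x) (τy y), fe_add, map_mul]
    simp [mul_assoc])
  have sj : Function.Surjective Θ := Finite.injective_iff_surjective.1 ((injective_iff_map_eq_zero Θ).2
    fun x hx => fe_ker x fun d => by
      obtain ⟨w, w1, w2, -, w3⟩ := h.fus_w a' d
      have w4 : g * (g⁻¹ * w * g * (g⁻¹ * ψ ⟨fe x, 0⟩ * g) * (g⁻¹ * w * g)⁻¹ * (g⁻¹ * ψ ⟨fe x, 0⟩ * g)⁻¹) * g⁻¹ =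
          ψ (⟨jv d (fe x), 0 + l w (fe x)⟩ * ⟨fe x, 0⟩⁻¹) := by
        rw [map_mul, map_inv, ← w3, ← h.act w w2 ⟨fe x, 0⟩]; simp [mul_assoc]
      rcases h.fus_zp (h.fus_comm w1 (h.ker _ (τy x) (by
        rw [← hθ, show θ x = 0 from hx, jv_zero]))) with f | f | f <;> rw [f] at w4
      · exact ⟨0, (congrArg Hs.v (h.inj (w4.symm.trans (by simp : _ = ψ 1)))).trans (by simp)⟩
      · exact ⟨k, congrArg Hs.v (h.inj (w4.symm.trans e))⟩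
      · exact ⟨-k, (congrArg Hs.v (h.inj (w4.symm.trans ((conj_inv ..).symm.trans
          ((congrArg _ e).trans (map_inv ..).symm))))).trans (by simp)⟩)
  have rz : Commute (g⁻¹ * r * g) z := cj (comm_of (by rw [e, h.act0 hr, ρr, map_smul]; rfl))
  have sθ : ∀ x, ρ (g⁻¹ * r * g) * jv (Θ x) * (ρ (g⁻¹ * r * g))⁻¹ = jv (Θ (-x.1, x.2)) := fun x => by
    rw [show Θ x = θ x from rfl, show Θ _ = θ (-x.1, x.2) from rfl, hθ, hθ, ← h.ρ_inv rz, ← h.ρ_mul rz (τy x),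
      ← h.ρ_mul (rz.mul_left (τy x)) rz.inv_left, ← fe_r0, ← ρr, ← h.act0 hr ⟨fe x, 0⟩]
    simp [mul_assoc]
  have r2' : g⁻¹ * r * g * (g⁻¹ * r * g) = 1 := by simp [mul_assoc, ← mul_assoc r, r2]
  obtain ⟨x, hx, f⟩ := xd.refl_conj (h.ρ_mem rz) (by rw [← h.ρ_mul rz rz, r2', h.ρ_one])
    (smul_right_injective V8 k0' ((map_smul _ _ _).symm.trans ((h.commute_iff rz (x := ⟨k' • bv 0, c'⟩)).1 (by
      rw [← e']; simpa [mul_assoc] using hr.1.map (MulAut.conj g⁻¹))).1))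
    (a := Θ (1, 0, 0)) (b := Θ (0, 1, 0)) (c := Θ (0, 0, 1)) (fun x => by
      obtain ⟨x, rfl⟩ := sj x
      refine ⟨x.1, x.2.1, x.2.2, ?_⟩
      rw [← map_f3, ← map_f3, ← map_f3, ← map_add, ← map_add]; simp)
    (by rw [sθ, ← jv_neg, ← map_neg]; rfl) (comm_of (sθ _)) (comm_of (sθ _))
  obtain ⟨m₀, c₀, rfl⟩ := (h.memX x).1 hx
  have c₁ := (c₀.mul_left rz).mul_left c₀.inv_left
  have q₁ : m₀ * (g⁻¹ * r * g) * m₀⁻¹ * r ∈ ψ.range := h.ker _ (c₁.mul_left hr.1) (by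
    rw [h.ρ_mul c₁ hr.1, h.ρ_mul (c₀.mul_left rz) c₀.inv_left, h.ρ_mul c₀ rz, h.ρ_inv c₀, f, ρr, r0_sq])
  have s₁ : m₀ * (g⁻¹ * r * g) * m₀⁻¹ * (m₀ * (g⁻¹ * r * g) * m₀⁻¹) = 1 := by rw [conj_mul, r2']; simp
  have t₁ := HS.ψ3 q₁
  have c₂ := (c₁.mul_left hr.1).mul_left c₀
  have u : ∀ {a}, a = m₀ * (g⁻¹ * r * g) * m₀⁻¹ → a * r * m₀ * (g⁻¹ * r * g) * (a * r * m₀)⁻¹ = r := fun {a} b => by
    rw [← b] at s₁ t₁
    rw [show a * r * m₀ * (g⁻¹ * r * g) * (a * r * m₀)⁻¹ = a * r * (m₀ * (g⁻¹ * r * g) * m₀⁻¹) * (a * r)⁻¹ by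
      group, ← b, mul_inv_rev, inv_eq_of_mul_eq_one_right s₁, inv_eq_of_mul_eq_one_right r2,
      ← mul_left_inj r, r2, ← t₁]
    simp [pow_succ, mul_assoc]
  have u' := u rfl
  generalize m₀ * (g⁻¹ * r * g) * m₀⁻¹ * r * m₀ = n₀ at c₂ u'
  refine ⟨g * n₀⁻¹, comm_of ((congrArg (g * n₀⁻¹ * · * (g * n₀⁻¹)⁻¹) u'.symm).trans (by group)), ⟨k, c, k0, by
    rw [← e, mul_assoc g, c₂.inv_left.eq]; group⟩, ?_⟩
  obtain ⟨x, hx⟩ := h.conj_mem c₂ (inv m n).1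
  exact ⟨x, by rw [hx]; group⟩

theorem HS.fus (h : HS z ψ ρ l X) (xd : XD X) {g : G} (m : g * z * g⁻¹ ∈ ψ.range)
    (n : g * z * g⁻¹ ∉ zpowers z) {r : G} (hr : r ∈ h.H0) (ρr : ρ r = r0) (r2 : r * r = 1) :
    ∃ g : G, Commute g r ∧ (∃ k c, k ≠ 0 ∧ g * z * g⁻¹ = ψ ⟨k • bv 0, c⟩) ∧
      ∃ x, g⁻¹ * z * g = ψ x := by
  obtain ⟨g, a, ⟨k, c, k0, e⟩, b⟩ := h.fus' xd m n hr ρr r2
  exact ⟨g, a, ⟨k.val, c, (ZMod.val_ne_zero k).2 k0, by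
    rw [e, ← Nat.cast_smul_eq_nsmul F3, ZMod.natCast_zmod_val]⟩, b⟩

end Cfsg.Agent.B8L
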