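import Mathlib
import Cfsg.Prelude.Def_Local
import Cfsg.Agent.Grp.Cores

/-! General lemmas for the final steps. -/

set_option autoImplicit false

namespace Cfsg.Agent.B8L

open Subgroup

variable {G : Type*} [Group G]

theorem zp3 {z a : G} (h : z ^ 3 = 1) (ha : a ∈ zpowers z) : a = 1 ∨ a = z ∨ a = z⁻¹ := by
  obtain ⟨k, rfl⟩ := ha
  have e : z ^ k = z ^ (k % 3) := by
    conv_lhs => rw [← Int.mul_ediv_add_emod k 3, zpow_add, zpow_mul]
    simp [zpow_ofNat, h]
  have : k % 3 = 0 ∨ k % 3 = 1 ∨ k % 3 = 2 := by omega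
  rcases this with c | c | c <;> simp only [e, c]
  · simp
  · simp
  · exact .inr (.inr (eq_inv_of_mul_eq_one_left (by rw [← h, zpow_ofNat, ← pow_succ])))

theorem zp2 {r a : G} (h : r * r = 1) : a ∈ zpowers r ↔ a = 1 ∨ a = r := by
  refine ⟨?_, by rintro (rfl | rfl); exacts [one_mem _, mem_zpowers _]⟩
  rintro ⟨k, rfl⟩
  have e : r ^ k = r ^ (k % 2) := by
    conv_lhs => rw [← Int.mul_ediv_add_emod k 2, zpow_add, zpow_mul]
    simp [zpow_ofNat, pow_two, h]
  rcases Int.emod_two_eq_zero_or_one k with c | c <;> simp [e, c]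

theorem zp_symm {z a : G} (h : z ^ 3 = 1) (ha : a ∈ zpowers z) (a1 : a ≠ 1) : z ∈ zpowers a := by
  rcases zp3 h ha with rfl | rfl | rfl
  · exact absurd rfl a1
  · exact mem_zpowers _
  · simp

variable [Finite G] {z : G} {Q : Subgroup G}

theorem mem_normal (z3 : z ^ 3 = 1) (Q3 : IsPGroup 3 Q)
    (cQ : ∀ x, (∃ k, x ^ 3 ^ k = 1) → (∀ q ∈ Q, Commute x q) → x ∈ zpowers z) {O : Subgroup G}
    [O.Normal] (h : 3 ∣ Nat.card O) : z ∈ O := by
  have := Fact.mk Nat.prime_three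
  let _ : MulAction Q O := MulAction.compHom O ((MulAut.conjNormal (H := O)).comp Q.subtype)
  have e : Nat.card (MulAction.fixedPoints Q O) =
      Nat.card ((centralizer (Q : Set G)).subgroupOf O) :=
    Nat.card_congr (Equiv.subtypeEquivRight fun x => ⟨fun h q hq =>
      mul_inv_eq_iff_eq_mul.1 (congrArg Subtype.val (h ⟨q, hq⟩)),
      fun h q => Subtype.ext (mul_inv_eq_iff_eq_mul.2 (h q q.2))⟩)
  obtain ⟨x, hx⟩ := exists_prime_orderOf_dvd_card' 3
    (e ▸ ((Q3.card_modEq_card_fixedPoints O).dvd_iff dvd_rfl).1 h)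
  have x3 : (x.1.1 : G) ^ 3 = 1 := congrArg (·.1.1) (hx ▸ pow_orderOf_eq_one x : x ^ 3 = 1)
  refine zpowers_le_of_mem x.1.2 (zp_symm z3 (cQ _ ⟨1, by simpa using x3⟩ fun q hq =>
    (x.2 q hq).symm) fun c => ?_)
  rw [show x = 1 from Subtype.ext (Subtype.ext c)] at hx
  simp at hx

theorem frattini (z3 : z ^ 3 = 1) (z1 : z ≠ 1) (Q3 : IsPGroup 3 Q) (zQ : z ∈ Q)
    (cQ : ∀ x, (∃ k, x ^ 3 ^ k = 1) → (∀ q ∈ Q, Commute x q) → x ∈ zpowers z) {N : Subgroup G}
    [N.Normal] (QN : Q ≤ N) (hN : ∀ x, Commute x z → x ∈ N) {ι : G} (hι : ι ∈ N)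
    (e : ι * z * ι⁻¹ = z⁻¹) : N = ⊤ := by
  have := Fact.mk Nat.prime_three
  obtain ⟨P, hP⟩ := (show IsPGroup 3 (Q.subgroupOf N) from Q3.comap_subtype).exists_le_sylow
  have p : IsPGroup 3 (P.1.map N.subtype) := P.2.map _
  have le : Q ≤ P.1.map N.subtype := fun q hq => ⟨⟨q, QN hq⟩, hP hq, rfl⟩
  rw [← Sylow.normalizer_sup_eq_top P, eq_comm, sup_eq_right]
  generalize P.1.map N.subtype = T at p le
  have c : ∀ x ∈ T, (∀ y ∈ T, Commute x y) → x ∈ zpowers z := fun x hx h =>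
    cQ x ((p ⟨x, hx⟩).imp fun k e => congrArg Subtype.val e) fun q hq => h q (le hq)
  have : Nontrivial T := (nontrivial_iff_exists_ne_one T).2 ⟨z, le zQ, z1⟩
  have := p.center_nontrivial
  obtain ⟨w, w1⟩ := exists_ne (1 : center T)
  have cw : ∀ y ∈ T, Commute w.1.1 y := fun y hy =>
    congrArg Subtype.val (mem_center_iff.1 w.2 ⟨y, hy⟩).symm
  obtain ⟨k, hk⟩ := zp_symm z3 (c _ w.1.2 cw) fun e => w1 (Subtype.ext (Subtype.ext e))
  intro g hg
  rcases zp3 z3 (c (g * z * g⁻¹) ((hg z).1 (le zQ)) fun y hy => by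
    have := ((cw _ ((hg _).2 (show g * (g⁻¹ * y * g) * g⁻¹ ∈ T by simpa [mul_assoc] using hy))).zpow_left
      k).map (MulAut.conj g)
    simpa [hk, mul_assoc] using this) with a | a | a
  · exact absurd (by simpa using a) z1
  · exact hN g (mul_inv_eq_iff_eq_mul.1 a)
  · refine (N.mul_mem_cancel_left (inv_mem hι)).1 (hN _ (mul_inv_eq_iff_eq_mul.1 ?_))
    rw [show ι⁻¹ * g * z * (ι⁻¹ * g)⁻¹ = ι⁻¹ * (g * z * g⁻¹) * ι by group, a, ← e]; group

omit [Finite G] in
theorem qs_of {B : Type*} [Group B] [IsSimpleGroup B] (hB : ¬ IsMulCommutative B) (π : G →* B)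
    (hs : Function.Surjective π) {r : G} (hk : ∀ c, π c = 1 ↔ c = 1 ∨ c = r)
    (rc : ∀ c, Commute c r) (hr : r ∈ commutator G) :
    IsQuasisimple G ∧ π.ker = center G ∧ Nonempty (G ⧸ center G ≃* B) := by
  have e : π.ker = center G := le_antisymm (fun c hc => by
      rcases (hk c).1 hc with rfl | rfl
      exacts [one_mem _, mem_center_iff.2 rc]) fun c hc =>
    mem_bot.1 (((inferInstance : (center B).Normal).eq_bot_or_eq_top.resolve_right fun e =>
      hB ⟨⟨fun a b => mem_center_iff.1 (e.ge (mem_top b)) a⟩⟩).le (mem_center_iff.2 fun b => by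
        obtain ⟨b, rfl⟩ := hs b
        rw [← map_mul, ← map_mul, mem_center_iff.1 hc]))
  have f := (QuotientGroup.quotientMulEquivOfEq e).symm.trans
    (QuotientGroup.quotientKerEquivOfSurjective π hs)
  refine ⟨⟨⟨top_le_iff.1 fun a _ => ?_⟩, f.isSimpleGroup⟩, e, ⟨f⟩⟩
  have t : commutator B = ⊤ := (inferInstance : (commutator B).Normal).eq_bot_or_eq_top.resolve_left
    fun e => hB ⟨⟨fun a b => commutatorElement_eq_one_iff_mul_comm.1 (mem_bot.1
      (e.le (commutator_mem_commutator (mem_top a) (mem_top b))))⟩⟩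
  obtain ⟨d, hd, e⟩ : π a ∈ (commutator G).map π := by
    rw [map_commutator_eq, MonoidHom.range_eq_top.2 hs]; exact t.ge (mem_top _)
  rcases (hk (d⁻¹ * a)).1 (by simp [e]) with c | c
  · exact inv_mul_eq_one.1 c ▸ hd
  · exact inv_mul_eq_iff_eq_mul.1 c ▸ mul_mem hd hr

theorem not_mem_three (h : Nat.card G ∣ 12) {r : G} (r2 : r * r = 1) (r1 : r ≠ 1)
    (rc : ∀ c, Commute c r) : r ∉ closure {x : G | x ^ 9 = 1} := fun hr => by
  have := Fact.mk Nat.prime_three
  have := Fact.mk Nat.prime_two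
  obtain ⟨P⟩ : Nonempty (Sylow 3 G) := inferInstance
  have h2 : 2 ∣ Nat.card (normalizer (P : Set G)) :=
    (orderOf_eq_prime (by rw [pow_two, r2]) r1 : orderOf r = 2) ▸ orderOf_dvd_natCard _ fun x =>
      by rw [← (rc x).eq, mul_inv_cancel_right]
  have h3 := card_sylow_modEq_one 3 G
  rw [P.card_eq_index_normalizer] at h3
  have h4 : (normalizer (P : Set G)).index ∣ 6 := by
    obtain ⟨k, hk⟩ := h2
    rw [← card_mul_index (normalizer (P : Set G)), hk, mul_assoc] at h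
    exact (Dvd.intro_left k rfl).trans (Nat.dvd_of_mul_dvd_mul_left (by norm_num) h)
  have h5 : (normalizer (P : Set G)).index = 1 := by
    have := Nat.le_of_dvd (by norm_num) h4
    generalize (normalizer (P : Set G)).index = n at *
    interval_cases n <;> simp_all [Nat.ModEq]
  have : (P : Subgroup G).Normal := normalizer_eq_top_iff.1 (index_eq_one.1 h5)
  have m : ∀ x : G, x ^ 9 = 1 → x ∈ P.1 := fun x hx => by
    have p : IsPGroup 3 (zpowers x) := by
      rintro ⟨_, k, rfl⟩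
      exact ⟨2, Subtype.ext (by
        change (x ^ k) ^ 9 = 1
        rw [← zpow_natCast, ← zpow_mul, mul_comm, zpow_mul, zpow_natCast, hx, one_zpow])⟩
    exact (P.is_maximal' (p.to_sup_of_normal_right P.2) le_sup_right).le
      (mem_sup_left (mem_zpowers x))
  obtain ⟨k, hk⟩ := P.2 ⟨r, (closure_le P.1).2 m hr⟩
  exact r1 ((pow_eq_one_iff_of_coprime (m := 2) (Nat.Coprime.pow_right k (by norm_num))).1
    ⟨by rw [pow_two, r2], congrArg Subtype.val hk⟩)

end Cfsg.Agent.B8L
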