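import Mathlib
import Cfsg.Agent.B8L.XD

/-! Coordinate facts on the elements of order three, for the weak closure argument. -/

set_option autoImplicit false
set_option synthInstance.maxSize 4096

namespace Cfsg.Agent.B8L

open Subgroup
open Cfsg.Agent.F22L (F3 W2 o2 SL qi qj Wr map_f3)

/-- The norm map. -/
def nu (g : A8) (v : V8) : V8 := v + g v + g (g v)

theorem nu_add (g : A8) (v w : V8) : nu g (v + w) = nu g v + nu g w := by
  simp only [nu, map_add]; abel

theorem nu_sub (g : A8) (v w : V8) : nu g (v - w) = nu g v - nu g w := by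
  simp only [nu, map_sub]; abel

theorem v8_three (v : V8) : v + v + v = 0 := by ext <;> simp [three]

theorem nu_eq (g : A8) (v : V8) : v - g v - g (v - g v) = nu g v := by
  rw [map_sub, nu]
  linear_combination (exp := 1) -v8_three (g v)

theorem nu_fix {g : A8} (h : g ^ 3 = 1) (v : V8) : g (nu g v) = nu g v := by
  have : g (g (g v)) = v := by rw [← mul_ap, ← mul_ap, ← pow_three', h]; rfl
  rw [nu, map_add, map_add, this]; abel

def N9 (g : A8) : Prop := ∃ φ : W2 → V8, Function.Injective fun a => nu g (φ a)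

def F81 (g : A8) : Prop := ∃ φ : W2 × W2 → V8, Function.Injective φ ∧ ∀ a, g (φ a) = φ a

def Rad (g : A8) : Prop := ∀ v, g v = v → (∀ f, g f = f → om v f = 0) → ∃ u, nu g u = v

theorem n9_110 : N9 (jv (1, 1, 0)) := ⟨fun a => (0, (0, a)), by decide +kernel⟩
theorem n9_120 : N9 (jv (1, -1, 0)) := ⟨fun a => (0, (0, a)), by decide +kernel⟩
theorem n9_cy : N9 cy := ⟨fun a => (((0, a.1), (0, a.2)), 0), by decide +kernel⟩
theorem n9_111 : N9 (jv (1, 1, 1)) := ⟨fun a => (0, (0, a)), by decide +kernel⟩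
theorem n9_112 : N9 (jv (1, 1, -1)) := ⟨fun a => (0, (0, a)), by decide +kernel⟩

theorem f81_110 : F81 (jv (1, 1, 0)) := ⟨fun a => (a, (-a.2, 0)),
  fun _ _ e => congrArg Prod.fst e, by decide +kernel⟩
theorem f81_120 : F81 (jv (1, -1, 0)) := ⟨fun a => (a, (a.2, 0)),
  fun _ _ e => congrArg Prod.fst e, by decide +kernel⟩
theorem f81_cy : F81 cy := ⟨fun a => ((a.1, (a.1.2, a.2.1)), ((a.1.2, a.2.1), a.2)),
  fun _ _ e => Prod.ext (congrArg (·.1.1) e) (congrArg (·.2.2) e), by decide +kernel⟩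

theorem rad_110 : Rad (jv (1, 1, 0)) := fun ((a, b), (c, d)) e o => ⟨(0, (0, -a)),
  (by decide +kernel : ∀ a b c d : W2, jv (1, 1, 0) ((a, b), (c, d)) = ((a, b), (c, d)) →
    om ((a, b), (c, d)) ((0, (1, 0)), (-(1, 0), 0)) = 0 →
    om ((a, b), (c, d)) ((0, (0, 1)), (-(0, 1), 0)) = 0 →
    nu (jv (1, 1, 0)) (0, (0, -a)) = ((a, b), (c, d))) a b c d e
      (o _ (by decide +kernel)) (o _ (by decide +kernel))⟩

theorem rad_120 : Rad (jv (1, -1, 0)) := fun ((a, b), (c, d)) e o => ⟨(0, (0, a)),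
  (by decide +kernel : ∀ a b c d : W2, jv (1, -1, 0) ((a, b), (c, d)) = ((a, b), (c, d)) →
    om ((a, b), (c, d)) ((0, (1, 0)), ((1, 0), 0)) = 0 →
    om ((a, b), (c, d)) ((0, (0, 1)), ((0, 1), 0)) = 0 →
    nu (jv (1, -1, 0)) (0, (0, a)) = ((a, b), (c, d))) a b c d e
      (o _ (by decide +kernel)) (o _ (by decide +kernel))⟩

theorem rad_cy : Rad cy := fun ((a, b), (c, d)) e o => ⟨(((0, a.2), (0, b.2)), 0),
  (by decide +kernel : ∀ a b c d : W2, cy ((a, b), (c, d)) = ((a, b), (c, d)) →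
    om ((a, b), (c, d)) (bv 0) = 0 → om ((a, b), (c, d)) (bv 7) = 0 →
    nu cy (((0, a.2), (0, b.2)), 0) = ((a, b), (c, d))) a b c d e
      (o _ (by decide +kernel)) (o _ (by decide +kernel))⟩

theorem jv100 (v : V8) : jv (1, 0, 0) v = (v.1 + v.2, v.2) := by
  simp [jv_ap, w0_ap, w1_ap, w2_ap]

end Cfsg.Agent.B8L
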