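import Mathlib
import Cfsg.Agent.B8L.WeakA

/-! The centre is not weakly closed in `Q`. -/

set_option autoImplicit false

namespace Cfsg.Agent.B8L

open Subgroup
open Cfsg.Agent.F22L (F3 W2 o2 SL qi qj Wr map_f3)

variable {G : Type*} [Group G] [Finite G] {z : G} {ψ : Hs →* G} {ρ : G → A8} {l : G → V8 →+ F3}
  {X : Subgroup A8}

theorem card_le_ker (W : AddSubgroup V8) (f : V8 →+ F3) :
    Nat.card W ≤ 3 * Nat.card ↥(W ⊓ f.ker) := by
  have h1 := (f.comp W.subtype).ker.card_mul_index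
  have h2 := AddSubgroup.card_le_card_addGroup (f.comp W.subtype).range
  have h3 : Nat.card (f.comp W.subtype).ker ≤ Nat.card ↥(W ⊓ f.ker) :=
    Nat.card_le_card_of_injective (fun x => ⟨x.1.1, x.1.2, x.2⟩) fun x y e => by
      ext1; ext1; exact Subtype.mk.inj e
  rw [AddSubgroup.index_ker] at h1
  rw [Nat.card_zmod] at h2
  nlinarith

theorem F81.card {g : A8} (h : F81 g) : 81 ≤ Nat.card (Fx g) := by
  obtain ⟨φ, i, f⟩ := h
  simpa using Nat.card_le_card_of_injective (fun a => (⟨φ a, f a⟩ : Fx g))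
    fun a b e => i (Subtype.mk.inj e)

theorem f81_100 : F81 (jv (1, 0, 0)) :=
  ⟨fun a => (a, 0), fun _ _ e => congrArg Prod.fst e, fun a => by simp [jv100]⟩

/-- Weak closure of the centre. -/
def WC (z : G) (ψ : Hs →* G) : Prop :=
  ∀ t, IsConj z t ∨ IsConj z t⁻¹ → t ∈ ψ.range → t ∈ zpowers z

omit [Finite G] in
theorem WC.cj (h : WC z ψ) (g : G) : WC (g * z * g⁻¹) ((MulAut.conj g).toMonoidHom.comp ψ) := by
  rintro _ ht ⟨x, rfl⟩
  have e : ∀ a, IsConj (g * z * g⁻¹) (g * a * g⁻¹) → IsConj z a := fun a c =>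
    ((isConj_iff.2 ⟨g, rfl⟩ : IsConj z _).trans c).trans (isConj_iff.2 ⟨g, rfl⟩ : IsConj a _).symm
  obtain ⟨k, e⟩ := h (ψ x) (ht.imp (e _) fun c => e _ (by simpa [mul_assoc] using c)) ⟨x, rfl⟩
  exact ⟨k, by simp [← e]⟩

omit [Finite G] in
theorem HS.eq_one (h : HS z ψ ρ l X) {K : Subgroup G} (n : z ∉ K) {a : G} (ha : a ∈ zpowers z)
    (hK : a ∈ K) : a = 1 := by
  obtain ⟨k, rfl⟩ := h.of_zp ha
  rw [h.cen] at hK ⊢
  have e : ∀ k : F3, k.val = 0 ∨ k.val = 1 ∨ k.val = 2 := by decide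
  rcases e k with c | c | c <;> rw [c] at hK ⊢
  · exact pow_zero z
  · exact absurd (pow_one z ▸ hK) n
  · have := pow_mem hK 2
    rw [← pow_mul, show 2 * 2 = 3 + 1 from rfl, pow_succ, h.z3, one_mul] at this
    exact absurd this n

variable (G) in
/-- The actions of commuting conjugates of the centre. -/
def Adm (X : Subgroup A8) (x : A8) : Prop := ∃ (z y : G) (ψ : Hs →* G) (ρ : G → A8)
  (l : G → V8 →+ F3), HS z ψ ρ l X ∧ WC z ψ ∧ (IsConj z y ∨ IsConj z y⁻¹) ∧ Commute y z ∧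
    y ∉ zpowers z ∧ ρ y = x

namespace Adm
omit [Finite G]
variable {x : A8} (a : Adm G X x)
include a

theorem inv : Adm G X x⁻¹ := by
  obtain ⟨z, y, ψ, ρ, l, h, w, c, m, n, rfl⟩ := a
  exact ⟨z, y⁻¹, ψ, ρ, l, h, w, by rw [inv_inv]; exact c.symm, m.inv_left,
    fun c => n (inv_mem_iff.1 c), h.ρ_inv m⟩

theorem conj {k : A8} (hk : k ∈ X) : Adm G X (k * x * k⁻¹) := by
  obtain ⟨z, y, ψ, ρ, l, h, w, c, m, n, rfl⟩ := a
  obtain ⟨b, hb, rfl⟩ := (h.memX k).1 hk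
  refine ⟨z, b * y * b⁻¹, ψ, ρ, l, h, w, c.imp (·.trans (isConj_iff.2 ⟨b, rfl⟩))
    (·.trans (isConj_iff.2 ⟨b, by group⟩)), (hb.mul_left m).mul_left hb.inv_left, fun c => n ?_, by
      rw [h.ρ_mul (hb.mul_left m) hb.inv_left, h.ρ_mul hb m, h.ρ_inv hb]⟩
  have := (HS.zp_comm hb c).eq
  rw [inv_mul_cancel_right, mul_left_cancel_iff] at this
  rwa [this] at c

theorem ne : x ≠ 1 := by
  obtain ⟨z, y, ψ, ρ, l, h, w, c, m, n, rfl⟩ := a
  exact fun e => n (w y c (h.ker y m e))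

end Adm

/-- The commutator of an element of `Q` with `y`. -/
def gam (ψ : Hs →* G) (g : A8) (f : V8 →+ F3) (v : V8) : G := ψ ⟨v - g v, -f v - om v (g v)⟩

/-- Two commuting conjugates. -/
structure Pr (z : G) (ψ : Hs →* G) (ρ : G → A8) (l : G → V8 →+ F3) (y y' : G) (ψ' : Hs →* G)
    (ρ' : G → A8) (l' : G → V8 →+ F3) (X : Subgroup A8) : Prop where
  h : HS z ψ ρ l X
  h' : HS y' ψ' ρ' l' X
  xd : XD X
  wc' : WC y' ψ'
  yy : y = y' ∨ y = y'⁻¹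
  cm : Commute y z
  nQ : y' ∉ ψ.range
  nQ' : z ∉ ψ'.range

omit [Finite G] in
theorem Adm.pr {x : A8} (a : Adm G X x) (xd : XD X) : ∃ (z y y' : G) (ψ ψ' : Hs →* G)
    (ρ ρ' : G → A8) (l l' : G → V8 →+ F3), Pr z ψ ρ l y y' ψ' ρ' l' X ∧ ρ y = x := by
  obtain ⟨z, y, ψ, ρ, l, h, w, c, m, n, rfl⟩ := a
  obtain ⟨g, yy⟩ : ∃ g, y = g * z * g⁻¹ ∨ y = (g * z * g⁻¹)⁻¹ := by
    rcases c with c | c <;> obtain ⟨g, e⟩ := isConj_iff.1 c
    exacts [⟨g, .inl e.symm⟩, ⟨g, .inr (by rw [e, inv_inv])⟩]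
  have n' : g * z * g⁻¹ ∉ zpowers z := fun d => n (by
    rcases yy with e | e <;> rw [e]
    exacts [d, inv_mem d])
  have c' : IsConj z (g * z * g⁻¹) := isConj_iff.2 ⟨g, rfl⟩
  exact ⟨z, y, _, ψ, _, ρ, _, l, _, ⟨h, h.cj g, xd, w.cj g, yy, m, fun c => n' (w _ (.inl c') c),
    fun c => h.z1 ((h.cj g).eq_one n' (w.cj g _ (.inl c'.symm) c) (mem_zpowers z))⟩, rfl⟩

namespace Pr

variable {y y' : G} {ψ' : Hs →* G} {ρ' : G → A8} {l' : G → V8 →+ F3}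
  (p : Pr z ψ ρ l y y' ψ' ρ' l' X)
include p

omit [Finite G]

theorem cy {a : G} (c : Commute a y) : Commute a y' := by
  rcases p.yy with rfl | rfl
  exacts [c, Commute.inv_right_iff.1 c]

theorem yz : y ∈ zpowers y' := by
  rcases p.yy with e | e <;> rw [e]
  exacts [mem_zpowers _, inv_mem (mem_zpowers _)]

theorem yQ : y ∈ ψ'.range := zpowers_le_of_mem p.h'.zmem p.yz

theorem y3 : y ^ 3 = 1 := HS.ψ3 p.yQ

theorem g3 : ρ y ^ 3 = 1 := by rw [← p.h.ρ_pow p.cm, p.y3, p.h.ρ_one]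

theorem sp : Sp (ρ y) := p.xd.sp _ (p.h.ρ_mem p.cm)

theorem comm_y {x : Hs} : Commute (ψ x) y ↔ ρ y x.v = x.v ∧ l y x.v = 0 :=
  Commute.symm_iff.trans (p.h.commute_iff p.cm)

theorem star {v : V8} (c : Commute (gam ψ (ρ y) (l y) v) y) (n : gam ψ (ρ y) (l y) v ≠ 1) :
    Adm G X (ρ' (gam ψ (ρ y) (l y) v)) := by
  have e : ψ ⟨v, 0⟩ * y * (ψ ⟨v, 0⟩)⁻¹ = gam ψ (ρ y) (l y) v * y := p.h.conj_eq p.cm ⟨v, 0⟩
  refine ⟨y', gam ψ (ρ y) (l y) v * y, ψ', ρ', l', p.h', p.wc', ?_,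
    p.cy (c.mul_left (Commute.refl y)), fun m => n (p.h'.eq_one p.nQ
      ((mul_mem_cancel_right p.yz).1 m) ⟨_, rfl⟩), ?_⟩
  · rw [← e]
    rcases p.yy with rfl | rfl
    exacts [.inl (isConj_iff.2 ⟨_, rfl⟩), .inr (isConj_iff.2 ⟨ψ ⟨v, 0⟩, by group⟩)]
  · rw [p.h'.ρ_mul (p.cy c) (p.cy (Commute.refl y)), (p.h'.ρ_eq_one (p.cy (Commute.refl y))).2 p.yQ,
      mul_one]

theorem star' {v : V8} (c : Commute (gam ψ (ρ y) (l y) v) y) (m : gam ψ (ρ y) (l y) v ∈ ψ'.range) :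
    gam ψ (ρ y) (l y) v = 1 := by_contra fun n => (p.star c n).ne ((p.h'.ρ_eq_one (p.cy c)).2 m)

theorem l_nu (v : V8) : l y (nu (ρ y) v) = 0 := by
  have := p.h.l_mul p.cm (p.cm.mul_left p.cm) v
  rw [← pow_three, p.y3, p.h.l_one, p.h.l_mul p.cm p.cm, p.h.ρ_mul p.cm p.cm, mul_ap] at this
  rw [nu, map_add, map_add, ← this]; rfl

theorem om_nu (v : V8) {f : V8} (hf : ρ y f = f) : om (nu (ρ y) v) f = 0 :=
  nu_eq (ρ y) v ▸ p.sp.om_fix hf _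

theorem gam_nu (u : V8) :
    gam ψ (ρ y) (l y) (u - ρ y u) = ψ ⟨nu (ρ y) u, -l y (u - ρ y u)⟩ := by
  have := p.sp.om_fix (nu_fix p.g3 u) u
  rw [← nu_eq, om_sub_right, om_self, zero_sub, neg_eq_zero] at this
  rw [gam, nu_eq, this, sub_zero]

theorem gam_all {f : V8} (hf : ρ y f = f) (c : l y f ≠ 0) (v : V8) (k : F3) :
    ∃ w, ψ ⟨v - ρ y v, k⟩ = gam ψ (ρ y) (l y) w := by
  refine ⟨v + ((-l y v - om v (ρ y v) - k) / l y f) • f, ?_⟩
  have e1 := p.sp.om_fix hf v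
  rw [om_sub_left, sub_eq_zero] at e1
  simp only [gam, map_add, map_smul, hf, map_f3, om_add_left, om_add_right,
    om_smul_left, om_smul_right, om_self, om_swap f (ρ y v), e1, smul_eq_mul]
  congr 2
  · abel
  · have := Fact.mk Nat.prime_three
    field_simp
    ring

/-- `[B, U] = 1` -/
theorem cBU {b u : G} (hb : b ∈ ψ.range) (hb' : b ∈ ψ'.range) (hu : u ∈ ψ.range)
    (c : Commute u y) : Commute u b := by
  have m := mul_mem (p.h'.conj_mem (p.cy c) hb') (inv_mem hb')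
  obtain ⟨b, rfl⟩ := hb
  obtain ⟨u, rfl⟩ := hu
  have e : ψ u * ψ b * (ψ u)⁻¹ * (ψ b)⁻¹ = ψ ⟨0, -om u.v b.v⟩ := by
    rw [← Hs.comm]; simp
  exact commutatorElement_eq_one_iff_commute.1 (p.h.eq_one p.nQ' (by
    rw [commutatorElement_def, e]; exact p.h.mem_zp.2 rfl) m)

variable [Finite G]

/-- The image of a subgroup of `U`. -/
theorem img (U : Subgroup Hs) (c : ∀ a ∈ U, Commute (ψ a) y) : ∃ A ≤ X, (∀ a ∈ A, a ^ 3 = 1) ∧
    Nat.card U = Nat.card ↥(U ⊓ ψ'.range.comap ψ) * Nat.card A ∧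
    ∀ a, a ∈ A ↔ ∃ u ∈ U, ρ' (ψ u) = a := by
  have c' : ∀ a ∈ U.map ψ, Commute a y' := by
    rintro _ ⟨a, ha, rfl⟩; exact p.cy (c a ha)
  refine ⟨_, p.h'.range_le _ c', fun a ha => ?_, ?_, fun a => ?_⟩
  · obtain ⟨_, ⟨u, hu, rfl⟩, rfl⟩ := p.h'.mem_range.1 ha
    rw [← p.h'.ρ_pow (p.cy (c u hu)), ← map_pow, Hs.cube, map_one, p.h'.ρ_one]
  · rw [← p.h.card_map U, p.h'.card_eq _ c', ← p.h.card_map (U ⊓ _)]
    congr 3
    ext a
    exact ⟨fun ⟨⟨u, hu, e⟩, b⟩ => ⟨u, ⟨hu, by rwa [← e] at b⟩, e⟩,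
      fun ⟨u, hu, e⟩ => ⟨⟨u, hu.1, e⟩, e ▸ hu.2⟩⟩
  · rw [p.h'.mem_range]
    exact ⟨fun ⟨_, ⟨u, hu, e⟩, e'⟩ => ⟨u, hu, e ▸ e'⟩, fun ⟨u, hu, e⟩ => ⟨_, ⟨u, hu, rfl⟩, e⟩⟩

/-- (G0) -/
theorem img0 (U : Subgroup Hs) (c : ∀ a ∈ U, Commute (ψ a) y)
    (d : ∀ a ∈ U, ∃ v, ψ a = gam ψ (ρ y) (l y) v) : ∃ A ≤ X, (∀ a ∈ A, a ^ 3 = 1) ∧
      Nat.card U = Nat.card A ∧ (∀ a ∈ A, a ≠ 1 → Adm G X a) ∧
      ∀ a, a ∈ A ↔ ∃ u ∈ U, ρ' (ψ u) = a := by
  obtain ⟨A, le, a3, e, m⟩ := p.img U c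
  refine ⟨A, le, a3, ?_, fun a ha n => ?_, m⟩
  · rw [e, show U ⊓ ψ'.range.comap ψ = ⊥ from eq_bot_iff.2 fun a ha => ?_, card_bot, one_mul]
    obtain ⟨v, hv⟩ := d a ha.1
    exact p.h.inj (hv.trans ((p.star' (hv ▸ c a ha.1) (hv ▸ ha.2)).trans (map_one ψ).symm))
  · obtain ⟨u, hu, rfl⟩ := (m a).1 ha
    obtain ⟨v, hv⟩ := d u hu
    rw [hv] at n ⊢
    exact p.star (hv ▸ c u hu) fun e => n (by rw [e, p.h'.ρ_one])

omit [Finite G] in
theorem img_comm {U : Subgroup Hs} (c : ∀ a ∈ U, Commute (ψ a) y) (o : ∀ a ∈ U, ∀ b ∈ U, om a.v b.v = 0)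
    {A : Subgroup A8} (m : ∀ a, a ∈ A ↔ ∃ u ∈ U, ρ' (ψ u) = a) : ∀ a ∈ A, ∀ b ∈ A, Commute a b :=
  fun a ha b hb => by
    obtain ⟨u, hu, rfl⟩ := (m a).1 ha
    obtain ⟨w, hw, rfl⟩ := (m b).1 hb
    exact p.h'.ρ_comm (p.cy (c u hu)) (p.cy (c w hw)) ((Hs.commute_iff.2 (o u hu w hw)).map ψ)

theorem not100 (e : ρ y = jv (1, 0, 0)) : False := by
  have h3 : (3 : F3) = 0 := rfl
  have ap : ∀ v, ρ y v = (v.1 + v.2, v.2) := fun v => e ▸ jv100 v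
  have fx : ∀ v, v ∈ Fx (ρ y) ↔ v.2 = 0 := fun v => by
    rw [mem_Fx, ap, Prod.ext_iff]; simp
  have sb : ∀ v : V8, v.2 = 0 → (0, -v.1) - ρ y (0, -v.1) = v := fun v h => by
    rw [ap]; ext1 <;> simp [h]
  have c81 := (e ▸ f81_100 : F81 (ρ y)).card
  by_cases hf : ∃ f, ρ y f = f ∧ l y f ≠ 0
  · obtain ⟨f, hf, c⟩ := hf
    obtain ⟨A, le, a3, k, -⟩ := p.img0 (pre (Fx (ρ y) ⊓ (l y).ker)) (fun a ha => p.comm_y.2 ha)
      fun a ha => by
        have := p.gam_all hf c (0, -a.v.1) a.c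
        rwa [sb _ ((fx _).1 ha.1)] at this
    have := p.xd.le27 le a3
    have := card_le_ker (Fx (ρ y)) (l y)
    rw [card_pre] at k
    omega
  have hl : ∀ f, ρ y f = f → l y f = 0 := fun f a => by_contra fun c => hf ⟨f, a, c⟩
  have cU : ∀ a ∈ pre (Fx (ρ y)), Commute (ψ a) y := fun a ha => p.comm_y.2 ⟨ha, hl _ ha⟩
  have oU : ∀ a ∈ pre (Fx (ρ y)), ∀ b ∈ pre (Fx (ρ y)), om a.v b.v = 0 := fun a ha b hb => by
    rw [← sb _ ((fx _).1 ha)]; exact p.sp.om_fix hb _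
  obtain ⟨A, le, a3, k, m⟩ := p.img _ cU
  rw [card_pre] at k
  generalize hB : pre (Fx (ρ y)) ⊓ ψ'.range.comap ψ = B at k
  have b1 : ∀ b ∈ B, b ∈ pre (Fx (ρ y)) := fun b hb => (hB.ge hb).1
  have b2 : ∀ b ∈ B, ψ b ∈ ψ'.range := fun b hb => (hB.ge hb).2
  have a27 := p.xd.le27 le a3
  have B9 : Nat.card B ≤ 9 := by
    by_contra n
    have key : ∀ b ∈ B, b.c - l y (0, b.v.1) - o2 b.v.1.1 b.v.1.2 = 0 → b = 1 := fun b hb c => by
      have : ψ b = gam ψ (ρ y) (l y) (0, -b.v.1) := by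
        rw [gam, sb _ ((fx _).1 (b1 b hb)), ap]
        congr 1
        ext1
        · rfl
        · have e : ((0, -b.v.1) : V8) = -(0, b.v.1) := by simp
          rw [e, map_neg]
          simp only [om, o2] at c ⊢
          simp
          linear_combination c + (b.v.1.1.1 * b.v.1.2.2 - b.v.1.1.2 * b.v.1.2.1) * h3
      exact p.h.inj (this.trans ((p.star' (this ▸ cU b (b1 b hb)) (this ▸ b2 b hb)).trans
        (map_one ψ).symm))
    have mc : ∀ a ∈ B, ∀ b ∈ B, (a * b).c = a.c + b.c := fun a ha b hb => by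
      rw [Hs.mul_c, oU a (b1 a ha) b (b1 b hb), add_zero]
    have ml : ∀ a b : V8, l y (0, (a + b).1) = l y (0, a.1) + l y (0, b.1) := fun a b => by
      rw [← map_add]; simp
    have mn : ∀ a : V8, l y (0, (-a).1) = -l y (0, a.1) := fun a => by
      rw [← map_neg]; simp
    obtain ⟨v, hv, v1, v0⟩ : ∃ v ∈ B, v ≠ 1 ∧ v.v.1.2 = 0 := by
      by_contra! c
      have := Nat.card_le_card_of_injective (fun b : B => b.1.v.1.2) fun a b e => by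
        by_contra d
        exact c _ (mul_mem a.2 (inv_mem b.2)) (fun e => d (Subtype.ext (mul_inv_eq_one.1 e)))
          (by simp only at e; simp [e])
      rw [Nat.card_prod, Nat.card_zmod] at this
      omega
    obtain ⟨k, hk, k1, k0⟩ : ∃ k ∈ B, k ≠ 1 ∧ k.c - l y (0, k.v.1) = 0 := by
      by_contra! c
      have := Nat.card_le_card_of_injective (fun b : B => b.1.c - l y (0, b.1.v.1)) fun a b e => by
        by_contra d
        refine c _ (mul_mem a.2 (inv_mem b.2)) (fun e => d (Subtype.ext (mul_inv_eq_one.1 e))) ?_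
        rw [mc _ a.2 _ (inv_mem b.2), Hs.mul_v, ml, Hs.inv_v, mn, Hs.inv_c]
        linear_combination e
      rw [Nat.card_zmod] at this
      omega
    have q : ∀ b ∈ B, b.c - l y (0, b.v.1) ≠ 0 → o2 b.v.1.1 b.v.1.2 = 0 := fun b hb c => by
      have n : b ≠ 1 := fun e => c (by rw [e]; simp [show ((0, 0) : V8) = 0 from rfl])
      have k1 := mt (key b hb) n
      have k2 := mt (key _ (inv_mem hb)) (inv_ne_one.2 n)
      rw [Hs.inv_v, mn, Hs.inv_c] at k2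
      have e : o2 (-b.v).1.1 (-b.v).1.2 = o2 b.v.1.1 b.v.1.2 := by simp [o2]
      rw [e] at k2
      revert c k1 k2
      generalize b.c = s
      generalize l y (0, b.v.1) = t
      generalize o2 b.v.1.1 b.v.1.2 = u
      revert s t u
      decide
    have mv : v.c - l y (0, v.v.1) ≠ 0 := fun c => v1 (key v hv (by rw [c, v0]; simp [o2]))
    have q1 := q _ (mul_mem hk hv) (by
      rw [mc _ hk _ hv, Hs.mul_v, ml]
      exact fun c => mv (by linear_combination c - k0))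
    have q2 := q _ (mul_mem hk (inv_mem hv)) (by
      rw [mc _ hk _ (inv_mem hv), Hs.mul_v, ml, Hs.inv_v, mn, Hs.inv_c]
      exact fun c => mv (by linear_combination k0 - c))
    refine k1 (key k hk ?_)
    rw [k0]
    simp [o2, v0] at q1 q2 ⊢
    linear_combination q1 + q2 - (k.v.1.1.1 * k.v.1.2.2 - k.v.1.1.2 * k.v.1.2.1) * h3
  obtain ⟨x, -, hx⟩ := p.xd.eq_J le a3 (p.img_comm cU oU m) (by nlinarith)
  choose β hβ using fun b : B => b2 b b.2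
  have fβ : ∀ b, x (β b).v = (x (β b).v).1.1.1 • bv 0 := fun b => fix_J fun c => by
    obtain ⟨u, hu, e⟩ := (m (x⁻¹ * jv c * x)).1 ((hx _).2 ⟨c, by group⟩)
    have := ((p.h'.commute_iff (p.cy (cU u hu))).1 (hβ b ▸ (Hs.commute_iff.2
      (oU u hu b (b1 b b.2))).map ψ)).1
    rw [e] at this
    conv_rhs => rw [← this, ← mul_ap, ← mul_assoc, ← mul_assoc, mul_inv_cancel, one_mul, mul_ap]
  have := Nat.card_le_card_of_injective (fun b : B => (x (β b).v).1.1.1) fun a b e => by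
    have e1 : (β a).v = (β b).v := x.injective (by rw [fβ a, fβ b]; exact congrArg (· • _) e)
    have e2 : ψ' (β a * (β b)⁻¹) = ψ (a * b⁻¹) := by simp [hβ]
    have := p.h'.eq_one p.nQ (p.h'.mem_zp.2 (by simp [e1])) ⟨_, e2.symm⟩
    exact Subtype.ext (mul_inv_eq_one.1 (p.h.inj (e2.symm.trans (this.trans (map_one ψ).symm))))
  rw [Nat.card_zmod] at this
  nlinarith

omit [Finite G] in
/-- The subgroup `Γ₀`. -/
def G0 : Subgroup Hs where
  carrier := {x | ∃ u, x = ⟨nu (ρ y) u, -l y (u - ρ y u)⟩}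
  one_mem' := ⟨0, by simp [nu, Hs.mk_one]⟩
  mul_mem' := by
    rintro _ _ ⟨u, rfl⟩ ⟨w, rfl⟩
    refine ⟨u + w, ?_⟩
    rw [Hs.mk_mul, p.om_nu u (nu_fix p.g3 w), nu_add]
    simp only [map_add, map_sub]
    congr 1; ring
  inv_mem' := by
    rintro _ ⟨u, rfl⟩
    refine ⟨0 - u, ?_⟩
    rw [Hs.mk_inv, nu_sub]
    simp only [map_sub, map_zero]
    congr 1
    · simp [nu]
    · ring

theorem two (n1 : ¬ Adm G X (jv (1, 0, 0))) (n9 : N9 (ρ y)) (f : F81 (ρ y)) (r : Rad (ρ y)) :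
    False := by
  by_cases hf : ∃ f, ρ y f = f ∧ l y f ≠ 0
  · obtain ⟨f, hf, c⟩ := hf
    let N : AddSubgroup V8 := (AddMonoidHom.mk' (nu (ρ y)) (nu_add _)).range
    have cU : ∀ a ∈ pre N, Commute (ψ a) y := fun a ⟨u, e⟩ =>
      p.comm_y.2 (by rw [← e]; exact ⟨nu_fix p.g3 u, p.l_nu u⟩)
    obtain ⟨A, le, a3, k, ad, m⟩ := p.img0 (pre N) cU fun a ⟨u, e⟩ => by
      have := p.gam_all hf c (u - ρ y u) a.c
      rwa [nu_eq, show nu (ρ y) u = a.v from e] at this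
    obtain ⟨φ, i⟩ := n9
    have := Nat.card_le_card_of_injective (fun a => (⟨_, φ a, rfl⟩ : N))
      fun a b e => i (Subtype.mk.inj e)
    rw [Nat.card_prod, Nat.card_zmod] at this
    rw [card_pre] at k
    obtain ⟨x, hx, e⟩ := p.xd.eq_J le a3 (p.img_comm cU (fun a ⟨u, e⟩ b ⟨w, e'⟩ => by
      rw [← e, ← e']; exact p.om_nu u (nu_fix p.g3 w)) m) (by omega)
    have := (ad (x⁻¹ * jv (1, 0, 0) * x) ((e _).2 ⟨(1, 0, 0), by group⟩) fun e =>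
      absurd (jv_one _ (by simpa [mul_assoc] using congrArg (x * · * x⁻¹) e)) (by decide)).conj hx
    exact n1 (by simpa [mul_assoc] using this)
  have hl : ∀ f, ρ y f = f → l y f = 0 := fun f a => by_contra fun c => hf ⟨f, a, c⟩
  have cU : ∀ a ∈ pre (Fx (ρ y)), Commute (ψ a) y := fun a ha => p.comm_y.2 ⟨ha, hl _ ha⟩
  obtain ⟨A, le, a3, k, -⟩ := p.img _ cU
  rw [card_pre] at k
  generalize hB : pre (Fx (ρ y)) ⊓ ψ'.range.comap ψ = B at k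
  have b1 : ∀ b ∈ B, b ∈ pre (Fx (ρ y)) := fun b hb => (hB.ge hb).1
  have b2 : ∀ b ∈ B, ψ b ∈ ψ'.range := fun b hb => (hB.ge hb).2
  have a27 := p.xd.le27 le a3
  have c81 := f.card
  choose u hu using fun b : B => r b.1.v (b1 b b.2) fun f hf => by
    have := Hs.commute_iff.1 (Commute.of_map p.h.inj (p.cBU ⟨_, rfl⟩ (b2 b b.2) ⟨⟨f, 0⟩, rfl⟩
      (cU ⟨f, 0⟩ hf)))
    rwa [om_swap, neg_eq_zero] at this
  have := Nat.card_le_card_of_injective (fun b : B => b.1.c + l y (u b - ρ y (u b))) fun a b e => by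
    have e1 : ψ (a * b⁻¹) = gam ψ (ρ y) (l y) (u a - u b - ρ y (u a - u b)) := by
      rw [p.gam_nu]
      congr 1
      ext1
      · rw [nu_sub, hu, hu]; simp [sub_eq_add_neg]
      · have o := p.om_nu (u a) (b1 b b.2)
        rw [hu] at o
        simp only [map_sub] at e
        simp only [Hs.mul_c, coe_inv, Hs.inv_c, Hs.inv_v, om_neg_right, o, map_sub]
        linear_combination e
    have m := mul_mem a.2 (inv_mem b.2)
    exact Subtype.ext (mul_inv_eq_one.1 (p.h.inj (e1.trans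
      ((p.star' (e1 ▸ cU _ (b1 _ m)) (e1 ▸ b2 _ m)).trans (map_one ψ).symm))))
  rw [Nat.card_zmod] at this
  nlinarith

theorem three' (n9 : N9 (ρ y)) : ∃ a ∈ [jv (1, 0, 0), jv (1, 1, 0), jv (1, -1, 0), B8L.cy],
    Adm G X a := by
  obtain ⟨A, le, a3, k, ad, -⟩ := p.img0 p.G0 (by
    rintro _ ⟨u, rfl⟩; exact p.comm_y.2 ⟨nu_fix p.g3 u, p.l_nu u⟩) (by
      rintro _ ⟨u, rfl⟩; exact ⟨_, (p.gam_nu u).symm⟩)
  obtain ⟨φ, i⟩ := n9
  have := Nat.card_le_card_of_injective (fun a => (⟨_, φ a, rfl⟩ : p.G0))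
    fun a b e => i (congrArg Hs.v (Subtype.mk.inj e))
  rw [Nat.card_prod, Nat.card_zmod] at this
  obtain ⟨a, ha, x, hx, e⟩ := p.xd.nine le a3 (by omega)
  refine ⟨_, e, (ad a ha fun c => ?_).conj hx⟩
  rw [c, mul_one, mul_inv_cancel] at e
  revert e
  decide +kernel

end Pr

/-- Proof (compare `F22L/Weak`, same style). Suppose (WC): every conjugate of `z` in `Q = ψ.range`
lies in `⟨z⟩`; WC passes to all conjugate structures `h.cj g` (same `X`).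
`Adm x := ∃ y, (IsConj z y ∨ IsConj z⁻¹ y) ∧ Commute y z ∧ y ∉ ⟨z⟩ ∧ ρ y = x`; it is closed under
inverses and conjugation by `X` (`exists_lift`, `ρ_mul`), is the same for `h.cj g`, and
`Adm x → x ∈ X, x³ = 1, x ≠ 1` (WC). Fix such a `y`, `g := ρ y`, `h'` the conjugate structure with
centre `⟨y⟩` (`Q'`, `ρ'`); `z ∉ Q'`, `⟨y⟩ ∩ Q = 1 = ⟨z⟩ ∩ Q'`.
`γ v := ψ⟨v - g v, -l y v - om v (g v)⟩`, `γ v * y = ψ⟨v,0⟩ * y * (ψ⟨v,0⟩)⁻¹` (`HS.conj_eq`).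
`U := Q ⊓ C(y)`: `ψ⟨w,c⟩ ∈ U ↔ g w = w ∧ l y w = 0` (`HS.commute_iff`). `B := U ⊓ Q'`.
(*) if `γ v ∈ U`, `γ v ≠ 1`, then `γ v * y` is a conjugate of `y` commuting with `y`, not in
`⟨y⟩`; so `Adm (ρ' (γ v))` and `γ v ∉ Q'`. Hence (G0): a subgroup `Γ ≤ U` all of whose elements
are of the form `γ v` is mapped injectively by `ρ'` (`h'.ρs`, `card_eq`, `range_le`) onto a
subgroup of `X` of exponent 3 whose nontrivial elements are `Adm`.
Always `|U| = |B| |ρ'(U)| ≤ 27 |B|` (`card_eq`, `XD.le27`), `[B, U] ≤ Q' ∩ ⟨z⟩ = 1`.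
`y³ = 1` gives `l y (v + g v + g (g v)) = 0` (`l_mul`), and `(1-g)² v = v + g v + g (g v)`.
For `f ∈ Fx g`: `γ (v + f) = γ v * ψ⟨0, -l y f⟩` (`Sp.om_fix`). Put `N = {(1-g)² u}`; for
`v = u - g u` one has `γ v = ψ⟨(1-g)² u, -l y v⟩ ∈ U` (`om v (g v) = 0` by `om_fix`, as
`v - g v ∈ Fx g`), and `u ↦ γ (u - g u)` is a homomorphism; its image `Γ₀` has order `≥ |N|`.
(1) `¬ Adm (jv (1,0,0))`. Here `g v = (v.1 + v.2, v.2)` (`jv_ap`, `w0_ap`), `Fx g = {v.2 = 0}` is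
isotropic of order 81 and equals `{v - g v}`. If `l y f ≠ 0` for some `f ∈ Fx g`, then
`U` (order `≥ 81`) consists of elements `γ v`; (G0) contradicts `le27`. Otherwise
`U = pre (Fx g)` has order 243, is abelian, and `γ v ∈ U` for all `v`. Claim `|B| ≤ 9`: let
`L = {v | ∃ c, ψ⟨v - g v, c⟩ ∈ B}`, `c = c v` is unique and additive (`B ∩ ⟨z⟩ = 1`),
`μ = c + l y`, `q v = om v (g v)`; by (*) `μ v + q v ≠ 0` if `v ∈ L`, `v ≠ g v`. If `|B| > 9`,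
the hom `ψ⟨w,c⟩ ↦ w.1.2 ∈ W2` on `B` has a nontrivial element in the kernel: `v ∈ L`,
`v.2.2 = 0`, `v ≠ g v`, `q v = 0`, so `μ v ≠ 0`; the hom `μ` on `B` has a nontrivial element in
its kernel: `k ∈ L`, `μ k = 0`, `q k ≠ 0`; applying the inequality to `±(k + v)` and `±(k - v)`
gives `q (k+v) = 0 = q (k-v)`, whose sum is `2 q k + 2 q v`: contradiction. So `|ρ'(U)| ≥ 27`,
it is conjugate to `J` (`XD.eq_J`); `U` centralizes `B`, so `B` embeds in the fixed space of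
`ρ'(U)` (`h'.commute_iff`, `B ∩ ⟨y⟩ = 1`), of order 3 (`fix_J`); `243 ≤ 27 * 3` is false.
(2) `¬ Adm g` for `g = jv (1,1,0), jv (1,-1,0), cy`. Check in coordinates: `9 ≤ |N|`,
`81 ≤ |Fx g|`, and `v ∈ Fx g`, `om v (Fx g) = 0` imply `v ∈ N`. If `l y f ≠ 0` for some
`f ∈ Fx g`, the abelian group `T = pre N ≤ U` of order `≥ 27` consists of elements `γ v`; by
(G0) and `eq_J` a conjugate of `jv (1,0,0)` is `Adm`, against (1). Otherwise `U = pre (Fx g)`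
has order `≥ 243`, `B ≤ Z(U) ≤ T`, `B ⊓ Γ₀ = ⊥`, `Γ₀ ≤ T`, `T` abelian of order `3 |N|`, so
`|B| ≤ 3` and `243 ≤ 27 * 3`.
(3) `¬ Adm g` for `g = jv (1,1,1), jv (1,1,-1)`: `9 ≤ |N|`; (G0) for `Γ₀` and `XD.nine`
contradict (1), (2). Finish with `XD.reps`. -/
theorem HS.not_wc (h : HS z ψ ρ l X) (xd : XD X) {g : G} (c : Commute (g * z * g⁻¹) z)
    (n : g * z * g⁻¹ ∉ zpowers z) :
    ∃ g : G, g * z * g⁻¹ ∈ ψ.range ∧ g * z * g⁻¹ ∉ zpowers z := by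
  by_contra! hc
  have wc : WC z ψ := fun t ht m => by
    rcases ht with ht | ht <;> obtain ⟨k, e⟩ := isConj_iff.1 ht
    exacts [e ▸ hc k (e ▸ m), inv_mem_iff.1 (e ▸ hc k (e ▸ inv_mem m))]
  have n1 : ¬ Adm G X (jv (1, 0, 0)) := fun a => by
    obtain ⟨_, _, _, _, _, _, _, _, _, p, e⟩ := a.pr xd
    exact p.not100 e
  have n2 : ∀ x, N9 x → F81 x → Rad x → ¬ Adm G X x := fun x a b c d => by
    obtain ⟨_, _, _, _, _, _, _, _, _, p, rfl⟩ := d.pr xd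
    exact p.two n1 a b c
  have n3 : ∀ a ∈ [jv (1, 0, 0), jv (1, 1, 0), jv (1, -1, 0), cy], ¬ Adm G X a := by
    simp only [List.forall_mem_cons, List.not_mem_nil, false_imp_iff, implies_true, and_true]
    exact ⟨n1, n2 _ n9_110 f81_110 rad_110, n2 _ n9_120 f81_120 rad_120, n2 _ n9_cy f81_cy rad_cy⟩
  have n4 : ∀ x, N9 x → ¬ Adm G X x := fun x a d => by
    obtain ⟨_, _, _, _, _, _, _, _, _, p, rfl⟩ := d.pr xd
    obtain ⟨a, ha, b⟩ := p.three' a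
    exact n3 a ha b
  have a : Adm G X (ρ (g * z * g⁻¹)) := ⟨z, _, ψ, ρ, l, h, wc, .inl (isConj_iff.2 ⟨g, rfl⟩), c, n, rfl⟩
  obtain ⟨x, hx, b, hb, e⟩ := xd.reps (h.ρ_mem c) (by
    rw [← h.ρ_pow c, conj_pow, h.z3, mul_one, mul_inv_cancel, h.ρ_one]) a.ne
  have a' : Adm G X (x * b * x⁻¹) := Adm.conj (by
    rcases hb with rfl | rfl
    exacts [a, a.inv]) hx
  simp only [List.mem_cons, List.not_mem_nil, or_false] at e
  rcases e with e | e | e | e | e | e <;> rw [e] at a'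
  exacts [n1 a', n3 _ (by simp) a', n3 _ (by simp) a', n3 _ (by simp) a', n4 _ n9_111 a',
    n4 _ n9_112 a']

end Cfsg.Agent.B8L
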