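import Mathlib
import Cfsg.Agent.B8L.Gen
import Cfsg.Agent.B8L.Weak
import Cfsg.Agent.B8L.Fus
import Cfsg.Agent.B8L.Dl
import Cfsg.Agent.B8L.Cen

/-! The centralizer of the involution `r`. -/

set_option autoImplicit false

namespace Cfsg.Agent.B8L

open Subgroup
open Cfsg.Agent.F22L (F3 W2 o2 SL qi qj Wr map_f3)

variable {G : Type*} [Group G] {z : G} {ψ : Hs →* G} {ρ : G → A8} {l : G → V8 →+ F3}
  {X : Subgroup A8}

/-- The subgroup generated by the elements of order dividing nine centralizing `r`. -/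
def N3 (r : G) : Subgroup G := closure {x | x ^ 9 = 1 ∧ Commute x r}

theorem N3_le {r x : G} (h : x ∈ N3 r) : Commute x r :=
  mem_centralizer_singleton_iff.1 ((closure_le _).2
    (fun _ h => mem_centralizer_singleton_iff.2 h.2) h)

theorem N3_sub (r : G) : (N3 r).subgroupOf (centralizer {r}) =
    Subgroup.closure {x : centralizer ({r} : Set G) | x ^ 9 = 1} := by
  rw [N3, show {x | x ^ 9 = 1 ∧ Commute x r} = (centralizer {r}).subtype ''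
      {x : centralizer ({r} : Set G) | x ^ 9 = 1} from
    Set.ext fun x => ⟨fun h => ⟨⟨x, mem_centralizer_singleton_iff.2 h.2⟩, Subtype.ext h.1, rfl⟩,
      by rintro ⟨x, h, rfl⟩; exact ⟨congrArg Subtype.val h, mem_centralizer_singleton_iff.1 x.2⟩⟩,
    ← MonoidHom.map_closure]
  exact comap_map_eq_self_of_injective (subtype_injective _) _

instance (H : Type*) [Group H] : (closure {x : H | x ^ 9 = 1}).Normal :=
  ⟨fun n hn g => (show (closure {x : H | x ^ 9 = 1}).map (MulAut.conj g).toMonoidHom ≤ _ by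
    rw [MonoidHom.map_closure]
    refine closure_mono ?_
    rintro _ ⟨x, h, rfl⟩
    exact (map_pow (MulAut.conj g) x 9).symm.trans (by rw [h, map_one])) ⟨n, hn, rfl⟩⟩

theorem DL.der {δ : ↥(X ⊓ centralizer {r0}) →* Wr} (d : DL X δ) (xd : XD X) :
    ∃ t ∈ δ.range, ∀ i, t.s i ≠ i := by
  refine ⟨_, ⟨⟨jv (1, 1, 0), xd.jv _, mem_centralizer_singleton_iff.2 (by decide +kernel)⟩, rfl⟩,
    fun i e => ?_⟩
  have := congrFun ((po_io _).symm.trans (congrArg po (d.act ⟨jv (1, 1, 0), xd.jv _,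
    mem_centralizer_singleton_iff.2 (by decide +kernel)⟩ (Pi.single i (1, 0))))) i
  rw [Wr.smul_single, e, Pi.single_eq_same, (by decide +kernel : ∀ i,
    po (jv (1, 1, 0) (io (Pi.single i (1, 0)))) i = 0) i, smul_eq_zero_iff_eq] at this
  exact absurd this (by decide)

namespace HS

variable (h : HS z ψ ρ l X)
include h

theorem cQ {x : G} (c : ∀ q ∈ ψ.range, Commute x q) : x ∈ zpowers z := by
  have a := c z h.zmem
  obtain ⟨u, rfl⟩ := h.ker x a (LinearEquiv.ext fun v =>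
    ((h.commute_iff a).1 (c _ ⟨⟨v, 0⟩, rfl⟩)).1)
  exact h.mem_zp.2 (om_nondeg fun w => (Hs.commute_iff (y := ⟨w, 0⟩)).1
    (Commute.of_map h.inj (c _ ⟨⟨w, 0⟩, rfl⟩)))

variable {r : G} (hr : r ∈ h.H0) (ρr : ρ r = r0)
include hr ρr

theorem comm_r {x : Hs} : Commute (ψ x) r ↔ r0 x.v = x.v := by
  rw [Commute.symm_iff, h.commute_iff hr.1, ρr, hr.2]; simp

omit hr in
theorem r_ne : r ≠ 1 := fun c => absurd (ρr.symm.trans (c ▸ h.ρ_one)) (by decide +kernel)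

theorem cQ0 {δ : ↥(X ⊓ centralizer {r0}) →* Wr} (d : DL X δ) {x : G} (xr : Commute x r) {k : ℕ}
    (x3 : x ^ 3 ^ k = 1) (c : ∀ q ∈ ψ.range, Commute q r → Commute x q) : x ∈ zpowers z := by
  have a := c z h.zmem hr.1.symm
  have c' := fun v => c _ ⟨⟨io v, 0⟩, rfl⟩ ((h.comm_r hr ρr).2 (r0_io v))
  rcases (d.ker ⟨ρ x, h.ρ_mem a, mem_centralizer_singleton_iff.2 (ρr ▸ h.ρ_comm a hr.1 xr)⟩).1
    (Wr.ext_smul fun v => by
      rw [one_smul, ← po_io (_ • v), d.act, ((h.commute_iff a).1 (c' v)).1, po_io]) with e | e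
  · obtain ⟨u, rfl⟩ := h.ker x a e
    have f := io_po ((h.comm_r hr ρr).1 xr)
    rw [h.mem_zp, ← f, F22L.om_nondeg (v := po u.v) fun w => by
      rw [← om_io, f]; exact (Hs.commute_iff (y := ⟨io w, 0⟩)).1 (Commute.of_map h.inj (c' w))]
    decide +kernel
  · have := h.ρ_pow a (3 ^ k)
    rw [x3, h.ρ_one, show ρ x = r0 from e] at this
    exact absurd ((pow_eq_one_iff_of_coprime (m := 2) (Nat.Coprime.pow_right k (by norm_num))).1
      ⟨by rw [pow_two, r0_sq], this.symm⟩) (by decide +kernel)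

theorem inverter {g : G} (gr : Commute g r) {k c : F3} (k0 : k ≠ 0)
    (e : g * z * g⁻¹ = ψ ⟨k • bv 0, c⟩) {x : Hs} (e' : g⁻¹ * z * g = ψ x) :
    ∃ q ∈ ψ.range, ∃ q' ∈ ψ.range, Commute q r ∧ Commute q' r ∧
      (q * (g * q' * g⁻¹) * q) ^ 2 * z * ((q * (g * q' * g⁻¹) * q) ^ 2)⁻¹ = z⁻¹ := by
  have n : g * z * g⁻¹ ∉ zpowers z := fun m => by
    rw [e, h.mem_zp, smul_eq_zero_iff_right k0] at m
    exact absurd m (by decide)
  have xr := io_po ((h.comm_r hr ρr).1 (e' ▸ (gr.inv_left.mul_left hr.1.symm).mul_left gr))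
  obtain ⟨w, hw⟩ := F22L.exists_om (v := po x.v) fun c => n (by
    rcases zp3 h.z3 (e' ▸ h.mem_zp.2 (by rw [← xr, c]; decide +kernel)) with a | a | a
    · exact absurd (by simpa [mul_eq_one_iff_eq_inv] using a) h.z1
    · rw [show g * z * g⁻¹ = z by nth_rw 1 [← a]; group]; exact mem_zpowers z
    · rw [← inv_mem_iff, show (g * z * g⁻¹)⁻¹ = z by rw [conj_inv, ← a]; group]
      exact mem_zpowers z)
  have zi : ψ ⟨0, -1⟩ = z⁻¹ := by rw [← h.zz, ← map_inv]; rfl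
  obtain ⟨q, hq, qr, qy⟩ : ∃ q ∈ ψ.range, Commute q r ∧
      q * (g * z * g⁻¹) * q⁻¹ = z * (g * z * g⁻¹) := by
    refine ⟨_, ⟨⟨-k • bv 7, 0⟩, rfl⟩, (h.comm_r hr ρr).2 (by rw [map_smul]; rfl), ?_⟩
    rw [← mul_inv_eq_iff_eq_mul, e, ← map_inv, ← map_inv, ← map_mul, ← map_mul, ← map_mul, Hs.comm,
      ← h.zz]
    rw [(by decide +kernel : ∀ k : F3, k ≠ 0 → -om (-k • bv 7) (k • bv 0) = 1) k k0]
  obtain ⟨p, hp, pr, pz⟩ : ∃ q ∈ ψ.range, Commute q r ∧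
      g * q * g⁻¹ * z * (g * q * g⁻¹)⁻¹ = (g * z * g⁻¹)⁻¹ * z := by
    refine ⟨_, ⟨⟨-io w, 0⟩, rfl⟩, (h.comm_r hr ρr).2 (by rw [map_neg]; rfl), ?_⟩
    have := congrArg ψ (Hs.comm ⟨-io w, 0⟩ x)
    rw [om_neg_left, om_swap, ← xr, om_io, hw, neg_neg, zi] at this
    simp only [map_mul, map_inv, ← e'] at this
    rw [conj_inv (a := z), ← this]; group
  refine ⟨q, hq, p, hp, qr, pr, ?_⟩
  have qz : q * z * q⁻¹ = z := by
    obtain ⟨u, rfl⟩ := hq; rw [(h.cψ u).eq, mul_inv_cancel_right]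
  have py : g * p * g⁻¹ * (g * z * g⁻¹) * (g * p * g⁻¹)⁻¹ = g * z * g⁻¹ := by
    obtain ⟨u, rfl⟩ := hp; rw [conj_mul, (h.cψ u).eq]; group
  have yz : Commute (g * z * g⁻¹) z := e ▸ h.cψ _
  generalize g * p * g⁻¹ = p, g * z * g⁻¹ = y at *
  have k : ∀ a, q * p * q * a * (q * p * q)⁻¹ = q * (p * (q * a * q⁻¹) * p⁻¹) * q⁻¹ := fun a => by
    group
  have a1 : q * p * q * z * (q * p * q)⁻¹ = y⁻¹ := by
    rw [k, qz, pz, ← conj_mul, ← conj_inv, qy, qz, mul_inv_rev, inv_mul_cancel_right]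
  have a2 : q * p * q * y * (q * p * q)⁻¹ = z := by
    rw [k, qy, ← conj_mul (b := p), pz, py, mul_assoc y⁻¹, ← yz.eq, inv_mul_cancel_left, qz]
  rw [show (q * p * q) ^ 2 * z * ((q * p * q) ^ 2)⁻¹ = q * p * q * (q * p * q * z * (q * p * q)⁻¹) *
    (q * p * q)⁻¹ by rw [pow_two]; group, a1, ← conj_inv, a2]

variable (r2 : r * r = 1)
include r2

theorem lift_T3 {x : A8} (hx : x ∈ T3 X) : ∃ a ∈ h.H0, ρ a = x ∧ a ∈ N3 r := by
  induction hx using closure_induction with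
  | mem x hx =>
    obtain ⟨a, ha, rfl⟩ := h.exists_lift hx.1
    refine ⟨a, ha, rfl, subset_closure ⟨?_, h.comm_inv ha hr r2 (ρr ▸ hx.2.2)⟩⟩
    rw [show 9 = 3 * 3 from rfl, pow_mul]
    exact ψ3 (h.ker _ (ha.1.pow_left 3) ((h.ρ_pow ha.1 3).trans hx.2.1))
  | one => exact ⟨1, one_mem _, h.ρ_one, one_mem _⟩
  | mul x y _ _ a b =>
    obtain ⟨a, ha, rfl, ma⟩ := a
    obtain ⟨b, hb, rfl, mb⟩ := b
    exact ⟨_, mul_mem ha hb, h.ρ_mul ha.1 hb.1, mul_mem ma mb⟩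
  | inv x _ a =>
    obtain ⟨a, ha, rfl, ma⟩ := a
    exact ⟨_, inv_mem ha, h.ρ_inv ha.1, inv_mem ma⟩

omit h hr ρr r2 in
theorem Q_N3 {q : G} (hq : q ∈ ψ.range) (c : Commute q r) : q ∈ N3 r :=
  subset_closure ⟨by rw [show 9 = 3 * 3 from rfl, pow_mul, ψ3 hq, one_pow], c⟩

theorem mem_N3 {c : G} (cz : Commute c z) (cr : Commute c r) (m : ρ c ∈ T3 X) : c ∈ N3 r := by
  obtain ⟨a, ha, e, ma⟩ := h.lift_T3 hr ρr r2 m
  refine (mul_mem_cancel_right (inv_mem ma)).1 (Q_N3 (h.ker _ (cz.mul_left ha.1.inv_left) ?_)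
    (cr.mul_left (N3_le ma).inv_left))
  rw [h.ρ_mul cz ha.1.inv_left, h.ρ_inv ha.1, e, mul_inv_cancel]

theorem other (xd : XD X) : ∃ m, Commute (m * r * m⁻¹) r ∧ m * r * m⁻¹ ≠ r := by
  obtain ⟨m, hm, e⟩ := h.exists_lift (xd.R (f0_mem qi_mem))
  have k : ρ (m * r * m⁻¹) = f0 qi * r0 * (f0 qi)⁻¹ := by
    rw [h.ρ_mul (mul_mem hm hr).1 hm.1.inv_left, h.ρ_mul hm.1 hr.1, h.ρ_inv hm.1, e, ρr]
  exact ⟨m, h.comm_inv (mul_mem (mul_mem hm hr) (inv_mem hm)) hr r2 (by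
    rw [k, ρr]; decide +kernel), fun c => absurd (k.symm.trans (c.symm ▸ ρr)) (by decide +kernel)⟩

variable [Finite G]

theorem quot' {δ : ↥(X ⊓ centralizer {r0}) →* Wr} (d : DL X δ) {g : G} (gr : Commute g r) {k c : F3}
    (k0 : k ≠ 0) (e : g * z * g⁻¹ = ψ ⟨k • bv 0, c⟩) {B : Type*} [Group B]
    (π : centralizer ({r} : Set G) →* B) (hs : Function.Surjective π)
    (hk : ∀ c, π c = 1 ↔ c.1 = 1 ∨ c.1 = r) :
    ∃ (z' : B) (ψ' : F22L.Hs →* B) (ρ' : B → Wr) (l' : B → F22L.V →+ F3),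
      F22L.HS z' ψ' ρ' l' δ.range ∧ ∃ g, g * z' * g⁻¹ ∈ ψ'.range ∧ g * z' * g⁻¹ ∉ zpowers z' := by
  obtain ⟨ψ', ρ', l', h', f⟩ := h.quot hr ρr r2 d π hs hk
    (mem_centralizer_singleton_iff.2 hr.1.symm)
  have i : io (po (k • bv 0)) = k • bv 0 := io_po (by rw [map_smul]; rfl)
  obtain ⟨m, hm⟩ := f ⟨po (k • bv 0), c⟩
  have a : π ⟨g, mem_centralizer_singleton_iff.2 gr⟩ *
      π ⟨z, mem_centralizer_singleton_iff.2 hr.1.symm⟩ *
      (π ⟨g, mem_centralizer_singleton_iff.2 gr⟩)⁻¹ = ψ' ⟨po (k • bv 0), c⟩ := by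
    rw [hm, ← map_inv, ← map_mul, ← map_mul]
    exact congrArg π (Subtype.ext (e.trans (by simp only [i])))
  refine ⟨_, ψ', ρ', l', h', _, ⟨_, a.symm⟩, fun n => ?_⟩
  rw [a, h'.mem_zp] at n
  rw [show po (k • bv 0) = 0 from n] at i
  exact (by decide +kernel : ∀ k : F3, k ≠ 0 → io 0 ≠ k • bv 0) k k0 i

end HS

end Cfsg.Agent.B8L
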