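import Mathlib
import Cfsg.Agent.B8L.Gen

/-! Central extensions of order two. -/

set_option autoImplicit false

namespace Cfsg.Agent.B8L

open Subgroup

variable {G B : Type*} [Group G] [Group B]

theorem comm_self {N : Subgroup B} [IsSimpleGroup N] (h : ¬ IsMulCommutative N) : ⁅N, N⁆ = N := by
  rw [← map_subtype_commutator, (inferInstance : (commutator N).Normal).eq_bot_or_eq_top.resolve_left
    fun e => h ⟨⟨fun a b => commutatorElement_eq_one_iff_mul_comm.1 (mem_bot.1
      (e.le (commutator_mem_commutator (mem_top a) (mem_top b))))⟩⟩, ← MonoidHom.range_eq_map,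
    range_subtype]

theorem relIndex_comm (π : G →* B) (hs : Function.Surjective π) {r : G} (r2 : r * r = 1)
    (hk : ∀ c, π c = 1 ↔ c = 1 ∨ c = r) {N : Subgroup B} (hN : ⁅N, N⁆ = N) :
    (⁅N.comap π, N.comap π⁆).relIndex (N.comap π) ∣ 2 := by
  refine relIndex_dvd_two_iff.2 ⟨r, by simp [(hk r).2 (.inr rfl)], fun b hb => ?_⟩
  obtain ⟨a, ha, e⟩ : π b ∈ (⁅N.comap π, N.comap π⁆).map π := by
    rwa [map_commutator, map_comap_eq_self_of_surjective hs, hN]
  rcases (hk (a⁻¹ * b)).1 (by rw [map_mul, map_inv, e, inv_mul_cancel]) with c | c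
  · exact .inr (inv_mul_eq_one.1 c ▸ ha)
  · exact .inl (by rwa [inv_mul_eq_iff_eq_mul.1 c, mul_assoc, r2, mul_one])

instance normal_zp (r : G) : ((zpowers r).subgroupOf (centralizer {r})).Normal :=
  ⟨fun a ⟨k, ha⟩ b => ⟨k, by
    change r ^ k = b.1 * a.1 * b.1⁻¹
    rw [← show r ^ k = a.1 from ha, (Commute.zpow_right (mem_centralizer_singleton_iff.1 b.2) k).eq,
      mul_inv_cancel_right]⟩⟩

theorem quot_ker {r : G} (r2 : r * r = 1) (c : centralizer ({r} : Set G)) :
    QuotientGroup.mk' ((zpowers r).subgroupOf (centralizer {r})) c = 1 ↔ c.1 = 1 ∨ c.1 = r :=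
  (QuotientGroup.eq_one_iff c).trans (zp2 r2)

end Cfsg.Agent.B8L
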