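import Mathlib
import Cfsg.Agent.B8L.XD

/-! The faithful module of dimension eight of `Q₈ ∘ Q₈ ∘ Q₈`. -/

set_option autoImplicit false

namespace Cfsg.Agent.B8L

open Subgroup
open Cfsg.Agent.F22L (F3 W2 o2 SL qi qj Wr map_f3)

namespace MkB

variable {t a b c : A8} {W : Submodule F3 V8} {v : V8}

/-- the relations of the quaternion group -/
structure Qp (t a b : A8) : Prop where
  a2 : a * a = t
  b2 : b * b = t
  ba : b * a = t * (a * b)

theorem Qp.conj (h : Qp t a b) (hc : Commute c t) : Qp t (c * a * c⁻¹) (c * b * c⁻¹) :=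
  have e : c * t * c⁻¹ = t := by rw [hc.eq, mul_inv_cancel_right]
  ⟨by rw [conj_mul, h.a2, e], by rw [conj_mul, h.b2, e], by
    rw [conj_mul, conj_mul, h.ba, ← conj_mul, e]⟩

/-- the `-1`-eigenspace -/
def Vm (t : A8) : Submodule F3 V8 := LinearMap.eqLocus t.toLinearMap (-LinearMap.id)

/-- the highest vectors -/
def Kr (a b : A8) : Submodule F3 V8 := LinearMap.eqLocus b.toLinearMap (LinearMap.id + a.toLinearMap)

theorem mem_Vm : v ∈ Vm t ↔ t v = -v := Iff.rfl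
theorem mem_Kr : v ∈ Kr a b ↔ b v = v + a v := Iff.rfl

theorem comm_ap (h : Commute c a) (v : V8) : c (a v) = a (c v) := LinearEquiv.congr_fun h.eq v

/-- invariance -/
def Iv (c : A8) (W : Submodule F3 V8) : Prop := ∀ v ∈ W, c v ∈ W

theorem iv_Vm (h : Commute c t) : Iv c (Vm t) := fun v hv => by
  rw [mem_Vm, ← comm_ap h, mem_Vm.1 hv, map_neg]

theorem Iv.inf (h : Iv c W) (h1 : Commute a c) (h2 : Commute b c) : Iv c (W ⊓ Kr a b) :=
  fun v hv => ⟨h v hv.1, by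
    rw [SetLike.mem_coe, mem_Kr, comm_ap h1, comm_ap h2, mem_Kr.1 hv.2, map_add]⟩

theorem v3 (v : V8) : v + v + v = 0 := by ext <;> simp [three]

namespace Qp

variable (h : Qp t a b)
include h

theorem at' : Commute a t := h.a2 ▸ (Commute.refl a).mul_right (Commute.refl a)
theorem bt : Commute b t := h.b2 ▸ (Commute.refl b).mul_right (Commute.refl b)
theorem aa (hv : v ∈ Vm t) : a (a v) = -v := (LinearEquiv.congr_fun h.a2 v).trans hv
theorem bb (hv : v ∈ Vm t) : b (b v) = -v := (LinearEquiv.congr_fun h.b2 v).trans hv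
theorem ba' (hv : v ∈ Vm t) : b (a v) = -a (b v) :=
  (LinearEquiv.congr_fun h.ba v).trans (iv_Vm h.at' _ (iv_Vm h.bt _ hv))

theorem step (hW : W ≤ Vm t) (ha : Iv a W) (hb : Iv b W) (h0 : ∃ v ∈ W, v ≠ 0) :
    ∃ v ∈ W ⊓ Kr a b, v ≠ 0 := by
  obtain ⟨v, hv, h0⟩ := h0
  have key : ∀ v ∈ W, a v - b v - v ∈ W ⊓ Kr a b := fun v hv =>
    ⟨W.sub_mem (W.sub_mem (ha v hv) (hb v hv)) hv, by
      rw [SetLike.mem_coe, mem_Kr]
      simp only [map_sub, h.aa (hW hv), h.bb (hW hv), h.ba' (hW hv)]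
      linear_combination (exp := 1) v3 v⟩
  by_contra! e
  have e1 := e _ (key v hv)
  have e2 := e _ (key _ (ha v hv))
  have e3 := congrArg a e1
  simp only [map_sub, map_zero, h.aa (hW hv), h.ba' (hW hv)] at e2 e3
  have e4 : a v = -v := by linear_combination (exp := 1) e2 + e3 + v3 v + v3 (a v)
  have e5 := h.aa (hW hv)
  rw [e4, map_neg, e4] at e5
  exact h0 (by linear_combination (exp := 1) v3 v - e5)

end Qp

section dbl

variable {M : Type} [AddCommGroup M] [Module F3 M] {φ : M →ₗ[F3] V8}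

/-- doubling -/
def dbl (a : A8) (φ : M →ₗ[F3] V8) : M × M →ₗ[F3] V8 := φ.coprod (a.toLinearMap ∘ₗ φ)

theorem dbl_ap (x : M × M) : dbl a φ x = φ x.1 + a (φ x.2) := rfl

theorem dbl_mem (ha : Iv a W) (hφ : ∀ x, φ x ∈ W) (x : M × M) : dbl a φ x ∈ W :=
  W.add_mem (hφ _) (ha _ (hφ _))

theorem dbl_comm (h : Commute c a) {g : M → M} (hg : ∀ x, φ (g x) = c (φ x)) (x : M × M) :
    dbl a φ (g x.1, g x.2) = c (dbl a φ x) := by
  simp only [dbl_ap, hg, map_add, comm_ap h]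

variable (h : Qp t a b) (hφ : ∀ x, φ x ∈ Vm t) (hk : ∀ x, φ x ∈ Kr a b)
include h hφ

theorem dbl_i (x : M × M) : dbl a φ (tw qi x) = a (dbl a φ x) := by
  simp [dbl_ap, tw, qi, h.aa (hφ _), add_comm]

include hk

theorem dbl_j (x : M × M) : dbl a φ (tw qj x) = b (dbl a φ x) := by
  simp [dbl_ap, tw, qj, h.aa (hφ _), h.ba' (hφ _), mem_Kr.1 (hk _)]
  abel

theorem dbl_inj (hi : Function.Injective φ) : Function.Injective (dbl a φ) :=
  (injective_iff_map_eq_zero _).2 fun x e => by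
    rw [dbl_ap] at e
    have e1 := congrArg a e
    have e2 := congrArg b e
    simp only [map_add, map_zero, h.aa (hφ _), h.ba' (hφ _), mem_Kr.1 (hk _)] at e1 e2
    have e3 : a (φ x.2) = φ x.2 := by
      linear_combination (exp := 1) e2 - e - e1 + v3 (a (φ x.2)) - v3 (φ x.2)
    have e4 := h.aa (hφ x.2)
    rw [e3, e3] at e4
    have e5 : φ x.2 = 0 := by linear_combination (exp := 1) v3 (φ x.2) - e4
    rw [e5, map_zero, add_zero] at e
    exact Prod.ext (hi (e.trans φ.map_zero.symm)) (hi (e5.trans φ.map_zero.symm))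

end dbl

/-- two pairs commute -/
structure C2 (a b c d : A8) : Prop where
  ac : Commute a c
  ad : Commute a d
  bc : Commute b c
  bd : Commute b d

theorem exists_map {a₀ b₀ a₁ b₁ a₂ b₂ : A8} (t1 : t ≠ 1) (t2 : t * t = 1) (h₀ : Qp t a₀ b₀)
    (h₁ : Qp t a₁ b₁) (h₂ : Qp t a₂ b₂) (c : C2 a₀ b₀ a₁ b₁) (d : C2 a₀ b₀ a₂ b₂)
    (e : C2 a₁ b₁ a₂ b₂) : ∃ θ : A8, θ⁻¹ * a₀ * θ = f0 qi ∧ θ⁻¹ * b₀ * θ = f0 qj ∧
      θ⁻¹ * a₁ * θ = f1 qi ∧ θ⁻¹ * b₁ * θ = f1 qj ∧ θ⁻¹ * a₂ * θ = f2 qi ∧ θ⁻¹ * b₂ * θ = f2 qj := by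
  have i₂ := ((iv_Vm h₂.at').inf d.ac d.bc).inf e.ac e.bc
  have i₁ := (iv_Vm h₁.at').inf c.ac c.bc
  obtain ⟨u, hu, u0⟩ := h₂.step (inf_le_left.trans inf_le_left) i₂
    (((iv_Vm h₂.bt).inf d.ad d.bd).inf e.ad e.bd) (h₁.step inf_le_left i₁
      ((iv_Vm h₁.bt).inf c.ad c.bd) (h₀.step le_rfl (iv_Vm h₀.at') (iv_Vm h₀.bt) (by
        obtain ⟨v, hv⟩ : ∃ v, t v ≠ v := not_forall.1 fun e => t1 (LinearEquiv.ext e)
        refine ⟨t v - v, ?_, sub_ne_zero.2 hv⟩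
        rw [mem_Vm, map_sub, ← mul_ap, t2, one_ap, neg_sub])))
  let φ := LinearMap.toSpanSingleton F3 V8 u
  have m₃ : ∀ x, φ x ∈ Vm t ⊓ Kr a₀ b₀ ⊓ Kr a₁ b₁ ⊓ Kr a₂ b₂ := fun x => Submodule.smul_mem _ x hu
  have m₂ := dbl_mem i₂ fun x => (m₃ x).1
  have m₁ := dbl_mem i₁ fun x => (m₂ x).1
  have hi := dbl_inj h₀ (fun x => (m₁ x).1) (fun x => (m₁ x).2) (dbl_inj h₁ (fun x => (m₂ x).1.1)
    (fun x => (m₂ x).2) (dbl_inj h₂ (fun x => (m₃ x).1.1.1) (fun x => (m₃ x).2)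
      (smul_left_injective F3 u0)))
  have k : ∀ {x y : A8}, (∀ v, dbl a₀ (dbl a₁ (dbl a₂ φ)) (y v) = x (dbl a₀ (dbl a₁ (dbl a₂ φ)) v)) →
      (LinearEquiv.ofInjectiveEndo _ hi)⁻¹ * x * LinearEquiv.ofInjectiveEndo _ hi = y := fun e => by
    rw [mul_assoc, inv_mul_eq_iff_eq_mul]
    exact LinearEquiv.ext fun v => (e v).symm
  have r : ∀ (a : SL) (v : V8), f2 a v = ((tw a v.1.1, tw a v.1.2), (tw a v.2.1, tw a v.2.2)) :=
    fun _ _ => rfl
  refine ⟨LinearEquiv.ofInjectiveEndo _ hi, k fun v => ?_, k fun v => ?_, k fun v => ?_,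
    k fun v => ?_, k fun v => ?_, k fun v => ?_⟩
  · rw [f0_ap, dbl_i h₀ fun x => (m₁ x).1]
  · rw [f0_ap, dbl_j h₀ (fun x => (m₁ x).1) fun x => (m₁ x).2]
  · rw [f1_ap, dbl_comm c.ac.symm (dbl_i h₁ fun x => (m₂ x).1.1)]
  · rw [f1_ap, dbl_comm c.ad.symm (dbl_j h₁ (fun x => (m₂ x).1.1) fun x => (m₂ x).2)]
  · rw [r, dbl_comm (g := fun y => (tw qi y.1, tw qi y.2)) d.ac.symm
      (dbl_comm e.ac.symm (dbl_i h₂ fun x => (m₃ x).1.1.1))]
  · rw [r, dbl_comm (g := fun y => (tw qj y.1, tw qj y.2)) d.ad.symm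
      (dbl_comm e.ad.symm (dbl_j h₂ (fun x => (m₃ x).1.1.1) fun x => (m₃ x).2))]

theorem exists_eps {θ : A8} (h : ∀ r ∈ R0, Sp (θ * r * θ⁻¹)) :
    ∃ ε : F3, ε ≠ 0 ∧ ∀ v v', om (θ v) (θ v') = ε * om v v' := by
  choose S hS using fun w => exists_dual (AddMonoidHom.mk' (fun v => om (θ w) (θ v))
    fun v v' => by rw [map_add, om_add_right])
  replace hS : ∀ w v, om (θ w) (θ v) = om (S w) v := hS
  have ex : ∀ {u u' : V8}, (∀ v, om u v = om u' v) → u = u' := fun e =>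
    sub_eq_zero.1 (om_nondeg fun v => by rw [om_sub_left, e, sub_self])
  obtain ⟨ε, hε⟩ := scalar
    { toFun := S
      map_add' := fun w w' => ex fun v => by rw [om_add_left, ← hS, ← hS, ← hS, map_add, om_add_left]
      map_smul' := fun c w => ex fun v => by
        rw [om_smul_left, ← hS, ← hS, map_smul, om_smul_left]; rfl } fun r hr w => ex fun v => by
    obtain ⟨v, rfl⟩ := r.surjective v
    have h1 := h r hr (θ w) (θ v)
    obtain ⟨x, -, rfl⟩ := hr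
    refine Eq.trans (hS _ _).symm (Eq.trans ?_ ((hS w v).trans (sp_ff x _ _).symm))
    simpa [mul_ap] using h1
  replace hε : ∀ v, S v = ε • v := hε
  refine ⟨ε, fun e => absurd (θ.map_eq_zero_iff.1 (om_nondeg (v := θ (bv 0)) fun w => ?_))
    (by decide), fun v v' => by rw [hS, hε, om_smul_left]⟩
  obtain ⟨w, rfl⟩ := θ.surjective w
  rw [hS, hε, e, zero_smul, om_zero_left]

theorem eq_of_conj {g k : A8} (g3 : g ^ 3 = 1) (k3 : k ^ 3 = 1)
    (h : ∀ x ∈ [f0 qi, f0 qj, f1 qi, f1 qj, f2 qi, f2 qj], g * x * g⁻¹ = k * x * k⁻¹) : g = k := by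
  have m : ∀ x ∈ [f0 qi, f0 qj, f1 qi, f1 qj, f2 qi, f2 qj], x ∈ centralizer {k⁻¹ * g} := fun x hx => by
    rw [mem_centralizer_singleton_iff, ← mul_left_cancel_iff (a := k), ← mul_assoc, ← mul_assoc,
      ← h x hx]
    group
  rcases cent_R0 (g := k⁻¹ * g) fun r hr => Commute.symm (mem_centralizer_singleton_iff.1
    (R0_ind (m _ (by simp)) (m _ (by simp)) (m _ (by simp)) (m _ (by simp)) (m _ (by simp))
      (m _ (by simp)) hr)) with e | e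
  · exact (inv_mul_eq_one.1 e).symm
  · rw [inv_mul_eq_iff_eq_mul.1 e, (ng_comm k).symm.mul_pow, k3, one_mul, pow_three, ng_sq,
      mul_one] at g3
    exact absurd g3 ng_ne

end MkB

open MkB in
/-- The module of `Q₈ ∘ Q₈ ∘ Q₈` is the tensor cube. -/
theorem Gn.exists_θ {t a b w p : A8} (h : Gn t a b w p) (pt : Commute p t) (sa : Sp a) (sb : Sp b)
    (sp : Sp p) : ∃ (θ : A8) (ε : F3), ε ≠ 0 ∧ (∀ v v', om (θ v) (θ v') = ε * om v v') ∧
      θ⁻¹ * a * θ = f0 qi ∧ θ⁻¹ * b * θ = f0 qj ∧ θ⁻¹ * w * θ = jv (1, 0, 0) ∧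
      θ⁻¹ * p * θ = cy := by
  have q : Qp t a b := ⟨h.a2, h.b2, h.ba⟩
  have pi : p⁻¹ = p * p := inv_eq_of_mul_eq_one_right (by rw [← pow_three, h.p3])
  have e : ∀ x, p * (p * x * p⁻¹) * p⁻¹ = p⁻¹ * x * p := fun x => by
    rw [← mul_assoc, ← mul_assoc, ← pi, mul_assoc _ p⁻¹, ← mul_inv_rev, ← pi, inv_inv]
  have c1 : ∀ {x y}, Commute x (p * y * p⁻¹) → Commute (p * x * p⁻¹) (p⁻¹ * y * p) :=
    fun {x y} c => e y ▸ c.map (MulAut.conj p)
  have c2 : ∀ {x y}, Commute x (p * y * p⁻¹) → Commute y (p⁻¹ * x * p) := fun c => by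
    simpa [mul_assoc] using (c.map (MulAut.conj p⁻¹)).symm
  obtain ⟨θ, a0, b0, a1, b1, a2, b2⟩ := exists_map h.t1 h.t2 q (q.conj pt)
    (by simpa using q.conj pt.inv_left : Qp t (p⁻¹ * a * p) (p⁻¹ * b * p))
    ⟨h.aa, h.ab, h.ba', h.bb⟩ ⟨c2 h.aa, c2 h.ba', c2 h.ab, c2 h.bb⟩ ⟨c1 h.aa, c1 h.ab, c1 h.ba', c1 h.bb⟩
  let P : Subgroup A8 :=
    { carrier := {r | Sp (θ * r * θ⁻¹)}
      one_mem' := fun v w => by simp
      mul_mem' := fun x y => by simpa [mul_assoc] using Sp.mul x y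
      inv_mem' := fun x => by simpa [mul_assoc] using Sp.inv x }
  have m : ∀ {x y}, θ⁻¹ * x * θ = y → Sp x → y ∈ P := fun e s => by
    simpa [P, ← e, mul_assoc] using s
  obtain ⟨ε, e0, e1⟩ := exists_eps (θ := θ) fun r hr => R0_ind (m a0 sa) (m b0 sb)
    (m a1 ((sp.mul sa).mul sp.inv)) (m b1 ((sp.mul sb).mul sp.inv))
    (m a2 ((sp.inv.mul sa).mul sp)) (m b2 ((sp.inv.mul sb).mul sp)) hr
  have c3 : ∀ {x}, x ^ 3 = 1 → (θ⁻¹ * x * θ) ^ 3 = 1 := fun {x} e => by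
    simpa [e] using conj_pow (a := θ⁻¹) (b := x) (i := 3)
  have k : ∀ {g x y x' y' z}, θ⁻¹ * x * θ = x' → θ⁻¹ * y * θ = y' → g * x * g⁻¹ = y → z = y' →
      θ⁻¹ * g * θ * x' * (θ⁻¹ * g * θ)⁻¹ = z := by
    rintro g x _ _ _ _ rfl rfl rfl rfl; group
  have cm : ∀ {x y : A8}, Commute x y → x * y * x⁻¹ = y := fun c => by
    rw [c.eq, mul_inv_cancel_right]
  refine ⟨θ, ε, e0, e1, a0, b0, eq_of_conj (c3 h.w3) (jv_cube _) ?_, eq_of_conj (c3 h.p3) cy3 ?_⟩ <;>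
    simp only [List.forall_mem_cons, List.not_mem_nil, false_imp_iff, implies_true, and_true]
  · exact ⟨k a0 b0 h.wa (by decide +kernel),
      k b0 (y' := f0 qi * f0 qj) (by rw [← a0, ← b0]; group) h.wb (by decide +kernel),
      k a1 a1 (cm h.wa1) (by decide +kernel), k b1 b1 (cm h.wb1) (by decide +kernel),
      k a2 a2 (cm h.wa2) (by decide +kernel), k b2 b2 (cm h.wb2) (by decide +kernel)⟩
  · exact ⟨k a0 a1 rfl rfl, k b0 b1 rfl rfl, k a1 a2 (e a) rfl, k b1 b2 (e b) rfl,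
      k a2 a0 (by group) rfl, k b2 b0 (by group) rfl⟩

end Cfsg.Agent.B8L
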