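import Mathlib
import Cfsg.Prelude.Def_LocalStructure
import Cfsg.Agent.Grp.Extraspecial
import Cfsg.Agent.PLocal.FStar
import Cfsg.Agent.S0098
import Cfsg.Agent.B8L.XD

/-! From the hypotheses on `Q` to coordinates. -/

set_option autoImplicit false

namespace Cfsg.Agent.B8L

open Subgroup
open Cfsg.Agent.F22L (F3 W2 o2 SL qi qj Wr map_f3)

variable {G : Type*} [Group G]

theorem mkq_fl {z : G} {ψ : Hs →* G} (inj : Function.Injective ψ) (zz : ψ ⟨0, 1⟩ = z)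
    {h : G} (hz : Commute h z) (nm : ∀ x, h * ψ x * h⁻¹ ∈ ψ.range) :
    ∃ (f : A8) (l : V8 →+ F3), ∀ x, h * ψ x * h⁻¹ = ψ ⟨f x.v, x.c + l x.v⟩ := by
  have hc : ∀ c, h * ψ ⟨0, c⟩ * h⁻¹ = ψ ⟨0, c⟩ := fun c => by
    have : ψ ⟨0, c⟩ = z ^ c.val := by rw [← zz, ← map_pow, Hs.pow_val]; simp
    rw [this, (hz.pow_right _).eq, mul_inv_cancel_right]
  choose γ hγ using nm
  have m : ∀ x y, γ (x * y) = γ x * γ y := fun x y => inj (by
    rw [map_mul, hγ, hγ, hγ, map_mul, conj_mul])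
  have e : ∀ x, γ x = ⟨(γ ⟨x.v, 0⟩).v, x.c + (γ ⟨x.v, 0⟩).c⟩ := fun x => by
    have : γ ⟨0, x.c⟩ = ⟨0, x.c⟩ := inj (by rw [hγ, hc])
    conv_lhs => rw [show x = ⟨0, x.c⟩ * ⟨x.v, 0⟩ by simp [Hs.mk_mul], m, this]
    ext1 <;> simp
  have o : ∀ v w, om (γ ⟨v, 0⟩).v (γ ⟨w, 0⟩).v = om v w := fun v w => by
    have h1 := inj (show ψ ⟨0, -om (γ ⟨v, 0⟩).v (γ ⟨w, 0⟩).v⟩ = ψ ⟨0, -om v w⟩ by
      rw [← Hs.comm, ← hc (-om v w), ← Hs.comm ⟨v, 0⟩ ⟨w, 0⟩]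
      simp only [map_mul, map_inv, hγ]; group)
    exact neg_injective (congrArg Hs.c h1)
  have a : ∀ v w, (γ ⟨v + w, 0⟩).v = (γ ⟨v, 0⟩).v + (γ ⟨w, 0⟩).v ∧
      (γ ⟨v + w, 0⟩).c = (γ ⟨v, 0⟩).c + (γ ⟨w, 0⟩).c := fun v w => by
    have := (e _).symm.trans (m ⟨v, 0⟩ ⟨w, 0⟩)
    have h2 := congrArg Hs.c this
    simp only [Hs.mul_c, Hs.mul_v, o] at h2
    exact ⟨congrArg Hs.v this, by linear_combination h2⟩
  let f : V8 →+ V8 := .mk' (fun v => (γ ⟨v, 0⟩).v) fun v w => (a v w).1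
  let F : V8 →ₗ[F3] V8 := ⟨f, fun c v => map_f3 f c v⟩
  have hF : Function.Injective F := (injective_iff_map_eq_zero F).2 fun v hv =>
    om_nondeg fun w => by
      rw [← o v w, show (γ ⟨v, 0⟩).v = 0 from hv, om_zero_left]
  exact ⟨LinearEquiv.ofInjectiveEndo F hF, .mk' (fun v => (γ ⟨v, 0⟩).c) fun v w => (a v w).2,
    fun x => by rw [← hγ, e]; rfl⟩

theorem exists_HS_of {z : G} {ψ : Hs →* G} (inj : Function.Injective ψ) (zz : ψ ⟨0, 1⟩ = z)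
    (nm : ∀ h, Commute h z → ∀ x, h * ψ x * h⁻¹ ∈ ψ.range)
    (sc : ∀ h, Commute h z → (∀ x, Commute h (ψ x)) → h ∈ ψ.range) :
    ∃ ρ l X, HS z ψ ρ l X := by
  choose! ρ l act using fun h (hz : Commute h z) => mkq_fl inj zz hz (nm h hz)
  have cψ : ∀ x, Commute (ψ x) z := fun x => by
    rw [← zz]
    exact ((Hs.commute_iff (x := x) (y := ⟨0, 1⟩)).2 (om_zero_right x.v)).map ψ
  have mul : ∀ a b, Commute a z → Commute b z → ρ (a * b) = ρ a * ρ b := fun a b ha hb =>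
    LinearEquiv.ext fun v => congrArg Hs.v (inj ((act (a * b) (ha.mul_left hb) ⟨v, 0⟩).symm.trans
      (show _ = ψ ⟨ρ a (ρ b v), 0 + l b v + l a (ρ b v)⟩ by
        rw [show a * b * ψ ⟨v, 0⟩ * (a * b)⁻¹ = a * (b * ψ ⟨v, 0⟩ * b⁻¹) * a⁻¹ by group, act b hb,
          act a ha])))
  let ρh : centralizer ({z} : Set G) →* A8 := MonoidHom.mk' (fun a => ρ a) fun a b =>
    mul _ _ (mem_centralizer_singleton_iff.1 a.2) (mem_centralizer_singleton_iff.1 b.2)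
  refine ⟨ρ, l, ρh.range, inj, zz, act, fun h hz e => ?_, fun x => ⟨?_, ?_⟩⟩
  · obtain ⟨u, hu⟩ := exists_dual (l h)
    have k : h * ψ ⟨u, 0⟩ ∈ ψ.range := sc _ (hz.mul_left (cψ _)) fun x => by
      rw [Commute, SemiconjBy, ← mul_inv_eq_iff_eq_mul,
        show h * ψ ⟨u, 0⟩ * ψ x * (h * ψ ⟨u, 0⟩)⁻¹ =
          h * ψ (⟨u, 0⟩ * x * (⟨u, 0⟩ : Hs)⁻¹ * x⁻¹ * x) * h⁻¹ by
            simp only [map_mul, map_inv]; group, Hs.comm, act h hz, e, hu]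
      congr 1
      ext1 <;> simp
    simpa using mul_mem k (inv_mem (show ψ ⟨u, 0⟩ ∈ ψ.range from ⟨_, rfl⟩))
  · rintro ⟨a, rfl⟩
    exact ⟨a, mem_centralizer_singleton_iff.1 a.2, rfl⟩
  · rintro ⟨a, ha, rfl⟩
    exact ⟨⟨a, mem_centralizer_singleton_iff.2 ha⟩, rfl⟩

theorem HS.change {z : G} {ψ : Hs →* G} {ρ : G → A8} {l : G → V8 →+ F3} {X : Subgroup A8}
    (h : HS z ψ ρ l X) {θ : A8} {ε : F3} (hε : ε ≠ 0) (hθ : ∀ v w, om (θ v) (θ w) = ε * om v w) :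
    ∃ z' ψ' ρ' l', HS z' ψ' ρ' l' (X.map (MulAut.conj θ⁻¹).toMonoidHom) ∧
      zpowers z' = zpowers z := by
  have e2 : ε * ε = 1 := (by decide : ∀ ε : F3, ε ≠ 0 → ε * ε = 1) ε hε
  let κ : Hs →* Hs := MonoidHom.mk' (fun x => ⟨θ x.v, ε * x.c⟩) fun x y => by
    ext1
    · simp
    · simp [hθ, mul_add]
  have kk : ∀ x, κ x = ⟨θ x.v, ε * x.c⟩ := fun _ => rfl
  have zp : zpowers (ψ ⟨0, ε⟩) = zpowers z := by
    refine le_antisymm (zpowers_le_of_mem (h.mem_zp.2 rfl)) (zpowers_le_of_mem ⟨(ε.val : ℤ), ?_⟩)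
    simp only [zpow_natCast]
    rw [← map_pow, Hs.pow_val, ← h.zz]
    simp [e2]
  have cm : ∀ a, Commute a (ψ ⟨0, ε⟩) ↔ Commute a z := fun a =>
    ⟨fun c => by
      obtain ⟨k, hk⟩ := zp.ge (mem_zpowers z)
      exact hk ▸ c.zpow_right k,
    fun c => by
      obtain ⟨k, hk⟩ := zp.le (mem_zpowers _)
      exact hk ▸ c.zpow_right k⟩
  refine ⟨ψ ⟨0, ε⟩, ψ.comp κ, fun a => θ⁻¹ * ρ a * θ,
    fun a => (AddMonoidHom.mulLeft ε).comp ((l a).comp θ.toLinearMap.toAddMonoidHom),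
    ⟨h.inj.comp ((injective_iff_map_eq_one κ).2 fun x hx => ?_), ?_, fun a ha x => ?_,
      fun a ha e => ?_, fun x => ?_⟩, zp⟩
  · have h1 : θ x.v = 0 := congrArg Hs.v hx
    have h2 : ε * x.c = 0 := congrArg Hs.c hx
    ext1
    · exact (map_eq_zero_iff θ θ.injective).1 h1
    · exact (mul_eq_zero.1 h2).resolve_left hε
  · simp [kk]
  · rw [MonoidHom.comp_apply, MonoidHom.comp_apply, h.act a ((cm a).1 ha), kk, kk]
    congr 2
    · exact (θ.apply_symm_apply _).symm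
    · change _ = ε * (x.c + ε * l a (θ x.v))
      rw [mul_add, ← mul_assoc, e2, one_mul]
  · obtain ⟨x, rfl⟩ := h.ker a ((cm a).1 ha) (by
      rwa [mul_eq_one_iff_eq_inv, mul_eq_left] at e)
    refine ⟨⟨θ⁻¹ x.v, ε * x.c⟩, congrArg ψ ?_⟩
    rw [kk]
    ext1
    · exact θ.apply_symm_apply _
    · change ε * (ε * x.c) = _
      rw [← mul_assoc, e2, one_mul]
  · simp only [mem_map, h.memX, cm]
    constructor
    · rintro ⟨_, ⟨a, ha, rfl⟩, rfl⟩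
      exact ⟨a, ha, by simp⟩
    · rintro ⟨a, ha, rfl⟩
      exact ⟨_, ⟨a, ha, rfl⟩, by simp⟩

theorem Hs.isES : Grp.ES.IsES 3 (⟨0, 1⟩ : Hs) ⊤ := by
  have := Fact.mk Nat.prime_three
  have zp : ∀ c : F3, (⟨0, c⟩ : Hs) ∈ zpowers (⟨0, 1⟩ : Hs) := fun c =>
    ⟨(c.val : ℤ), by simp only [zpow_natCast]; rw [Hs.pow_val]; simp⟩
  refine ⟨orderOf_eq_prime (Hs.cube _) fun c => absurd (congrArg Hs.c c) (by decide), mem_top _,
    fun s _ => Hs.commute_iff.2 (om_zero_right _), fun a _ b _ => ?_, fun a _ c => ?_⟩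
  · rw [commutatorElement_def, Hs.comm]; exact zp _
  · rw [show a = ⟨0, a.c⟩ from Hs.ext (om_nondeg fun w =>
      (Hs.commute_iff (x := a) (y := ⟨w, 0⟩)).1 (c ⟨w, 0⟩ (mem_top _))) rfl]
    exact zp _

theorem Hs.isExtraspecial : Cfsg.IsExtraspecial 3 Hs := by
  have := Fact.mk Nat.prime_three
  refine Hs.isES.isExtraspecial_top fun c => ?_
  have h1 := Nat.card_zpowers (⟨0, 1⟩ : Hs)
  rw [← c, card_top, Hs.card, Hs.isES.ord] at h1
  omega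

theorem mkq_exp {K : Type*} [Group K] [Finite K] (hc : Nat.card K = 3 ^ 9) (he : ∀ x : K, x ^ 3 = 1) :
    Monoid.exponent K = 3 := by
  have := Fact.mk Nat.prime_three
  have : Nontrivial K := Finite.one_lt_card_iff_nontrivial.1 (by rw [hc]; norm_num)
  exact (Monoid.exponent_eq_prime_iff Nat.prime_three).2 fun g hg => orderOf_eq_prime (he g) hg

theorem exists_HS [Finite G] (Z : Subgroup G) (hZ : Nat.card Z = 3)
    (Q : Subgroup (centralizer (Z : Set G))) (hQF : Q = Cfsg.generalizedFittingSubgroup _)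
    [Q.Normal] (hQ : Cfsg.IsExtraspecial 3 Q) (hc : Nat.card Q = 3 ^ 9) (he : ∀ x ∈ Q, x ^ 3 = 1) :
    ∃ (z : G) (ψ : Hs →* G) (ρ : G → A8) (l : G → V8 →+ F3) (X : Subgroup A8), HS z ψ ρ l X ∧
      Z = zpowers z ∧ Nonempty (X ≃* (centralizer (Z : Set G)) ⧸ Q) := by
  have := Fact.mk Nat.prime_three
  obtain ⟨e⟩ := S0098.result (p := 3) (by decide) Hs.isExtraspecial hQ (mkq_exp Hs.card Hs.cube)
    (mkq_exp hc fun x => Subtype.ext (he x x.2)) (Hs.card.trans hc.symm)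
  let ψ : Hs →* G := (centralizer (Z : Set G)).subtype.comp (Q.subtype.comp e.toMonoidHom)
  have inj : Function.Injective ψ :=
    (subtype_injective _).comp ((subtype_injective _).comp e.injective)
  have rg : ∀ m : centralizer (Z : Set G), (m : G) ∈ ψ.range ↔ m ∈ Q := fun m =>
    ⟨fun ⟨x, hx⟩ => (Subtype.ext hx : (e x : centralizer (Z : Set G)) = m) ▸ (e x).2,
      fun hm => ⟨e.symm ⟨m, hm⟩, by simp [ψ]⟩⟩
  have cf : ∀ m : centralizer (Z : Set G), (∀ x, Commute (m : G) (ψ x)) → m ∈ Q := fun m hm => by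
    rw [hQF]
    refine PLocal.centralizer_fstar_le _ fun q hq => Subtype.ext ?_
    obtain ⟨x, hx⟩ := (rg q).2 (hQF ▸ hq)
    exact (hx ▸ hm x).symm.eq
  have cy : IsCyclic Z := isCyclic_of_prime_card hZ
  have le : Z ≤ zpowers (ψ ⟨0, 1⟩) := fun a ha => by
    have h1 : a ∈ centralizer (Z : Set G) := fun b hb => by
      obtain ⟨g, hg⟩ := cy.exists_generator
      obtain ⟨i, hi⟩ := hg ⟨a, ha⟩
      obtain ⟨j, hj⟩ := hg ⟨b, hb⟩
      have := congrArg Subtype.val (Commute.zpow_zpow_self g j i).eq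
      simp only at hi hj
      rwa [hi, hj] at this
    have h2 : ∀ x, Commute a (ψ x) := fun x => (e x).1.2 a ha
    obtain ⟨x, hx⟩ := (rg ⟨a, h1⟩).2 (cf ⟨a, h1⟩ h2)
    have hx' : ψ x = a := hx
    rw [← hx', ← MonoidHom.map_zpowers]
    exact mem_map_of_mem _ (Hs.isES.center x (mem_top _) fun y _ => inj (by
      rw [map_mul, map_mul, hx', (h2 y).eq]))
  have eZ : Z = zpowers (ψ ⟨0, 1⟩) := eq_of_le_of_card_ge le (by
    rw [Nat.card_zpowers, orderOf_injective ψ inj, Hs.isES.ord, hZ])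
  have hM : ∀ h, h ∈ centralizer (Z : Set G) ↔ Commute h (ψ ⟨0, 1⟩) := fun h =>
    ⟨fun c => (c _ (eZ.ge (mem_zpowers _))).symm, fun c a ha => by
      obtain ⟨k, rfl⟩ := le ha
      exact (c.zpow_right k).symm.eq⟩
  obtain ⟨ρ, l, X, H⟩ := exists_HS_of inj rfl
    (fun h hz x => (rg (⟨h, (hM h).2 hz⟩ * (e x).1 * ⟨h, (hM h).2 hz⟩⁻¹)).2
      (Normal.conj_mem inferInstance _ (e x).2 _))
    fun h hz c => (rg ⟨h, (hM h).2 hz⟩).2 (cf _ c)
  let φ : centralizer (Z : Set G) →* X :=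
    (H.ρs _ fun a ha => (hM a).1 ha).codRestrict X fun a => H.ρ_mem ((hM a).1 a.2)
  have hs : Function.Surjective φ := fun x => by
    obtain ⟨a, ha, hx⟩ := (H.memX x).1 x.2
    exact ⟨⟨a, (hM a).2 ha⟩, Subtype.ext hx⟩
  have hk : φ.ker = Q := by
    ext m
    rw [← rg, ← H.ρ_eq_one ((hM m).1 m.2), MonoidHom.mem_ker, Subtype.ext_iff]
    rfl
  exact ⟨_, ψ, ρ, l, X, H, eZ, ⟨(QuotientGroup.quotientKerEquivOfSurjective φ hs).symm.trans
    (QuotientGroup.quotientMulEquivOfEq hk)⟩⟩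

end Cfsg.Agent.B8L
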